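import Mathlib
import Cfsg.Agent.Lib.Helper2.BlockFix

set_option autoImplicit false
set_option linter.unusedSectionVars false
set_option linter.unusedVariables false
set_option linter.style.haveILetI false

/-! Classes with a given defect group and the normaliser of that group. -/

namespace Cfsg.Agent.Lib.Helper2.BlockCls

open Cfsg.Agent.Lib.Helper2.BlockFix
open scoped Pointwise

variable {G : Type*} [Group G] [Finite G] {p : ℕ} [Fact p.Prime]

theorem exists_conj_sylow_centralizer_ge' (Q : Subgroup G) (hQ : IsPGroup p Q) (g c : G)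
    (hc : ∀ q ∈ Q, q * (c * g * c⁻¹) = (c * g * c⁻¹) * q)
    (D : Sylow p (Subgroup.centralizer ({g} : Set G))) :
    ∃ x : G, x * g * x⁻¹ = c * g * c⁻¹ ∧
      Q ≤ ((D : Subgroup (Subgroup.centralizer ({g} : Set G))).map
          (Subgroup.centralizer ({g} : Set G)).subtype).map (MulAut.conj x).toMonoidHom := by
  obtain ⟨S, hS⟩ := exists_sylow_centralizer_ge Q hQ g c hc
  obtain ⟨d, hd⟩ := MulAction.exists_smul_eq (Subgroup.centralizer ({g} : Set G)) D S
  refine ⟨c * d, ?_, ?_⟩
  · have h1 : (d : G) * g = g * d := Subgroup.mem_centralizer_singleton_iff.mp d.2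
    calc c * d * g * (c * d)⁻¹ = c * ((d : G) * g) * (d : G)⁻¹ * c⁻¹ := by group
      _ = c * (g * d) * (d : G)⁻¹ * c⁻¹ := by rw [h1]
      _ = c * g * c⁻¹ := by group
  intro q hq
  obtain ⟨r, hr, hr'⟩ := hS ⟨q, hq, rfl⟩
  rw [← hd] at hr
  have h1 : r ∈ (MulAut.conj d • (D : Subgroup (Subgroup.centralizer ({g} : Set G)))) := hr
  rw [Subgroup.mem_pointwise_smul_iff_inv_smul_mem] at h1
  refine ⟨_, ⟨_, h1, rfl⟩, ?_⟩
  have h2 : (r : G) = c⁻¹ * q * c⁻¹⁻¹ := hr'
  change c * d * (((MulAut.conj d)⁻¹ • r : Subgroup.centralizer ({g} : Set G)) : G) * (c * d)⁻¹ = q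
  have h3 : (((MulAut.conj d)⁻¹ • r : Subgroup.centralizer ({g} : Set G)) : G)
      = (d : G)⁻¹ * r * d := by
    rw [← map_inv, MulAut.smul_def, MulAut.conj_apply]
    simp
  rw [h3, h2]
  group

theorem mem_normalizer_of_le_map (P : Subgroup G) (x : G)
    (h : P ≤ P.map (MulAut.conj x).toMonoidHom) : x ∈ Subgroup.normalizer (P : Set G) := by
  have h3 : Nat.card (P.map (MulAut.conj x).toMonoidHom) = Nat.card P :=
    Nat.card_congr (Subgroup.equivMapOfInjective _ _ (MulAut.conj x).injective).symm.toEquiv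
  have h4 := Subgroup.eq_of_le_of_card_ge h h3.le
  rw [Subgroup.mem_normalizer_iff]
  intro q
  constructor
  · intro hq
    rw [h4]
    exact ⟨q, hq, rfl⟩
  · intro hq
    rw [h4] at hq
    obtain ⟨r, hr, hr'⟩ := hq
    have : r = q := (MulAut.conj x).injective hr'
    rwa [← this]

/-- Two conjugates of `g` centralising a Sylow subgroup `P` of `C(g)` are conjugate in `N(P)`. -/
theorem conj_in_normalizer (g : G) (S : Sylow p (Subgroup.centralizer ({g} : Set G)))
    (c₁ c₂ : G) (h₁ : IsConj g c₁) (h₂ : IsConj g c₂)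
    (hc₁ : c₁ ∈ Subgroup.centralizer (((S : Subgroup (Subgroup.centralizer ({g} : Set G))).map
          (Subgroup.centralizer ({g} : Set G)).subtype : Subgroup G) : Set G))
    (hc₂ : c₂ ∈ Subgroup.centralizer (((S : Subgroup (Subgroup.centralizer ({g} : Set G))).map
          (Subgroup.centralizer ({g} : Set G)).subtype : Subgroup G) : Set G)) :
    ∃ n ∈ Subgroup.normalizer (((S : Subgroup (Subgroup.centralizer ({g} : Set G))).map
          (Subgroup.centralizer ({g} : Set G)).subtype : Subgroup G) : Set G),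
      n * c₁ * n⁻¹ = c₂ := by
  set P := (S : Subgroup (Subgroup.centralizer ({g} : Set G))).map
          (Subgroup.centralizer ({g} : Set G)).subtype with hP
  have hPp : IsPGroup p P := S.2.map _
  obtain ⟨a, rfl⟩ := isConj_iff.mp h₁
  obtain ⟨b, rfl⟩ := isConj_iff.mp h₂
  obtain ⟨x₁, hx₁, hx₁'⟩ := exists_conj_sylow_centralizer_ge' P hPp g a
    (fun q hq => Subgroup.mem_centralizer_iff.mp hc₁ q hq) S
  obtain ⟨x₂, hx₂, hx₂'⟩ := exists_conj_sylow_centralizer_ge' P hPp g b
    (fun q hq => Subgroup.mem_centralizer_iff.mp hc₂ q hq) S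
  refine ⟨x₂ * x₁⁻¹, Subgroup.mul_mem _ (mem_normalizer_of_le_map P x₂ hx₂')
    (Subgroup.inv_mem _ (mem_normalizer_of_le_map P x₁ hx₁')), ?_⟩
  rw [← hx₁, ← hx₂]
  group

theorem card_eq_of_card_inf_normalizer (P : Subgroup G) (X : Subgroup G) (hPX : P ≤ X)
    (hcard : Nat.card P =
      p ^ (Nat.card (X ⊓ Subgroup.normalizer (P : Set G) : Subgroup G)).factorization p) :
    Nat.card P = p ^ (Nat.card X).factorization p := by
  set n := (Nat.card (X ⊓ Subgroup.normalizer (P : Set G) : Subgroup G)).factorization p with hn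
  have hp : p.Prime := Fact.out
  have hP' : Nat.card (P.subgroupOf X) = p ^ n := by
    rw [← hcard]
    exact Nat.card_congr (Subgroup.subgroupOfEquivOfLe hPX).toEquiv
  have h1 : ¬ p ^ (n + 1) ∣ Nat.card X := by
    intro hdvd
    have h2 := Sylow.prime_pow_dvd_card_normalizer hdvd hP'
    rw [← Subgroup.subgroupOf_normalizer_eq hPX, ← Subgroup.inf_subgroupOf_right,
      Nat.card_congr (Subgroup.subgroupOfEquivOfLe (inf_le_right :
        Subgroup.normalizer (P : Set G) ⊓ X ≤ X)).toEquiv, inf_comm] at h2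
    exact Nat.pow_succ_factorization_not_dvd Nat.card_pos.ne' hp h2
  have h2 : p ^ n ∣ Nat.card X := by
    rw [← hcard]
    exact Subgroup.card_dvd_of_le hPX
  have h3 : (Nat.card X).factorization p = n := by
    apply le_antisymm
    · by_contra hlt
      push Not at hlt
      exact h1 ((hp.pow_dvd_iff_le_factorization Nat.card_pos.ne').mpr hlt)
    · exact (hp.pow_dvd_iff_le_factorization Nat.card_pos.ne').mp h2
  rw [h3, hcard]

theorem exists_sylow_map_eq (P X : Subgroup G) (hPX : P ≤ X)
    (hcard : Nat.card P = p ^ (Nat.card X).factorization p) :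
    ∃ S : Sylow p X, (S : Subgroup X).map X.subtype = P := by
  have hP' : Nat.card (P.subgroupOf X) = p ^ (Nat.card X).factorization p := by
    rw [← hcard]
    exact Nat.card_congr (Subgroup.subgroupOfEquivOfLe hPX).toEquiv
  refine ⟨Sylow.ofCard (P.subgroupOf X) hP', ?_⟩
  rw [Sylow.coe_ofCard, Subgroup.map_subgroupOf_eq_of_le hPX]

theorem card_map_sylow (X : Subgroup G) (S : Sylow p X) :
    Nat.card ((S : Subgroup X).map X.subtype) = p ^ (Nat.card X).factorization p := by
  rw [← S.card_eq_multiplicity]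
  exact Nat.card_congr
    (Subgroup.equivMapOfInjective _ _ (Subgroup.subtype_injective _)).symm.toEquiv

end Cfsg.Agent.Lib.Helper2.BlockCls
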