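import Mathlib
import Cfsg.Prelude.Def_Blocks
import Cfsg.Agent.Lib.Helper2.BlockBr2
import Cfsg.Agent.Lib.Helper2.BlockCls

set_option autoImplicit false
set_option linter.unusedSectionVars false
set_option linter.unusedVariables false
set_option linter.style.haveILetI false

/-! Classes of the normaliser of `D` with defect group `D`. -/

namespace Cfsg.Agent.Lib.Helper2.BlockFMT

open Cfsg Cfsg.Agent.Lib.Helper7.CharIrr Cfsg.Agent.Lib.Helper7.CharOrth
  Cfsg.Agent.Lib.Helper7.CharIntegral Cfsg.Agent.Lib.Helper7.CharMore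
  Cfsg.Agent.Lib.Helper7.CharClassAlg Cfsg.Agent.Lib.Helper7.CharComplete
  Cfsg.Agent.Lib.Helper2.LocRing Cfsg.Agent.Lib.Helper2.CentralMod
  Cfsg.Agent.Lib.Helper2.BlockZ Cfsg.Agent.Lib.Helper2.BlockOrth Cfsg.Agent.Lib.Helper2.BlockFix
  Cfsg.Agent.Lib.Helper2.BlockLam Cfsg.Agent.Lib.Helper2.BlockN Cfsg.Agent.Lib.Helper2.BlockSub
  Cfsg.Agent.Lib.Helper2.BlockAvg Cfsg.Agent.Lib.Helper2.BlockBr Cfsg.Agent.Lib.Helper2.BlockBr2
  Cfsg.Agent.Lib.Helper2.BlockCls
open scoped ComplexConjugate

variable {G : Type*} [Group G] [Fintype G] {p : ℕ} [Fact p.Prime]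

theorem centralizer_sub_eq (N : Subgroup G) (l : N) :
    Subgroup.centralizer ({l} : Set N) = (Subgroup.centralizer ({(l : G)} : Set G)).subgroupOf N := by
  ext x
  rw [Subgroup.mem_centralizer_singleton_iff, Subgroup.mem_subgroupOf,
    Subgroup.mem_centralizer_singleton_iff]
  constructor
  · intro h; exact congrArg Subtype.val h
  · intro h; exact Subtype.ext h

theorem card_centralizer_sub (N : Subgroup G) (l : N) :
    Nat.card (Subgroup.centralizer ({l} : Set N)) =
      Nat.card (Subgroup.centralizer ({(l : G)} : Set G) ⊓ N : Subgroup G) := by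
  rw [centralizer_sub_eq, ← Subgroup.inf_subgroupOf_right]
  exact Nat.card_congr (Subgroup.subgroupOfEquivOfLe inf_le_right).toEquiv

theorem card_subgroupOf_normalizer (D : Subgroup G) :
    Nat.card (D.subgroupOf (Subgroup.normalizer (D : Set G))) = Nat.card D :=
  Nat.card_congr (Subgroup.subgroupOfEquivOfLe Subgroup.le_normalizer).toEquiv

/-- a class of `N(D)` with defect group `D` has defect group `D` in `G` -/
theorem card_eq_of_sylow_sub (D : Subgroup G) (l : Subgroup.normalizer (D : Set G))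
    (S : Sylow p (Subgroup.centralizer ({l} : Set (Subgroup.normalizer (D : Set G)))))
    (hS : (S : Subgroup (Subgroup.centralizer ({l} : Set (Subgroup.normalizer (D : Set G))))).map
      (Subgroup.centralizer ({l} : Set (Subgroup.normalizer (D : Set G)))).subtype =
        D.subgroupOf (Subgroup.normalizer (D : Set G))) :
    D ≤ Subgroup.centralizer ({(l : G)} : Set G) ∧
    Nat.card D = p ^ (Nat.card (Subgroup.centralizer ({(l : G)} : Set G))).factorization p := by
  have hle : D ≤ Subgroup.centralizer ({(l : G)} : Set G) := by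
    intro d hd
    have h1 : (⟨d, Subgroup.le_normalizer hd⟩ : Subgroup.normalizer (D : Set G)) ∈
        D.subgroupOf (Subgroup.normalizer (D : Set G)) := Subgroup.mem_subgroupOf.mpr hd
    rw [← hS] at h1
    obtain ⟨r, _, hr⟩ := h1
    have h2 := Subgroup.mem_centralizer_singleton_iff.mp r.2
    have h3 : (r : Subgroup.normalizer (D : Set G)) = ⟨d, Subgroup.le_normalizer hd⟩ := hr
    rw [h3] at h2
    rw [Subgroup.mem_centralizer_singleton_iff]
    exact congrArg Subtype.val h2
  refine ⟨hle, ?_⟩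
  apply card_eq_of_card_inf_normalizer D _ hle
  have h1 := card_map_sylow _ S
  rw [hS, card_subgroupOf_normalizer, card_centralizer_sub] at h1
  exact h1

theorem br_cl_eq (D : Subgroup G) [Fintype (Subgroup.normalizer (D : Set G))]
    (l : Subgroup.normalizer (D : Set G))
    (S : Sylow p (Subgroup.centralizer ({l} : Set (Subgroup.normalizer (D : Set G)))))
    (hS : (S : Subgroup (Subgroup.centralizer ({l} : Set (Subgroup.normalizer (D : Set G))))).map
      (Subgroup.centralizer ({l} : Set (Subgroup.normalizer (D : Set G)))).subtype =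
        D.subgroupOf (Subgroup.normalizer (D : Set G))) :
    br D (Subgroup.normalizer (D : Set G)) (cl (l : G)) = cl l := by
  classical
  obtain ⟨hle, hcard⟩ := card_eq_of_sylow_sub D l S hS
  obtain ⟨T, hT⟩ := exists_sylow_map_eq D _ hle hcard
  have hlc : (l : G) ∈ Subgroup.centralizer (D : Set G) := by
    rw [Subgroup.mem_centralizer_iff]
    intro d hd
    exact Subgroup.mem_centralizer_singleton_iff.mp (hle hd)
  funext h
  rw [br_apply]
  unfold cl
  by_cases hc : IsConj l h
  · obtain ⟨n, rfl⟩ := isConj_iff.mp hc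
    have h1 : ((n * l * n⁻¹ : Subgroup.normalizer (D : Set G)) : G) = (n : G) * l * (n : G)⁻¹ := rfl
    have h2 : IsConj (l : G) ((n : G) * l * (n : G)⁻¹) := isConj_iff.mpr ⟨(n : G), rfl⟩
    rw [if_pos hc, h1, if_pos (conj_mem_centralizer n.2 hlc), if_pos h2]
  · rw [if_neg hc]
    split_ifs with h1 h2
    · exfalso
      apply hc
      obtain ⟨n, hn, hn'⟩ := conj_in_normalizer (l : G) T l h (IsConj.refl _) h2
        (by rw [hT]; exact hlc) (by rw [hT]; exact h1)
      rw [hT] at hn
      exact isConj_iff.mpr ⟨⟨n, hn⟩, Subtype.ext hn'⟩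
    · rfl
    · rfl

theorem induced_br {M : Ideal AlgInt} (hM : IsPModular p M) {P H : Subgroup G} [Fintype H]
    (hP : IsPGroup p P) (hPH : P ≤ H) (hHN : H ≤ Subgroup.normalizer (P : Set G))
    {b : Set (IrrCharacter H)} {B : Set (IrrCharacter G)} (hind : IsInducedBlock M H b B)
    {ξ : IrrCharacter H} (hξ : ξ ∈ b) {χ : IrrCharacter G} (hχ : χ ∈ B) (g : G) :
    haveI := hM.2.1.isPrime
    W (ξ : H → ℂ) (br P H (cl g)) - centralChar (χ : G → ℂ) g ∈ Iloc M := by
  classical
  haveI := hM.2.1.isPrime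
  rw [← brauerCentralChar_eq_W]
  exact sub_mem_Iloc_trans (sub_mem_Iloc_symm (induced_sub_brauer hM hP hPH hHN ξ g))
    (hind.2.2 ξ hξ χ hχ g)

end Cfsg.Agent.Lib.Helper2.BlockFMT
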