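import Mathlib
import Cfsg.Prelude.Def_Blocks
import Cfsg.Agent.Lib.Helper2.BlockReg3

set_option autoImplicit false
set_option linter.unusedSectionVars false
set_option linter.unusedVariables false
set_option linter.style.haveILetI false

/-! Sums of central elements over a Sylow subgroup. -/

namespace Cfsg.Agent.Lib.Helper2.BlockGr1

open Cfsg Cfsg.Agent.Lib.Helper7.CharIrr Cfsg.Agent.Lib.Helper7.CharOrth
  Cfsg.Agent.Lib.Helper7.CharIntegral Cfsg.Agent.Lib.Helper7.CharMore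
  Cfsg.Agent.Lib.Helper7.CharClassAlg Cfsg.Agent.Lib.Helper7.CharComplete
  Cfsg.Agent.Lib.Helper7.CharDeg Cfsg.Agent.Lib.Helper7.CharGalois
  Cfsg.Agent.Lib.Helper7.CharClassAlg2
  Cfsg.Agent.Lib.Helper2.LocRing Cfsg.Agent.Lib.Helper2.BlockP
  Cfsg.Agent.Lib.Helper2.BlockZ Cfsg.Agent.Lib.Helper2.BlockDef Cfsg.Agent.Lib.Helper2.BlockCong
  Cfsg.Agent.Lib.Helper2.BlockHt Cfsg.Agent.Lib.Helper2.BlockOrth Cfsg.Agent.Lib.Helper2.BlockAvg
  Cfsg.Agent.Lib.Helper2.BlockLam Cfsg.Agent.Lib.Helper2.BlockReg Cfsg.Agent.Lib.Helper2.BlockSub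
open scoped ComplexConjugate

variable {G : Type*} [Group G] [Fintype G]

theorem sum_sub_eq [Fintype (IrrCharacter G)] {z : G → ℂ} (hz : IsClassFunction G z)
    (D : Subgroup G) [DecidablePred (· ∈ D)] :
    ∑ x : G, (if x ∈ D then z x else 0) = ∑ χ : IrrCharacter G, W (χ : G → ℂ) z *
      (((charDegree (χ : G → ℂ) * Nat.card D : ℕ) : ℂ) / (Nat.card G : ℂ) *
        conj ((Nat.card D : ℂ)⁻¹ * ∑ x : G, (if x ∈ D then (χ : G → ℂ) x else 0))) := by
  have hD0 : (Nat.card D : ℂ) ≠ 0 := by exact_mod_cast (Nat.card_pos (α := D)).ne'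
  have h2 : ∀ x : G, (if x ∈ D then z x else 0) = ∑ χ : IrrCharacter G,
      (if x ∈ D then W (χ : G → ℂ) z * eI (χ : G → ℂ) x else 0) := by
    intro x
    split_ifs
    · conv_lhs => rw [eq_sum_W_eI hz]
      simp only [Finset.sum_apply, Pi.smul_apply, smul_eq_mul]
    · simp
  rw [Finset.sum_congr rfl (fun x _ => h2 x), Finset.sum_comm]
  apply Finset.sum_congr rfl
  intro χ _
  rw [map_mul, map_sum, map_inv₀, Complex.conj_natCast, Finset.mul_sum, Finset.mul_sum,
    Finset.mul_sum]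
  apply Finset.sum_congr rfl
  intro x _
  split_ifs
  · unfold eI
    push_cast
    rw [charDegree_cast (IsIrrCharacter.isCharacter χ.2)]
    field_simp
  · simp

/-- the coefficient attached to a character -/
noncomputable def cc (D : Subgroup G) (r : ℕ) (χ : G → ℂ) : ℂ := by
  classical exact ((charDegree χ * Nat.card D : ℕ) : ℂ) / ((Nat.card G * r : ℕ) : ℂ) *
        conj ((Nat.card D : ℂ)⁻¹ * ∑ x : G, (if x ∈ D then χ x else 0))

theorem cc_mem_Rloc {M : Ideal AlgInt} {p : ℕ} (hM : IsPModular p M) (D : Subgroup G) (r : ℕ)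
    (hr : r ≠ 0) (χ : IrrCharacter G)
    (h : (Nat.card G * r).factorization p ≤
      (charDegree (χ : G → ℂ) * Nat.card D).factorization p) :
    haveI := hM.2.1.isPrime
    cc D r (χ : G → ℂ) ∈ Rloc M := by
  classical
  haveI := hM.2.1.isPrime
  unfold cc
  apply Subring.mul_mem
  · exact div_mem_Rloc hM (Nat.mul_ne_zero (charDegree_pos χ.2).ne' (Nat.card_pos (α := D)).ne')
      (Nat.mul_ne_zero (Nat.card_pos (α := G)).ne' hr) h
  · apply integral_mem_Rloc
    have h1 := isIntegral_avg (IsIrrCharacter.isCharacter (isIrrCharacter_conj χ.2)) D 1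
      (fun t _ => by simp)
    convert h1 using 1
    rw [map_mul, map_sum, map_inv₀, Complex.conj_natCast]
    congr 1
    apply Finset.sum_congr rfl
    intro x _
    split_ifs <;> simp

theorem sum_sub_div [Fintype (IrrCharacter G)] {z : G → ℂ} (hz : IsClassFunction G z)
    (D : Subgroup G) [DecidablePred (· ∈ D)] (r : ℕ) (hr : r ≠ 0) :
    (∑ x : G, (if x ∈ D then z x else 0)) / (r : ℂ) =
      ∑ χ : IrrCharacter G, W (χ : G → ℂ) z * cc D r (χ : G → ℂ) := by
  have hr0 : (r : ℂ) ≠ 0 := Nat.cast_ne_zero.mpr hr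
  have hG0 : (Nat.card G : ℂ) ≠ 0 := Nat.cast_ne_zero.mpr Nat.card_pos.ne'
  rw [sum_sub_eq hz D, Finset.sum_div]
  apply Finset.sum_congr rfl
  intro χ _
  unfold cc
  have : (fun x : G => @ite ℂ (x ∈ D) (Classical.propDecidable _) ((χ : G → ℂ) x) 0) =
      fun x : G => if x ∈ D then (χ : G → ℂ) x else 0 := by
    funext x
    split_ifs <;> rfl
  rw [this]
  push_cast
  field_simp

/-- congruence of the normalized sum with a multiple of a fixed constant -/
theorem sum_sub_congr {M : Ideal AlgInt} {p : ℕ} (hM : IsPModular p M)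
    [Fintype (IrrCharacter G)] {B : Set (IrrCharacter G)} [DecidablePred (· ∈ B)]
    (hB : IsPBlock M B) (D : Subgroup G) [DecidablePred (· ∈ D)] (r : ℕ) (hr : r ≠ 0)
    (hdeg : ∀ χ ∈ B, (Nat.card G * r).factorization p ≤
      (charDegree (χ : G → ℂ) * Nat.card D).factorization p)
    {z : G → ℂ} (hz : IsClassFunction G z)
    (hzR : haveI := hM.2.1.isPrime; ∀ g, z g ∈ Rloc M)
    (hz0 : ∀ χ : IrrCharacter G, χ ∉ B → W (χ : G → ℂ) z = 0) {χ₀ : IrrCharacter G}
    (hχ₀ : χ₀ ∈ B) :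
    haveI := hM.2.1.isPrime
    (∑ x : G, (if x ∈ D then z x else 0)) / (r : ℂ) -
      W (χ₀ : G → ℂ) z * ∑ χ ∈ Finset.univ.filter (fun χ => χ ∈ B), cc D r (χ : G → ℂ) ∈
        Iloc M := by
  haveI := hM.2.1.isPrime
  rw [sum_sub_div hz D r hr, Finset.mul_sum, Finset.sum_filter, ← Finset.sum_sub_distrib]
  apply (Iloc M).sum_mem
  intro χ _
  by_cases hχ : χ ∈ B
  · rw [if_pos hχ, ← sub_mul]
    exact mul_mem_Iloc' (W_sub_mem_Iloc (sameBlock_of_mem hB hχ hχ₀) hz hzR)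
      (cc_mem_Rloc hM D r hr χ (hdeg χ hχ))
  · rw [if_neg hχ, hz0 χ hχ, zero_mul, sub_zero]
    exact (Iloc M).zero_mem

theorem trace_notMem {M : Ideal AlgInt} {p : ℕ} [Fact p.Prime] (hM : IsPModular p M)
    {B : Set (IrrCharacter G)} (hB : IsPBlock M B) {y : G} (hy : IsDefectClass M B y)
    (P : Sylow p G) [DecidablePred (· ∈ (P : Subgroup G))] :
    ¬ MemLocalIdeal M ((∑ x : G, (if x ∈ (P : Subgroup G) then cv (cl y) (blockCoeff B) x else 0)) /
      ((p ^ ((Subgroup.centralizer ({y} : Set G)).index).factorization p : ℕ) : ℂ)) := by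
  classical
  haveI := hM.2.1.isPrime
  haveI := Fintype.ofFinite (IrrCharacter G)
  obtain ⟨i, hi⟩ : ∃ i, i = ((Subgroup.centralizer ({y} : Set G)).index).factorization p :=
    ⟨_, rfl⟩
  rw [← hi]
  have hp := hM.1
  have hr : p ^ i ≠ 0 := pow_ne_zero _ hp.ne_zero
  have hdeg : ∀ χ ∈ B, (Nat.card G * p ^ i).factorization p ≤
      (charDegree (χ : G → ℂ) * Nat.card (P : Subgroup G)).factorization p := by
    intro χ hχ
    rw [Nat.factorization_mul Nat.card_pos.ne' hr,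
      Nat.factorization_mul (charDegree_pos χ.2).ne' Nat.card_pos.ne', P.card_eq_multiplicity]
    simp only [Finsupp.add_apply, hp.factorization_pow, Finsupp.single_eq_same]
    have := index_le_degree hM χ y (hy.2.2 χ hχ)
    omega
  obtain ⟨χ₀, hχ₀, hle⟩ := exists_degree_le_index hM hB y hy.2.1
  have hge := index_le_degree hM χ₀ y (hy.2.2 χ₀ hχ₀)
  have hχc := IsIrrCharacter.isClassFunction χ₀.2
  obtain ⟨T, hT⟩ : ∃ T, T = ∑ χ ∈ Finset.univ.filter (fun χ => χ ∈ B),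
    cc (P : Subgroup G) (p ^ i) (χ : G → ℂ) := ⟨_, rfl⟩
  have h1 := sum_sub_congr hM hB (P : Subgroup G) (p ^ i) hr hdeg (creg_isClass p hχc)
    (creg_mem_Rloc p χ₀.2) (fun ψ hψ => W_creg_eq_zero hM χ₀ ψ (fun h => hψ (by
      by_contra hψ'
      exact block_closed hB χ₀ hχ₀ ψ hψ' (sameBlock_symm (M := M) h)))) hχ₀
  rw [← hT] at h1
  have h2 : ∑ x : G, (if x ∈ (P : Subgroup G) then creg p (χ₀ : G → ℂ) x else 0) =
      (charDegree (χ₀ : G → ℂ) : ℂ) := by
    rw [Finset.sum_eq_single (1 : G)]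
    · rw [if_pos (one_mem _), creg_reg _ (by
        rw [orderOf_one]; exact hp.one_lt.ne' ∘ Nat.dvd_one.mp),
        ← charDegree_cast (IsIrrCharacter.isCharacter χ₀.2)]
      simp
    · intro x _ hx
      split_ifs with hxP
      · apply creg_sing
        obtain ⟨k, hk⟩ := (IsPGroup.iff_orderOf.mp P.2) ⟨x, hxP⟩
        rw [Subgroup.orderOf_mk] at hk
        rw [hk]
        apply dvd_pow_self
        rintro rfl
        rw [pow_zero, orderOf_eq_one_iff] at hk
        exact hx hk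
      · rfl
    · intro h; exact absurd (Finset.mem_univ _) h
  have h3 : ((charDegree (χ₀ : G → ℂ) : ℕ) : ℂ) / ((p ^ i : ℕ) : ℂ) ∉ Iloc M := by
    have e1 : p ^ i * (charDegree (χ₀ : G → ℂ) / p ^ i) = charDegree (χ₀ : G → ℂ) := by
      have : i = (charDegree (χ₀ : G → ℂ)).factorization p := by omega
      rw [this]
      exact Nat.ordProj_mul_ordCompl_eq_self _ p
    have e2 : ¬ p ∣ charDegree (χ₀ : G → ℂ) / p ^ i := by
      have : i = (charDegree (χ₀ : G → ℂ)).factorization p := by omega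
      rw [this]
      exact Nat.not_dvd_ordCompl hp (charDegree_pos χ₀.2).ne'
    have e3 : ((charDegree (χ₀ : G → ℂ) : ℕ) : ℂ) / ((p ^ i : ℕ) : ℂ) =
        ((charDegree (χ₀ : G → ℂ) / p ^ i : ℕ) : ℂ) := by
      conv_lhs => rw [← e1]
      have : ((p ^ i : ℕ) : ℂ) ≠ 0 := Nat.cast_ne_zero.mpr hr
      rw [Nat.cast_mul]
      field_simp
    rw [e3, natCast_mem_Iloc_iff hM]
    exact e2
  rw [h2] at h1
  have hTN : T ∉ Iloc M := by
    intro hc
    apply h3
    have h4 := mul_mem_Iloc (W_mem_Rloc χ₀ (creg_isClass p hχc) (creg_mem_Rloc (M := M) p χ₀.2)) hc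
    have h5 := (Iloc M).add_mem h1 h4
    rwa [sub_add_cancel] at h5
  have hz1c : IsClassFunction G (cv (cl y) (blockCoeff B)) :=
    cv_isClass (cl_isClass y) (blockCoeff_isClass B)
  have hW : ∀ χ : IrrCharacter G, W (χ : G → ℂ) (cv (cl y) (blockCoeff B)) =
      centralChar (χ : G → ℂ) y * (if χ ∈ B then 1 else 0) := by
    intro χ
    rw [W_cv χ.2 (cl_isClass y), W_cl χ.2, W_blockCoeff]
  have h6 := sum_sub_congr hM hB (P : Subgroup G) (p ^ i) hr hdeg hz1c
    (cv_mem_Rloc (fun g => cl_mem_Rloc y g) (blockCoeff_mem_Rloc B (block_closed hB)))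
    (fun ψ hψ => by rw [hW, if_neg hψ, mul_zero]) hχ₀
  rw [← hT, hW, if_pos hχ₀, mul_one] at h6
  have h7 : centralChar (χ₀ : G → ℂ) y * T ∉ Iloc M :=
    mul_notMem_Iloc (centralChar_mem_Rloc χ₀ y) (hy.2.2 χ₀ hχ₀) hTN
  exact notMem_of_sub_mem (sub_mem_Iloc_symm h6) h7

end Cfsg.Agent.Lib.Helper2.BlockGr1
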