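import Mathlib
import Cfsg.Prelude.Def_Blocks
import Cfsg.Agent.Lib.Helper2.BlockGr1
import Cfsg.Agent.Lib.Helper2.BlockFix
import Cfsg.Agent.Lib.Helper7.CharCount
import Cfsg.Agent.S0906

set_option autoImplicit false
set_option linter.unusedSectionVars false
set_option linter.unusedVariables false
set_option linter.style.haveILetI false

/-! Orbit sums and Green's theorem on Sylow intersections: the core. -/

namespace Cfsg.Agent.Lib.Helper2.BlockGr2

open Cfsg Cfsg.Agent.Lib.Helper7.CharIrr Cfsg.Agent.Lib.Helper7.CharOrth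
  Cfsg.Agent.Lib.Helper7.CharIntegral Cfsg.Agent.Lib.Helper7.CharMore
  Cfsg.Agent.Lib.Helper7.CharClassAlg Cfsg.Agent.Lib.Helper7.CharComplete
  Cfsg.Agent.Lib.Helper7.CharDeg Cfsg.Agent.Lib.Helper7.CharGalois
  Cfsg.Agent.Lib.Helper7.CharClassAlg2 Cfsg.Agent.Lib.Helper7.CharCount
  Cfsg.Agent.Lib.Helper2.LocRing Cfsg.Agent.Lib.Helper2.BlockP
  Cfsg.Agent.Lib.Helper2.BlockZ Cfsg.Agent.Lib.Helper2.BlockDef Cfsg.Agent.Lib.Helper2.BlockCong
  Cfsg.Agent.Lib.Helper2.BlockHt Cfsg.Agent.Lib.Helper2.BlockOrth Cfsg.Agent.Lib.Helper2.BlockAvg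
  Cfsg.Agent.Lib.Helper2.BlockLam Cfsg.Agent.Lib.Helper2.BlockReg Cfsg.Agent.Lib.Helper2.BlockSub
  Cfsg.Agent.Lib.Helper2.BlockGr1 Cfsg.Agent.Lib.Helper2.BlockFix
open scoped ComplexConjugate

theorem sum_orbit_mem {Q X : Type*} [Group Q] [MulAction Q X] [Fintype X] (F : X → ℂ)
    (hinv : ∀ (q : Q) (x : X), F (q • x) = F x) (S : AddSubmonoid ℂ)
    (h : ∀ x, (Nat.card (MulAction.orbit Q x) : ℂ) * F x ∈ S) : ∑ x, F x ∈ S := by
  classical
  haveI : Fintype (MulAction.orbitRel.Quotient Q X) := Fintype.ofFinite _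
  rw [← Finset.sum_fiberwise Finset.univ
    (fun x => (Quotient.mk'' x : MulAction.orbitRel.Quotient Q X)) F]
  apply S.sum_mem
  intro ω _
  induction ω using Quotient.inductionOn' with
  | h x₀ =>
    have h1 : ∀ x ∈ Finset.univ.filter (fun x : X =>
        (Quotient.mk'' x : MulAction.orbitRel.Quotient Q X) = Quotient.mk'' x₀), F x = F x₀ := by
      intro x hx
      have h2 := (Finset.mem_filter.mp hx).2
      have h3 : x ∈ MulAction.orbit Q x₀ := MulAction.orbitRel_apply.mp (Quotient.eq''.mp h2)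
      obtain ⟨q, rfl⟩ := h3
      exact hinv q x₀
    rw [Finset.sum_congr rfl h1, Finset.sum_const, nsmul_eq_mul]
    have h4 : (Finset.univ.filter (fun x : X =>
        (Quotient.mk'' x : MulAction.orbitRel.Quotient Q X) = Quotient.mk'' x₀)).card =
        Nat.card (MulAction.orbit Q x₀) := by
      rw [Nat.card_eq_fintype_card, Fintype.card_subtype]
      congr 1
      ext x
      simp only [Finset.mem_filter, Finset.mem_univ, true_and]
      rw [Quotient.eq'']
      exact MulAction.orbitRel_apply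
    rw [h4]
    exact h x₀

variable {G : Type*} [Group G]

/-- the conjugation action of a subgroup -/
@[reducible] def conjAct' (P : Subgroup G) : MulAction P G :=
  MulAction.compHom G ((MulAut.conj).comp P.subtype)

theorem conjAct'_smul (P : Subgroup G) (q : P) (x : G) :
    letI := conjAct' P
    q • x = (q : G) * x * (q : G)⁻¹ := rfl

theorem card_orbit_conj [Finite G] (P : Subgroup G) (x : G) :
    letI := conjAct' P
    Nat.card (MulAction.orbit P x) *
      Nat.card (P ⊓ Subgroup.centralizer ({x} : Set G) : Subgroup G) = Nat.card P := by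
  letI := conjAct' P
  have h1 : Nat.card (MulAction.orbit P x) = (MulAction.stabilizer P x).index := by
    rw [Subgroup.index_eq_card]
    exact Nat.card_congr (MulAction.orbitEquivQuotientStabilizer P x)
  have h2 : MulAction.stabilizer P x = (Subgroup.centralizer ({x} : Set G)).subgroupOf P := by
    ext q
    rw [MulAction.mem_stabilizer_iff, Subgroup.mem_subgroupOf,
      Subgroup.mem_centralizer_singleton_iff, conjAct'_smul]
    exact mul_inv_eq_iff_eq_mul
  have h3 : Nat.card ((Subgroup.centralizer ({x} : Set G)).subgroupOf P) =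
      Nat.card (P ⊓ Subgroup.centralizer ({x} : Set G) : Subgroup G) := by
    rw [inf_comm, ← Subgroup.inf_subgroupOf_right]
    exact Nat.card_congr (Subgroup.subgroupOfEquivOfLe inf_le_right).toEquiv
  rw [h1, ← h3, ← h2]
  exact Subgroup.index_mul_card _

variable [Fintype G]

theorem factorization_inf_conj_le {M : Ideal AlgInt} {p : ℕ} [Fact p.Prime] (hM : IsPModular p M)
    {B : Set (IrrCharacter G)} (hB : IsPBlock M B) {y : G} (hy : IsDefectClass M B y)
    (P : Subgroup G) (hP : IsPGroup p P) [DecidablePred (· ∈ P)] (x : G)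
    (hs : ¬ MemLocalIdeal M (∑ u, if u ∈ P then blockCoeff B (x⁻¹ * u) else 0)) :
    (Nat.card (P ⊓ P.map (MulAut.conj x).toMonoidHom : Subgroup G)).factorization p +
      ((Subgroup.centralizer ({y} : Set G)).index).factorization p ≤
        (Nat.card G).factorization p := by
  classical
  haveI := hM.2.1.isPrime
  obtain ⟨Q, hQ⟩ : ∃ Q : Subgroup G, Q = P ⊓ P.map (MulAut.conj x).toMonoidHom := ⟨_, rfl⟩
  rw [← hQ]
  have hQp : IsPGroup p Q := by
    rw [hQ]; exact hP.to_le inf_le_left
  have hQ1 : ∀ q ∈ Q, q ∈ P := fun q hq => by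
    rw [hQ] at hq; exact hq.1
  have hQ2 : ∀ q ∈ Q, x⁻¹ * q * x ∈ P := fun q hq => by
    rw [hQ] at hq
    obtain ⟨u, hu, hu'⟩ := hq.2
    have : q = x * u * x⁻¹ := hu'.symm
    rw [this]
    have e : x⁻¹ * (x * u * x⁻¹) * x = u := by group
    rw [e]; exact hu
  have hR := blockCoeff_mem_Rloc (M := M) B (block_closed hB)
  have h1 : ∑ u, (if u ∈ P then blockCoeff B (x⁻¹ * u) else 0) =
      ∑ w, (if w * x ∈ P then blockCoeff B w else 0) := by
    rw [← Equiv.sum_comp (Equiv.mulRight x)]
    apply Finset.sum_congr rfl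
    intro w _
    have e : x⁻¹ * (w * x) = x⁻¹ * w * x⁻¹⁻¹ := by group
    show (if w * x ∈ P then blockCoeff B (x⁻¹ * (w * x)) else 0) = _
    rw [e, blockCoeff_isClass B w x⁻¹]
  rw [h1] at hs
  have h2 := sum_fixed hM Q hQp (fun w => if w * x ∈ P then blockCoeff B w else 0)
    (fun w => by
      by_cases hw : w * x ∈ P
      · rw [if_pos hw]; exact hR w
      · rw [if_neg hw]; exact Subring.zero_mem _)
    (fun q hq w => by
      have e : q * w * q⁻¹ * x = q * (w * x) * (x⁻¹ * q * x)⁻¹ := by group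
      have hiff : q * w * q⁻¹ * x ∈ P ↔ w * x ∈ P := by
        rw [e, P.mul_mem_cancel_right (P.inv_mem (hQ2 q hq)), P.mul_mem_cancel_left (hQ1 q hq)]
      rw [blockCoeff_isClass B w q]
      by_cases hw : w * x ∈ P
      · rw [if_pos hw, if_pos (hiff.mpr hw)]
      · rw [if_neg hw, if_neg (fun h => hw (hiff.mp h))])
  have h3 : ∃ w : G, (∀ q ∈ Q, q * w = w * q) ∧ blockCoeff B w ∉ Iloc M := by
    by_contra hcon
    push Not at hcon
    apply hs
    have h4 : ∑ w, (if ∀ q ∈ Q, q * w = w * q then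
        (if w * x ∈ P then blockCoeff B w else 0) else 0) ∈ Iloc M := by
      apply (Iloc M).sum_mem
      intro w _
      split_ifs with ha hb
      · exact hcon w ha
      · exact (Iloc M).zero_mem
      · exact (Iloc M).zero_mem
    have h5 := (Iloc M).add_mem h2 h4
    rwa [sub_add_cancel] at h5
  obtain ⟨w, hw, hwe⟩ := h3
  obtain ⟨χ₁, hχ₁, hle⟩ := exists_degree_le_index hM hB w hwe
  have hge := index_le_degree hM χ₁ y (hy.2.2 χ₁ hχ₁)
  have hQw : Q ≤ Subgroup.centralizer ({w} : Set G) := by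
    intro q hq
    rw [Subgroup.mem_centralizer_singleton_iff]
    exact hw q hq
  have h6 : (Nat.card Q).factorization p ≤
      (Nat.card (Subgroup.centralizer ({w} : Set G))).factorization p :=
    (Nat.factorization_le_iff_dvd Nat.card_pos.ne' Nat.card_pos.ne').mpr
      (Subgroup.card_dvd_of_le hQw) p
  have h7 : (Nat.card (Subgroup.centralizer ({w} : Set G))).factorization p +
      ((Subgroup.centralizer ({w} : Set G)).index).factorization p =
        (Nat.card G).factorization p := by
    rw [← Subgroup.card_mul_index (Subgroup.centralizer ({w} : Set G)),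
      Nat.factorization_mul Nat.card_pos.ne' Subgroup.index_ne_zero_of_finite]
    rfl
  omega

theorem green_core {M : Ideal AlgInt} {p : ℕ} [Fact p.Prime] (hM : IsPModular p M)
    {B : Set (IrrCharacter G)} (hB : IsPBlock M B) (P : Sylow p G) :
    ∃ x : G, IsDefectClass M B x ∧
      (P : Subgroup G) ⊓ (P : Subgroup G).map (MulAut.conj x).toMonoidHom =
        (P : Subgroup G) ⊓ Subgroup.centralizer ({x} : Set G) ∧
      Nat.card ((P : Subgroup G) ⊓ Subgroup.centralizer ({x} : Set G) : Subgroup G) =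
        p ^ (Nat.card (Subgroup.centralizer ({x} : Set G))).factorization p := by
  classical
  haveI := hM.2.1.isPrime
  have hp := hM.1
  obtain ⟨y, hy⟩ := Cfsg.Agent.S0906.result p M hM B hB
  obtain ⟨i, hi⟩ : ∃ i, i = ((Subgroup.centralizer ({y} : Set G)).index).factorization p :=
    ⟨_, rfl⟩
  obtain ⟨a, ha⟩ : ∃ a, a = (Nat.card G).factorization p := ⟨_, rfl⟩
  have hPcard : Nat.card (P : Subgroup G) = p ^ a := by rw [ha]; exact P.card_eq_multiplicity
  have hR := blockCoeff_mem_Rloc (M := M) B (block_closed hB)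
  obtain ⟨s, hs⟩ : ∃ s : G → ℂ, s = fun x =>
    ∑ u, (if u ∈ (P : Subgroup G) then blockCoeff B (x⁻¹ * u) else 0) := ⟨_, rfl⟩
  have hsR : ∀ x, s x ∈ Rloc M := by
    intro x
    rw [hs]
    apply Subring.sum_mem
    intro u _
    split_ifs
    · exact hR _
    · exact Subring.zero_mem _
  have hsinv : ∀ q ∈ (P : Subgroup G), ∀ x, s (q * x * q⁻¹) = s x := by
    intro q hq x
    rw [hs]
    show ∑ u, (if u ∈ (P : Subgroup G) then blockCoeff B ((q * x * q⁻¹)⁻¹ * u) else 0) =
      ∑ u, (if u ∈ (P : Subgroup G) then blockCoeff B (x⁻¹ * u) else 0)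
    rw [← Equiv.sum_comp (MulAut.conj q).toEquiv]
    apply Finset.sum_congr rfl
    intro u _
    show (if q * u * q⁻¹ ∈ (P : Subgroup G) then
      blockCoeff B ((q * x * q⁻¹)⁻¹ * (q * u * q⁻¹)) else 0) = _
    have e : (q * x * q⁻¹)⁻¹ * (q * u * q⁻¹) = q * (x⁻¹ * u) * q⁻¹ := by group
    have hiff : q * u * q⁻¹ ∈ (P : Subgroup G) ↔ u ∈ (P : Subgroup G) := by
      rw [(P : Subgroup G).mul_mem_cancel_right ((P : Subgroup G).inv_mem hq),
        (P : Subgroup G).mul_mem_cancel_left hq]
    rw [e, blockCoeff_isClass B _ q]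
    by_cases hu : u ∈ (P : Subgroup G)
    · rw [if_pos hu, if_pos (hiff.mpr hu)]
    · rw [if_neg hu, if_neg (fun h => hu (hiff.mp h))]
  have hsum : ∑ u : G, (if u ∈ (P : Subgroup G) then cv (cl y) (blockCoeff B) u else 0) =
      ∑ x, cl y x * s x := by
    rw [hs]
    unfold cv
    simp only [Finset.mul_sum]
    rw [Finset.sum_comm]
    apply Finset.sum_congr rfl
    intro u _
    split_ifs
    · rfl
    · simp
  have htr := trace_notMem hM hB hy P
  rw [hsum, ← hi] at htr
  by_contra hcon
  push Not at hcon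
  apply htr
  rw [Finset.sum_div]
  letI := conjAct' (P : Subgroup G)
  apply sum_orbit_mem (Q := (P : Subgroup G)) (fun x => cl y x * s x / ((p ^ i : ℕ) : ℂ))
    (fun q x => by
      show cl y ((q : G) * x * (q : G)⁻¹) * s ((q : G) * x * (q : G)⁻¹) / _ = _
      rw [cl_isClass y x q, hsinv q q.2 x]) (Iloc M).toAddSubmonoid
  intro x
  show _ ∈ Iloc M
  by_cases hx : IsConj y x
  swap
  · have : cl y x = 0 := by
      unfold cl
      rw [if_neg hx]
    rw [this, zero_mul, zero_div, mul_zero]
    exact (Iloc M).zero_mem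
  have hcl : cl y x = 1 := by
    unfold cl
    rw [if_pos hx]
  rw [hcl, one_mul]
  have horb := card_orbit_conj (P : Subgroup G) x
  rw [hPcard] at horb
  obtain ⟨j, hja, hj⟩ := (Nat.dvd_prime_pow hp).mp (Dvd.intro _ horb)
  rw [hj] at horb ⊢
  have hCP : Nat.card ((P : Subgroup G) ⊓ Subgroup.centralizer ({x} : Set G) : Subgroup G) =
      p ^ (a - j) := by
    have e : p ^ a = p ^ j * p ^ (a - j) := by rw [← pow_add]; congr 1; omega
    rw [e] at horb
    exact Nat.eq_of_mul_eq_mul_left (pow_pos hp.pos j) horb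
  have hidx : ((Subgroup.centralizer ({x} : Set G)).index).factorization p = i := by
    rw [hi, index_centralizer_eq_of_isConj hx]
  have hc : (Nat.card (Subgroup.centralizer ({x} : Set G))).factorization p + i = a := by
    rw [ha, ← hidx, ← Subgroup.card_mul_index (Subgroup.centralizer ({x} : Set G)),
      Nat.factorization_mul Nat.card_pos.ne' Subgroup.index_ne_zero_of_finite]
    rfl
  have hdvd : p ^ (a - j) ∣ Nat.card (Subgroup.centralizer ({x} : Set G)) := by
    rw [← hCP]
    exact Subgroup.card_dvd_of_le inf_le_right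
  have hle : a - j ≤ (Nat.card (Subgroup.centralizer ({x} : Set G))).factorization p :=
    (hp.pow_dvd_iff_le_factorization Nat.card_pos.ne').mp hdvd
  have hij : i ≤ j := by omega
  have hr0 : ((p ^ i : ℕ) : ℂ) ≠ 0 := Nat.cast_ne_zero.mpr (pow_ne_zero _ hp.ne_zero)
  rcases Nat.lt_or_ge i j with hlt | hge
  · have h1 := div_mem_Iloc hM (A := p ^ j) (N := p ^ i) (pow_ne_zero _ hp.ne_zero)
      (pow_ne_zero _ hp.ne_zero) (by
        simp only [hp.factorization_pow, Finsupp.single_eq_same]
        exact hlt)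
    have h2 := mul_mem_Iloc' h1 (hsR x)
    convert h2 using 1
    field_simp
  · have hji : j = i := le_antisymm hge hij
    rw [hji]
    have e : ((p ^ i : ℕ) : ℂ) * (s x / ((p ^ i : ℕ) : ℂ)) = s x := by field_simp
    rw [e]
    by_contra hsx
    obtain ⟨c, hc'⟩ := isConj_iff.mp hx
    have hdef : IsDefectClass M B x := hc' ▸ isDefectClass_conj hy c
    have hfac := factorization_inf_conj_le hM hB hy (P : Subgroup G) P.2 x (by
      rw [hs] at hsx; exact hsx)
    rw [← hi, ← ha] at hfac
    have hcard2 : Nat.card ((P : Subgroup G) ⊓ Subgroup.centralizer ({x} : Set G) : Subgroup G) =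
        p ^ (Nat.card (Subgroup.centralizer ({x} : Set G))).factorization p := by
      rw [hCP]; congr 1; omega
    apply hcon x hdef _ hcard2
    symm
    apply Subgroup.eq_of_le_of_card_ge
    · intro u hu
      refine ⟨hu.1, u, hu.1, ?_⟩
      have := Subgroup.mem_centralizer_singleton_iff.mp hu.2
      show x * u * x⁻¹ = u
      rw [← this, mul_inv_cancel_right]
    · have hQp : IsPGroup p ((P : Subgroup G) ⊓
          (P : Subgroup G).map (MulAut.conj x).toMonoidHom : Subgroup G) := P.2.to_le inf_le_left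
      obtain ⟨k, hk⟩ := IsPGroup.iff_card.mp hQp
      rw [hk, hp.factorization_pow, Finsupp.single_eq_same] at hfac
      rw [hk, hCP]
      exact Nat.pow_le_pow_right hp.pos (by omega)

end Cfsg.Agent.Lib.Helper2.BlockGr2
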