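import Mathlib
import Cfsg.Prelude.Def_Blocks
import Cfsg.Agent.Lib.Helper2.BlockGr2
import Cfsg.Agent.Lib.Helper2.BlockFMT
import Cfsg.Agent.Lib.Helper1.Cores
import Cfsg.Agent.S0912
import Cfsg.Agent.S0920

set_option autoImplicit false
set_option linter.unusedSectionVars false
set_option linter.unusedVariables false
set_option linter.style.haveILetI false

/-! Green's theorem on defect groups as Sylow intersections. -/

namespace Cfsg.Agent.Lib.Helper2.BlockGr3

open Cfsg Cfsg.Agent.Lib.Helper2.LocRing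
  Cfsg.Agent.Lib.Helper2.BlockZ Cfsg.Agent.Lib.Helper2.BlockDef
  Cfsg.Agent.Lib.Helper2.BlockSub Cfsg.Agent.Lib.Helper2.BlockGr2 Cfsg.Agent.Lib.Helper2.BlockFMT

theorem lt_inf_normalizer_of_lt' {G : Type*} [Group G] [Finite G] {p : ℕ} [hp : Fact p.Prime]
    {P Q : Subgroup G} (hP : IsPGroup p P)
    (hQP : Q < P) : Q < P ⊓ Subgroup.normalizer (Q : Set G) := by
  have hnil : Group.IsNilpotent P := hP.isNilpotent
  have hnc : NormalizerCondition P := Group.normalizerCondition_of_isNilpotent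
  have h1 : Q.subgroupOf P < ⊤ := by
    rw [lt_top_iff_ne_top, Ne, Subgroup.subgroupOf_eq_top]
    exact hQP.not_ge
  have h2 := hnc _ h1
  rw [← Subgroup.subgroupOf_normalizer_eq hQP.le] at h2
  have h3 := (Subgroup.map_lt_map_iff_of_injective P.subtype_injective).mpr h2
  rwa [Subgroup.map_subgroupOf_eq_of_le hQP.le, Subgroup.subgroupOf_map_subtype, inf_comm] at h3

/-- a subgroup of the right order inside a subgroup `C` is the image of a Sylow subgroup -/
theorem exists_sylow_map_eq' {G : Type*} [Group G] [Finite G] {p : ℕ} [Fact p.Prime]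
    (C K : Subgroup G) (hKC : K ≤ C) (hcard : Nat.card K = p ^ (Nat.card C).factorization p) :
    ∃ S : Sylow p C, (S : Subgroup C).map C.subtype = K := by
  have h1 : Nat.card (K.subgroupOf C) = p ^ (Nat.card C).factorization p := by
    rw [← hcard]
    exact Nat.card_congr (Subgroup.subgroupOfEquivOfLe hKC).toEquiv
  refine ⟨Sylow.ofCard (K.subgroupOf C) h1, ?_⟩
  rw [Sylow.coe_ofCard, Subgroup.map_subgroupOf_eq_of_le hKC]

variable {G : Type*} [Group G] [Fintype G]

theorem green_some {M : Ideal AlgInt} {p : ℕ} [Fact p.Prime] (hM : IsPModular p M)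
    {B : Set (IrrCharacter G)} (hB : IsPBlock M B) (P : Sylow p G) :
    ∃ x : G, ¬ p ∣ orderOf x ∧ IsDefectClass M B x ∧
      ∃ S : Sylow p (Subgroup.centralizer ({x} : Set G)),
        (S : Subgroup (Subgroup.centralizer ({x} : Set G))).map
          (Subgroup.centralizer ({x} : Set G)).subtype =
        (P : Subgroup G) ⊓ (P : Subgroup G).map (MulAut.conj x).toMonoidHom := by
  haveI := hM.2.1.isPrime
  obtain ⟨x, hx, h1, h2⟩ := green_core hM hB P
  refine ⟨x, preg_of_blockCoeff_ne hM hB (ne_zero_of_notMem_Iloc (M := M) hx.2.1), hx, ?_⟩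
  rw [h1]
  exact exists_sylow_map_eq' _ _ inf_le_right h2

theorem green {M : Ideal AlgInt} {p : ℕ} [Fact p.Prime] (hM : IsPModular p M)
    (B : Set (IrrCharacter G)) (hB : IsPBlock M B) (D : Subgroup G)
    (hD : IsDefectGroup p M B D) (P : Sylow p G) (hDP : D ≤ P) :
    ∃ x : G, ¬ p ∣ orderOf x ∧
      (∃ S : Sylow p (Subgroup.centralizer ({x} : Set G)),
        (S : Subgroup (Subgroup.centralizer ({x} : Set G))).map
          (Subgroup.centralizer ({x} : Set G)).subtype = D) ∧
      (P : Subgroup G) ⊓ (P : Subgroup G).map (MulAut.conj x).toMonoidHom = D := by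
  classical
  haveI := hM.2.1.isPrime
  have hDp : IsPGroup p D := P.2.to_le hDP
  obtain ⟨b, hb, hbD, _⟩ := Cfsg.Agent.S0920.exist2 p M hM D hDp B hB hD
  have hP1 : IsPGroup p ((P : Subgroup G).subgroupOf (Subgroup.normalizer (D : Set G))) :=
    P.2.comap_subtype
  obtain ⟨P₂, hP₂⟩ := hP1.exists_le_sylow
  obtain ⟨x, hxreg, hxdef, S, hS⟩ := green_some hM hb P₂
  have hQdef : IsDefectGroup p M b ((P₂ : Subgroup (Subgroup.normalizer (D : Set G))) ⊓
      (P₂ : Subgroup (Subgroup.normalizer (D : Set G))).map (MulAut.conj x).toMonoidHom) :=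
    ⟨x, hxdef, S, hS.symm⟩
  have hDQ : D.subgroupOf (Subgroup.normalizer (D : Set G)) ≤
      (P₂ : Subgroup (Subgroup.normalizer (D : Set G))) ⊓
      (P₂ : Subgroup (Subgroup.normalizer (D : Set G))).map (MulAut.conj x).toMonoidHom :=
    (Cfsg.Agent.Lib.Helper1.le_pCore Subgroup.normal_in_normalizer hDp.comap_subtype).trans
      (Cfsg.Agent.S0912.result p M hM b hb _ hQdef)
  have hQeq : D.subgroupOf (Subgroup.normalizer (D : Set G)) =
      (P₂ : Subgroup (Subgroup.normalizer (D : Set G))) ⊓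
      (P₂ : Subgroup (Subgroup.normalizer (D : Set G))).map (MulAut.conj x).toMonoidHom :=
    Subgroup.eq_of_le_of_card_ge hDQ
      (by rw [card_defectGroup hM hb hQdef, card_defectGroup hM hb hbD])
  rw [← hQeq] at hS
  obtain ⟨hDC, hDcard⟩ := card_eq_of_sylow_sub D x S hS
  refine ⟨(x : G), by rw [Subgroup.orderOf_coe]; exact hxreg,
    exists_sylow_map_eq' _ D hDC hDcard, ?_⟩
  have hDR : D ≤ (P : Subgroup G) ⊓ (P : Subgroup G).map (MulAut.conj (x : G)).toMonoidHom := by
    intro d hd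
    refine ⟨hDP hd, d, hDP hd, ?_⟩
    have := Subgroup.mem_centralizer_singleton_iff.mp (hDC hd)
    show (x : G) * d * (x : G)⁻¹ = d
    rw [← this, mul_inv_cancel_right]
  by_contra hne
  have hlt : D < (P : Subgroup G) ⊓ (P : Subgroup G).map (MulAut.conj (x : G)).toMonoidHom :=
    lt_of_le_of_ne hDR (fun h => hne h.symm)
  have hlt2 := lt_inf_normalizer_of_lt' (P.2.to_le inf_le_left) hlt
  obtain ⟨q, hq, hqD⟩ := SetLike.exists_of_lt hlt2
  apply hqD
  obtain ⟨⟨hqP, u, huP, hu⟩, hqN⟩ := hq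
  have hu' : (x : G) * u * (x : G)⁻¹ = q := hu
  have huN : u ∈ Subgroup.normalizer (D : Set G) := by
    have e : u = (x : G)⁻¹ * q * (x : G) := by rw [← hu']; group
    rw [e]
    exact Subgroup.mul_mem _ (Subgroup.mul_mem _ (Subgroup.inv_mem _ x.2) hqN) x.2
  have h1 : (⟨q, hqN⟩ : Subgroup.normalizer (D : Set G)) ∈
      (P₂ : Subgroup (Subgroup.normalizer (D : Set G))) ⊓
      (P₂ : Subgroup (Subgroup.normalizer (D : Set G))).map (MulAut.conj x).toMonoidHom := by
    refine ⟨hP₂ (Subgroup.mem_subgroupOf.mpr hqP), ⟨u, huN⟩,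
      hP₂ (Subgroup.mem_subgroupOf.mpr huP), ?_⟩
    apply Subtype.ext
    exact hu'
  rw [← hQeq] at h1
  exact Subgroup.mem_subgroupOf.mp h1

end Cfsg.Agent.Lib.Helper2.BlockGr3
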