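import Mathlib
import Cfsg.Prelude.Def_Blocks
import Cfsg.Agent.Lib.Helper2.BlockCov2
import Cfsg.Agent.Lib.Helper2.BlockGr3
import Cfsg.Agent.Lib.Helper2.BlockLam
import Cfsg.Agent.Lib.Helper2.BlockFMT
import Cfsg.Agent.S0911

set_option autoImplicit false
set_option linter.unusedSectionVars false
set_option linter.unusedVariables false
set_option linter.style.haveILetI false

/-! Blocks covering an invariant block of a normal subgroup: defect groups. -/

namespace Cfsg.Agent.Lib.Helper2.BlockFong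

open Cfsg Cfsg.Agent.Lib.Helper7.CharIrr Cfsg.Agent.Lib.Helper7.CharOrth
  Cfsg.Agent.Lib.Helper7.CharIntegral Cfsg.Agent.Lib.Helper7.CharMore
  Cfsg.Agent.Lib.Helper7.CharClassAlg Cfsg.Agent.Lib.Helper7.CharComplete
  Cfsg.Agent.Lib.Helper7.CharDeg Cfsg.Agent.Lib.Helper7.CharGalois
  Cfsg.Agent.Lib.Helper7.CharClassAlg2 Cfsg.Agent.Lib.Helper7.CharBurnside
  Cfsg.Agent.Lib.Helper7.CharNormal Cfsg.Agent.Lib.Helper7.CharClifford
  Cfsg.Agent.Lib.Helper7.CharInd Cfsg.Agent.Lib.Helper7.CharMisc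
  Cfsg.Agent.Lib.Helper2.LocRing
  Cfsg.Agent.Lib.Helper2.BlockZ Cfsg.Agent.Lib.Helper2.BlockDef Cfsg.Agent.Lib.Helper2.BlockOrth
  Cfsg.Agent.Lib.Helper2.BlockSM4 Cfsg.Agent.Lib.Helper2.BlockSub Cfsg.Agent.Lib.Helper2.BlockBr2
  Cfsg.Agent.Lib.Helper2.BlockCov Cfsg.Agent.Lib.Helper2.BlockKer
  Cfsg.Agent.Lib.Helper2.BlockCov2 Cfsg.Agent.Lib.Helper2.BlockLam
  Cfsg.Agent.Lib.Helper2.BlockFMT Cfsg.Agent.Lib.Helper2.BlockGr3
open scoped ComplexConjugate

variable {G : Type*} [Group G] [Fintype G] (N : Subgroup G) [hN : N.Normal] [Fintype N]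

theorem cl_conj (g : G) (x : N) :
    conjFun N (cl x) g⁻¹ = cl (⟨g * x * g⁻¹, hN.conj_mem x x.2 g⟩ : N) := by
  classical
  funext n
  rw [conjFun_apply]
  unfold cl
  congr 1
  apply propext
  rw [isConj_iff, isConj_iff]
  constructor
  · rintro ⟨c, hc⟩
    refine ⟨⟨g * c * g⁻¹, hN.conj_mem c c.2 g⟩, ?_⟩
    apply Subtype.ext
    have h1 := congrArg Subtype.val hc
    simp only [Subgroup.coe_mul, Subgroup.coe_inv, inv_inv] at h1 ⊢
    calc g * c * g⁻¹ * (g * x * g⁻¹) * (g * c * g⁻¹)⁻¹ = g * (c * x * (c : G)⁻¹) * g⁻¹ := by group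
      _ = n := by rw [h1]; group
  · rintro ⟨c, hc⟩
    refine ⟨⟨g⁻¹ * c * g⁻¹⁻¹, hN.conj_mem c c.2 g⁻¹⟩, ?_⟩
    apply Subtype.ext
    have h1 := congrArg Subtype.val hc
    simp only [Subgroup.coe_mul, Subgroup.coe_inv, inv_inv] at h1 ⊢
    rw [← h1]
    group

theorem centralChar_cj (θ : IrrCharacter N) (g : G) (x : N) :
    centralChar (θ : N → ℂ) ⟨g * x * g⁻¹, hN.conj_mem x x.2 g⟩ =
      centralChar (cj N θ g : N → ℂ) x := by
  rw [← W_cl θ.2, ← W_cl (cj N θ g).2]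
  change _ = W (conjFun N (θ : N → ℂ) g) _
  rw [W_conjFun, cl_conj]

theorem iCC_eq_sum [Fintype (ConjClasses N)] (θ : IrrCharacter N) (x : G) :
    inducedCentralChar N (θ : N → ℂ) x =
      ∑ L : ConjClasses N, cl x (L.out : G) * centralChar (θ : N → ℂ) L.out := by
  rw [inducedCentralChar_eq_W, W_eq_sum_classes θ.2 (restrict_isClass N (cl_isClass x))]

theorem exists_t {M : Ideal AlgInt} [M.IsPrime] {b : Set (IrrCharacter N)} (hb : IsPBlock M b)
    (hinv : ∀ g : G, ∀ θ ∈ b, cj N θ g ∈ b) (x : N) :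
    ∃ t : ℕ, (Subgroup.centralizer ({(x : G)} : Set G)).index =
        t * (Subgroup.centralizer ({x} : Set N)).index ∧
      ∀ θ ∈ b, inducedCentralChar N (θ : N → ℂ) (x : G) -
        (t : ℂ) * centralChar (θ : N → ℂ) x ∈ Iloc M := by
  classical
  haveI := Fintype.ofFinite (ConjClasses N)
  have ht : (∑ L : ConjClasses N, cl (x : G) (L.out : G)) =
      (((Finset.univ.filter (fun L : ConjClasses N => IsConj (x : G) (L.out : G))).card : ℕ) : ℂ) := by
    unfold cl
    rw [Finset.sum_boole]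
  refine ⟨(Finset.univ.filter (fun L : ConjClasses N => IsConj (x : G) (L.out : G))).card, ?_, ?_⟩
  · have h1 : classInner (fun n : N => ((⟨fun _ => 1, isIrrCharacter_one⟩ : IrrCharacter G) : G → ℂ) n)
        ((⟨fun _ => 1, isIrrCharacter_one⟩ : IrrCharacter N) : N → ℂ) ≠ 0 := by
      have := classInner_irr (isIrrCharacter_one (G := N)) (isIrrCharacter_one (G := N))
      change classInner (fun _ : N => (1 : ℂ)) (fun _ : N => (1 : ℂ)) ≠ 0
      rw [this, if_pos rfl]
      exact one_ne_zero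
    have h2 := (Cfsg.Agent.S0963.result N _ _).mp h1 x
    rw [iCC_eq_sum] at h2
    have h3 : ∀ L : ConjClasses N, cl (x : G) (L.out : G) *
        centralChar ((⟨fun _ => 1, isIrrCharacter_one⟩ : IrrCharacter N) : N → ℂ) L.out =
        cl (x : G) (L.out : G) * ((Subgroup.centralizer ({x} : Set N)).index : ℂ) := by
      intro L
      by_cases h : IsConj (x : G) (L.out : G)
      · obtain ⟨g, hg⟩ := isConj_iff.mp h
        have h4 : L.out = ⟨g * x * g⁻¹, hN.conj_mem x x.2 g⟩ := Subtype.ext hg.symm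
        rw [h4, centralChar_cj]
        congr 1
        change centralChar (fun _ : N => (1 : ℂ)) x = _
        simp [centralChar]
      · have : cl (x : G) (L.out : G) = 0 := by unfold cl; rw [if_neg h]
        rw [this, zero_mul, zero_mul]
    rw [Finset.sum_congr rfl (fun L _ => h3 L), ← Finset.sum_mul, ht] at h2
    have h5 : centralChar ((⟨fun _ => 1, isIrrCharacter_one⟩ : IrrCharacter G) : G → ℂ) (x : G) =
        ((Subgroup.centralizer ({(x : G)} : Set G)).index : ℂ) := by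
      simp [centralChar]
    rw [h5] at h2
    exact_mod_cast h2
  · intro θ hθ
    rw [← ht, iCC_eq_sum, Finset.sum_mul, ← Finset.sum_sub_distrib]
    apply Submodule.sum_mem (Iloc M)
    intro L _
    rw [← mul_sub]
    by_cases h : IsConj (x : G) (L.out : G)
    · obtain ⟨g, hg⟩ := isConj_iff.mp h
      have h4 : L.out = ⟨g * x * g⁻¹, hN.conj_mem x x.2 g⟩ := Subtype.ext hg.symm
      rw [h4, centralChar_cj]
      exact mul_mem_Iloc (cl_mem_Rloc _ _) (sameBlock_of_mem hb (hinv g θ hθ) hθ x)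
    · have : cl (x : G) (L.out : G) = 0 := by unfold cl; rw [if_neg h]
      rw [this, zero_mul]
      exact Submodule.zero_mem _

theorem orb_eq {b : Set (IrrCharacter N)} (hinv : ∀ g : G, ∀ θ ∈ b, cj N θ g ∈ b) :
    orb N b = b := by
  ext ψ
  constructor
  · rintro ⟨g, θ, hθ, rfl⟩
    exact hinv g θ hθ
  · exact fun h => mem_orb_self N h

/-- the key element -/
theorem exists_good {M : Ideal AlgInt} {p : ℕ} (hM : IsPModular p M)
    {b : Set (IrrCharacter N)} (hb : IsPBlock M b)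
    (hinv : ∀ g : G, ∀ θ ∈ b, cj N θ g ∈ b) {B : Set (IrrCharacter G)} (hB : IsPBlock M B)
    (hcov : Covers N B b) :
    ∃ x : N, IsDefectClass M b x ∧ (∀ χ ∈ B, ¬ MemLocalIdeal M (centralChar (χ : G → ℂ) (x : G))) ∧
      (Nat.card (Subgroup.centralizer ({(x : G)} : Set G))).factorization p =
        blockDefect p b + N.index.factorization p := by
  classical
  haveI := hM.2.1.isPrime
  haveI := Fintype.ofFinite (ConjClasses G)
  obtain ⟨χ, hχ, θ, hθ, hcon⟩ := hcov
  have h1 : W (χ : G → ℂ) (fo N b) = 1 := by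
    rw [W_fo N b hcon, if_pos (mem_orb_self N hθ)]
  rw [W_eq_sum_classes χ.2 (fo_isClass N b)] at h1
  have h2 : ∃ K : ConjClasses G, fo N b K.out * centralChar (χ : G → ℂ) K.out ∉ Iloc M := by
    by_contra hc
    push Not at hc
    apply one_notMem_Iloc (M := M)
    rw [← h1]
    exact Submodule.sum_mem (Iloc M) (fun K _ => hc K)
  obtain ⟨K, hK⟩ := h2
  have hKN : K.out ∈ N := by
    by_contra hc
    apply hK
    rw [fo, ext0_notMem N _ hc, zero_mul]
    exact Submodule.zero_mem _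
  obtain ⟨x, hx⟩ : ∃ x : N, (x : G) = K.out := ⟨⟨K.out, hKN⟩, rfl⟩
  rw [← hx] at hK
  have hfo : fo N b (x : G) = blockCoeff b x := by
    rw [fo, ext0_coe, orb_eq N hinv]
  have hb1 : blockCoeff b x ∈ Rloc M := blockCoeff_mem_Rloc b (block_closed hb) x
  have hb2 : blockCoeff b x ∉ Iloc M := by
    intro hc
    apply hK
    rw [hfo]
    exact mul_mem_Iloc' hc (centralChar_mem_Rloc χ _)
  have hc1 : centralChar (χ : G → ℂ) (x : G) ∉ Iloc M := by
    intro hc
    apply hK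
    rw [hfo]
    exact mul_mem_Iloc hb1 hc
  obtain ⟨t, ht1, ht2⟩ := exists_t N hb hinv x
  have hc2 : (t : ℂ) * centralChar (θ : N → ℂ) x ∉ Iloc M :=
    notMem_of_sub_mem (sub_mem_Iloc_trans
      (passman_mp N hB hb ⟨χ, hχ, θ, hθ, hcon⟩ χ hχ θ hθ x) (ht2 θ hθ)) hc1
  have ht3 : ¬ p ∣ t := by
    intro hc
    apply hc2
    exact mul_mem_Iloc' ((natCast_mem_Iloc_iff hM t).mpr hc) (centralChar_mem_Rloc θ _)
  have hc3 : centralChar (θ : N → ℂ) x ∉ Iloc M := by
    intro hc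
    apply hc2
    exact mul_mem_Iloc (natCast_mem_Rloc t) hc
  have hdef : IsDefectClass M b x :=
    ⟨hb1, hb2, fun θ' hθ' => notMem_of_sub_mem (sameBlock_of_mem hb hθ hθ' x) hc3⟩
  refine ⟨x, hdef, fun χ' hχ' => notMem_of_sub_mem (sameBlock_of_mem hB hχ hχ' x) hc1, ?_⟩
  rw [blockDefect_eq hM hb x hdef]
  have e1 := Subgroup.index_mul_card (Subgroup.centralizer ({(x : G)} : Set G))
  have e2 := Subgroup.index_mul_card (Subgroup.centralizer ({x} : Set N))
  have e3 := Subgroup.index_mul_card N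
  have ht0 : t ≠ 0 := by
    rintro rfl
    exact ht3 (dvd_zero p)
  have f1 := congrArg (fun n => n.factorization p) e1
  have f2 := congrArg (fun n => n.factorization p) e2
  have f3 := congrArg (fun n => n.factorization p) e3
  have f4 := congrArg (fun n => n.factorization p) ht1
  rw [Nat.factorization_mul Subgroup.index_ne_zero_of_finite Nat.card_pos.ne'] at f1 f2 f3
  rw [Nat.factorization_mul ht0 Subgroup.index_ne_zero_of_finite] at f4
  simp only [Finsupp.add_apply] at f1 f2 f3 f4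
  rw [Nat.factorization_eq_zero_of_not_dvd ht3] at f4
  omega

theorem defect_le_of_centralChar {M : Ideal AlgInt} {p : ℕ} (hM : IsPModular p M)
    {B : Set (IrrCharacter G)} (hB : IsPBlock M B) (x : G)
    (h : ∀ χ ∈ B, ¬ MemLocalIdeal M (centralChar (χ : G → ℂ) x)) :
    blockDefect p B ≤ (Nat.card (Subgroup.centralizer ({x} : Set G))).factorization p := by
  haveI := hM.2.1.isPrime
  obtain ⟨χ, hχ⟩ := block_nonempty hB
  have h1 : ((Subgroup.centralizer ({x} : Set G)).index).factorization p ≤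
      sInf ((fun χ : IrrCharacter G => (charDegree (χ : G → ℂ)).factorization p) '' B) := by
    apply le_csInf ⟨_, Set.mem_image_of_mem _ hχ⟩
    rintro _ ⟨ψ, hψ, rfl⟩
    exact index_le_degree hM ψ x (h ψ hψ)
  have e1 := Subgroup.index_mul_card (Subgroup.centralizer ({x} : Set G))
  have f1 := congrArg (fun n => n.factorization p) e1
  rw [Nat.factorization_mul Subgroup.index_ne_zero_of_finite Nat.card_pos.ne'] at f1
  simp only [Finsupp.add_apply] at f1
  unfold blockDefect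
  omega

theorem le_defect_of_blockCoeff {M : Ideal AlgInt} {p : ℕ} (hM : IsPModular p M)
    {B : Set (IrrCharacter G)} (hB : IsPBlock M B) (x : G)
    (h : ¬ MemLocalIdeal M (blockCoeff B x)) :
    (Nat.card (Subgroup.centralizer ({x} : Set G))).factorization p ≤ blockDefect p B := by
  obtain ⟨χ, hχ, hle⟩ := exists_degree_le_index hM hB x h
  have h1 : sInf ((fun χ : IrrCharacter G => (charDegree (χ : G → ℂ)).factorization p) '' B) ≤
      ((Subgroup.centralizer ({x} : Set G)).index).factorization p :=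
    (Nat.sInf_le (Set.mem_image_of_mem _ hχ)).trans hle
  have e1 := Subgroup.index_mul_card (Subgroup.centralizer ({x} : Set G))
  have f1 := congrArg (fun n => n.factorization p) e1
  rw [Nat.factorization_mul Subgroup.index_ne_zero_of_finite Nat.card_pos.ne'] at f1
  simp only [Finsupp.add_apply] at f1
  unfold blockDefect
  omega

theorem blockCoeff_eq_sum_blocks {M : Ideal AlgInt} [M.IsPrime] [Fintype (IrrCharacter G)]
    [DecidableEq (Set (IrrCharacter G))] (S : Set (IrrCharacter G)) [DecidablePred (· ∈ S)]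
    (hS : ∀ χ ∈ S, ∀ ψ ∉ S, ¬ SameBlock M (χ : G → ℂ) (ψ : G → ℂ)) :
    blockCoeff S = ∑ B ∈ (Finset.univ.filter (fun χ => χ ∈ S)).image
      (fun χ : IrrCharacter G => blockOf M (χ : G → ℂ)), blockCoeff B := by
  classical
  apply eq_of_W (blockCoeff_isClass S) (isClassFunction_sum _ _ fun B _ => blockCoeff_isClass B)
  intro ψ hψ
  obtain ⟨ψ', hψ'⟩ : ∃ ψ' : IrrCharacter G, (ψ' : G → ℂ) = ψ := ⟨⟨ψ, hψ⟩, rfl⟩
  rw [← hψ']
  have hmemψ : ψ' ∈ blockOf M (ψ' : G → ℂ) := sameBlock_refl (M := M) _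
  rw [W_blockCoeff, W_sum]
  by_cases hm : ψ' ∈ S
  · rw [if_pos hm, Finset.sum_eq_single (blockOf M (ψ' : G → ℂ))]
    · rw [W_blockCoeff, if_pos hmemψ]
    · intro B hB hne
      obtain ⟨χ, _, rfl⟩ := Finset.mem_image.mp hB
      rw [W_blockCoeff, if_neg]
      intro hmem
      exact hne (blockOf_eq_of_mem hmem).symm
    · intro h
      exact absurd (Finset.mem_image_of_mem _ (Finset.mem_filter.mpr ⟨Finset.mem_univ ψ', hm⟩)) h
  · rw [if_neg hm]
    symm
    apply Finset.sum_eq_zero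
    intro B hB
    obtain ⟨χ, hχ, rfl⟩ := Finset.mem_image.mp hB
    rw [W_blockCoeff, if_neg]
    intro hmem
    exact hS χ (Finset.mem_filter.mp hχ).2 ψ' hm hmem

theorem fo_eq_blockCoeff {M : Ideal AlgInt} [M.IsPrime] {b : Set (IrrCharacter N)}
    (hb : IsPBlock M b) (hinv : ∀ g : G, ∀ θ ∈ b, cj N θ g ∈ b) :
    fo N b = blockCoeff {χ : IrrCharacter G | ∃ θ ∈ b,
      classInner (fun n : N => (χ : G → ℂ) n) (θ : N → ℂ) ≠ 0} := by
  classical
  apply eq_of_W (fo_isClass N b) (blockCoeff_isClass _)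
  intro ψ hψ
  obtain ⟨ψ', hψ'⟩ : ∃ ψ' : IrrCharacter G, (ψ' : G → ℂ) = ψ := ⟨⟨ψ, hψ⟩, rfl⟩
  rw [← hψ']
  obtain ⟨θ, hθ⟩ := exists_constituent_restrict N ψ'
  rw [W_fo N b hθ, W_blockCoeff, orb_eq N hinv]
  by_cases hm : θ ∈ b
  · rw [if_pos hm, if_pos]
    exact ⟨θ, hm, hθ⟩
  · rw [if_neg hm, if_neg]
    rintro ⟨θ', hθ', hcon'⟩
    apply hm
    have := mem_orb_of_sameBlock N hb (sameBlock_refl (M := M) (ψ' : G → ℂ)) hθ' hcon' hθ
    rwa [orb_eq N hinv] at this

theorem exists_large {M : Ideal AlgInt} {p : ℕ} (hM : IsPModular p M)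
    {b : Set (IrrCharacter N)} (hb : IsPBlock M b)
    (hinv : ∀ g : G, ∀ θ ∈ b, cj N θ g ∈ b) :
    ∃ B : Set (IrrCharacter G), IsPBlock M B ∧ Covers N B b ∧
      blockDefect p b + N.index.factorization p ≤ blockDefect p B := by
  classical
  haveI := hM.2.1.isPrime
  haveI := Fintype.ofFinite (IrrCharacter G)
  obtain ⟨B0, hB0, hcov0⟩ := exists_covers N hb
  obtain ⟨x, hdef, -, hcard⟩ := exists_good N hM hb hinv hB0 hcov0
  have hfo : fo N b (x : G) = blockCoeff b x := by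
    rw [fo, ext0_coe, orb_eq N hinv]
  have hS : ∀ χ ∈ {χ : IrrCharacter G | ∃ θ ∈ b,
      classInner (fun n : N => (χ : G → ℂ) n) (θ : N → ℂ) ≠ 0}, ∀ ψ ∉ {χ : IrrCharacter G | ∃ θ ∈ b,
      classInner (fun n : N => (χ : G → ℂ) n) (θ : N → ℂ) ≠ 0},
      ¬ SameBlock M (χ : G → ℂ) (ψ : G → ℂ) := by
    rintro χ ⟨θ, hθ, hcon⟩ ψ hψ hs
    apply hψ
    obtain ⟨θ', hθ'⟩ := exists_constituent_restrict N ψ
    have := mem_orb_of_sameBlock N hb hs hθ hcon hθ'
    rw [orb_eq N hinv] at this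
    exact ⟨θ', this, hθ'⟩
  have h1 : fo N b (x : G) ∉ Iloc M := by
    rw [hfo]
    exact hdef.2.1
  rw [fo_eq_blockCoeff N hb hinv, blockCoeff_eq_sum_blocks (M := M) _ hS, Finset.sum_apply] at h1
  have h2 : ∃ B ∈ (Finset.univ.filter (fun χ => χ ∈ {χ : IrrCharacter G | ∃ θ ∈ b,
      classInner (fun n : N => (χ : G → ℂ) n) (θ : N → ℂ) ≠ 0})).image
      (fun χ : IrrCharacter G => blockOf M (χ : G → ℂ)), blockCoeff B (x : G) ∉ Iloc M := by
    by_contra hc
    push Not at hc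
    exact h1 (Submodule.sum_mem (Iloc M) hc)
  obtain ⟨B, hB, hBx⟩ := h2
  obtain ⟨χ, hχ, rfl⟩ := Finset.mem_image.mp hB
  obtain ⟨θ, hθ, hcon⟩ := (Finset.mem_filter.mp hχ).2
  refine ⟨_, ⟨χ, rfl⟩, ⟨χ, sameBlock_refl (M := M) _, θ, hθ, hcon⟩, ?_⟩
  rw [← hcard]
  exact le_defect_of_blockCoeff hM ⟨χ, rfl⟩ _ hBx

theorem isDefectClass_cj {M : Ideal AlgInt} {b : Set (IrrCharacter N)}
    (hinv : ∀ g : G, ∀ θ ∈ b, cj N θ g ∈ b) {x : N} (hx : IsDefectClass M b x) (g : G) :
    IsDefectClass M b ⟨g * x * g⁻¹, hN.conj_mem x x.2 g⟩ := by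
  have h1 : blockCoeff b ⟨g * x * g⁻¹, hN.conj_mem x x.2 g⟩ = blockCoeff b x := by
    have := congrFun (conjFun_blockCoeff_orb N b g) x
    rwa [orb_eq N hinv, conjFun_apply] at this
  refine ⟨h1 ▸ hx.1, h1 ▸ hx.2.1, fun θ hθ => ?_⟩
  rw [centralChar_cj]
  exact hx.2.2 _ (hinv g θ hθ)

theorem count_aux {H : Type*} [Group H] [Finite H] {p : ℕ} [hp : Fact p.Prime] (N : Subgroup H)
    [N.Normal] (P C : Subgroup H) (hPC : P ≤ C) (d : ℕ)
    (hP : Nat.card P = p ^ (d + N.index.factorization p))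
    (hC : (Nat.card (C ⊓ N : Subgroup H)).factorization p = d) :
    ¬ p ∣ (P ⊔ N).index ∧ Nat.card (P ⊓ N : Subgroup H) = p ^ d := by
  have h1 : Nat.card (P ⊓ N : Subgroup H) * N.relIndex P = Nat.card P := by
    have := Subgroup.relIndex_mul_relIndex ⊥ (P ⊓ N) P bot_le inf_le_left
    rwa [Subgroup.relIndex_bot_left, Subgroup.relIndex_bot_left, Subgroup.inf_relIndex_left] at this
  have h2 : N.relIndex P * (P ⊔ N).index = N.index := by
    rw [← Subgroup.relIndex_sup_right P N]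
    exact Subgroup.relIndex_mul_index le_sup_right
  have h3 : Nat.card (P ⊓ N : Subgroup H) ∣ Nat.card (C ⊓ N : Subgroup H) :=
    Subgroup.card_dvd_of_le (inf_le_inf_right N hPC)
  obtain ⟨a, -, ha⟩ := (Nat.dvd_prime_pow hp.out).mp (hP ▸ Dvd.intro _ h1)
  obtain ⟨c, -, hc⟩ := (Nat.dvd_prime_pow hp.out).mp (hP ▸ Dvd.intro_left _ h1)
  rw [ha, hc, hP, ← pow_add] at h1
  have h4 : a + c = d + N.index.factorization p := Nat.pow_right_injective hp.out.two_le h1
  have h5 : a ≤ d := by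
    rw [← hC]
    rw [ha] at h3
    exact (hp.out.pow_dvd_iff_le_factorization Nat.card_pos.ne').mp h3
  have h6 : c ≤ N.index.factorization p := by
    apply (hp.out.pow_dvd_iff_le_factorization Subgroup.index_ne_zero_of_finite).mp
    rw [← hc]
    exact Dvd.intro _ h2
  have h7 : a = d := by omega
  have h8 : c = N.index.factorization p := by omega
  refine ⟨?_, by rw [ha, h7]⟩
  rintro ⟨k, hk⟩
  apply Nat.pow_succ_factorization_not_dvd (Subgroup.index_ne_zero_of_finite (H := N)) hp.out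
  refine ⟨k, ?_⟩
  rw [pow_succ, mul_assoc, ← hk, ← h8, ← hc, h2]

theorem fong {M : Ideal AlgInt} {p : ℕ} [Fact p.Prime] (hM : IsPModular p M)
    {b : Set (IrrCharacter N)} (hb : IsPBlock M b)
    (hinv : ∀ g : G, ∀ θ ∈ b, cj N θ g ∈ b) {B : Set (IrrCharacter G)} (hB : IsPBlock M B)
    (hcov : Covers N B b)
    (hmax : ∀ B' : Set (IrrCharacter G), IsPBlock M B' → Covers N B' b →
      blockDefect p B' ≤ blockDefect p B) (P : Subgroup G) (hP : IsDefectGroup p M B P) :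
    ¬ p ∣ (P ⊔ N).index ∧ IsDefectGroup p M b ((P ⊓ N).subgroupOf N) ∧
      blockDefect p B = blockDefect p b + N.index.factorization p := by
  haveI := hM.2.1.isPrime
  obtain ⟨x, hdef, hx, hcard⟩ := exists_good N hM hb hinv hB hcov
  have hle : blockDefect p B ≤ blockDefect p b + N.index.factorization p := by
    rw [← hcard]
    exact defect_le_of_centralChar hM hB _ hx
  obtain ⟨B', hB', hcov', hge⟩ := exists_large N hM hb hinv
  have heq : blockDefect p B = blockDefect p b + N.index.factorization p :=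
    le_antisymm hle (hge.trans (hmax B' hB' hcov'))
  have hPcard := card_defectGroup hM hB hP
  obtain ⟨g, hg, D, hD⟩ := hP
  obtain ⟨χ, hχ⟩ := block_nonempty hB
  obtain ⟨c, Q, hQ⟩ := (Cfsg.Agent.S0911.result p M hM B hB g hg D (x : G)).2 ⟨χ, hχ, hx χ hχ⟩
  rw [← hD] at hQ
  have hdef' := isDefectClass_cj N hinv hdef c⁻¹
  obtain ⟨x', hx'⟩ : ∃ x' : N, x' = ⟨c⁻¹ * x * c⁻¹⁻¹, hN.conj_mem x x.2 c⁻¹⟩ := ⟨_, rfl⟩
  rw [← hx'] at hdef'
  have hx'' : (x' : G) = c⁻¹ * x * c := by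
    rw [hx']
    change c⁻¹ * x * c⁻¹⁻¹ = _
    rw [inv_inv]
  have hPC : P ≤ Subgroup.centralizer ({(x' : G)} : Set G) := by
    intro q hq
    have h1 : c * q * c⁻¹ ∈ (Q : Subgroup (Subgroup.centralizer ({(x : G)} : Set G))).map
        (Subgroup.centralizer ({(x : G)} : Set G)).subtype :=
      hQ ⟨q, hq, rfl⟩
    obtain ⟨r, -, hr⟩ := h1
    have h2 := Subgroup.mem_centralizer_singleton_iff.mp r.2
    rw [Subgroup.coe_subtype] at hr
    rw [hr] at h2
    rw [Subgroup.mem_centralizer_singleton_iff, hx'']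
    calc q * (c⁻¹ * x * c) = c⁻¹ * (c * q * c⁻¹ * x) * c := by group
      _ = c⁻¹ * (x * (c * q * c⁻¹)) * c := by rw [h2]
      _ = c⁻¹ * x * c * q := by group
  have hC : (Nat.card (Subgroup.centralizer ({(x' : G)} : Set G) ⊓ N : Subgroup G)).factorization p
      = blockDefect p b := by
    rw [← card_centralizer_sub, blockDefect_eq hM hb x' hdef']
  obtain ⟨h1, h2⟩ := count_aux N P _ hPC (blockDefect p b) (by rw [hPcard, heq]) hC
  refine ⟨h1, ?_, heq⟩
  have hKC : (P ⊓ N).subgroupOf N ≤ Subgroup.centralizer ({x'} : Set N) := by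
    intro n hn
    have h3 := Subgroup.mem_centralizer_singleton_iff.mp (hPC (Subgroup.mem_subgroupOf.mp hn).1)
    rw [Subgroup.mem_centralizer_singleton_iff]
    exact Subtype.ext h3
  have hKcard : Nat.card ((P ⊓ N).subgroupOf N) =
      p ^ (Nat.card (Subgroup.centralizer ({x'} : Set N))).factorization p := by
    rw [Nat.card_congr (Subgroup.subgroupOfEquivOfLe (inf_le_right : P ⊓ N ≤ N)).toEquiv, h2,
      blockDefect_eq hM hb x' hdef']
  obtain ⟨S, hS⟩ := exists_sylow_map_eq' _ _ hKC hKcard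
  exact ⟨x', hdef', S, hS.symm⟩

end Cfsg.Agent.Lib.Helper2.BlockFong
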