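import Mathlib
import Cfsg.Prelude.Def_Blocks
import Cfsg.Agent.Lib.Helper2.BlockReg3
import Cfsg.Agent.Lib.Helper2.BlockSM7
import Cfsg.Agent.Lib.Helper7.CharInd
import Cfsg.Agent.Lib.Helper7.CharGen
import Cfsg.Agent.Lib.Helper7.Brauer8
import Cfsg.Agent.Lib.Helper7.CharBurnside

set_option autoImplicit false
set_option linter.unusedSectionVars false
set_option linter.unusedVariables false
set_option linter.style.haveILetI false

/-! The indicator function of the `p`-elements, and the principal block idempotent. -/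

namespace Cfsg.Agent.Lib.Helper2.BlockKul

open Cfsg Cfsg.Agent.Lib.Helper7.CharIrr Cfsg.Agent.Lib.Helper7.CharOrth
  Cfsg.Agent.Lib.Helper7.CharIntegral Cfsg.Agent.Lib.Helper7.CharMore
  Cfsg.Agent.Lib.Helper7.CharClassAlg Cfsg.Agent.Lib.Helper7.CharComplete
  Cfsg.Agent.Lib.Helper7.CharDeg Cfsg.Agent.Lib.Helper7.CharGalois
  Cfsg.Agent.Lib.Helper7.CharClassAlg2 Cfsg.Agent.Lib.Helper7.CharInd
  Cfsg.Agent.Lib.Helper7.CharGen Cfsg.Agent.Lib.Helper7.Brauer8
  Cfsg.Agent.Lib.Helper2.LocRing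
  Cfsg.Agent.Lib.Helper2.BlockZ Cfsg.Agent.Lib.Helper2.BlockDef Cfsg.Agent.Lib.Helper2.BlockCong
  Cfsg.Agent.Lib.Helper2.BlockHt Cfsg.Agent.Lib.Helper2.BlockReg Cfsg.Agent.Lib.Helper2.BlockBr2
  Cfsg.Agent.Lib.Helper2.BlockSub Cfsg.Agent.Lib.Helper2.BlockReg2
  Cfsg.Agent.Lib.Helper2.BlockSM7 Cfsg.Agent.Lib.Helper7.CharBurnside
open scoped ComplexConjugate

/-- the indicator function of the `p`-elements -/
noncomputable def ip {G : Type*} [Group G] (p : ℕ) : G → ℂ := by
  classical exact fun g => if ∃ k : ℕ, orderOf g = p ^ k then 1 else 0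

theorem ip_pos {G : Type*} [Group G] {p : ℕ} {g : G} (h : ∃ k : ℕ, orderOf g = p ^ k) :
    ip p g = 1 := by
  unfold ip
  rw [if_pos h]

theorem ip_neg {G : Type*} [Group G] {p : ℕ} {g : G} (h : ¬ ∃ k : ℕ, orderOf g = p ^ k) :
    ip p g = 0 := by
  unfold ip
  rw [if_neg h]

theorem ip_isClass {G : Type*} [Group G] (p : ℕ) : IsClassFunction G (ip p) := by
  intro g h
  unfold ip
  rw [show orderOf (h * g * h⁻¹) = orderOf g from
    orderOf_injective (MulAut.conj h).toMonoidHom (MulAut.conj h).injective g]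

theorem ip_inv {G : Type*} [Group G] (p : ℕ) (g : G) : ip p g⁻¹ = ip p g := by
  unfold ip
  rw [orderOf_inv]

theorem isNilpotent_of_isElementary {E : Type*} [Group E] [Finite E] {q : ℕ} (hq : q.Prime)
    (h : IsElementary q E) : Group.IsNilpotent E := by
  haveI : Fact q.Prime := ⟨hq⟩
  obtain ⟨x, hx, _, k, hk⟩ := h
  have h1 : Subgroup.zpowers x ≤ Subgroup.center E := by
    rw [Subgroup.zpowers_le]; exact hx
  have h2 : (Subgroup.center E).index ∣ q ^ k := hk ▸ Subgroup.index_dvd_of_le h1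
  obtain ⟨j, _, hj⟩ := (Nat.dvd_prime_pow hq).mp h2
  have h3 : IsPGroup q (E ⧸ Subgroup.center E) := IsPGroup.of_card (n := j) (by
    rw [← hj]; rfl)
  exact Group.of_quotient_center_nilpotent h3.isNilpotent

theorem mem_normal_sylow_iff {E : Type*} [Group E] [Finite E] {p : ℕ} [Fact p.Prime]
    (S : Sylow p E) [hS : (S : Subgroup E).Normal] (e : E) :
    e ∈ (S : Subgroup E) ↔ ∃ k : ℕ, orderOf e = p ^ k := by
  constructor
  · intro he
    obtain ⟨k, hk⟩ := (IsPGroup.iff_orderOf.mp S.2) ⟨e, he⟩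
    exact ⟨k, by rw [← hk, Subgroup.orderOf_mk]⟩
  · rintro ⟨k, hk⟩
    have h1 : IsPGroup p (Subgroup.zpowers e) := IsPGroup.of_card (n := k) (by
      rw [Nat.card_zpowers, hk])
    obtain ⟨Q, hQ⟩ := h1.exists_le_sylow
    haveI := Sylow.unique_of_normal S hS
    have h2 : Q = S := Subsingleton.elim _ _
    rw [← h2]
    exact hQ (Subgroup.mem_zpowers e)

theorem indFun_one_normal_sylow {E : Type*} [Group E] [Fintype E] {p : ℕ} [Fact p.Prime]
    (S : Sylow p E) [hS : (S : Subgroup E).Normal] :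
    indFun (S : Subgroup E) (fun _ => (1 : ℂ)) = fun e => ((S : Subgroup E).index : ℂ) * ip p e := by
  funext e
  unfold indFun
  have hc : (Nat.card (S : Subgroup E) : ℂ) ≠ 0 := Nat.cast_ne_zero.mpr Nat.card_pos.ne'
  by_cases he : e ∈ (S : Subgroup E)
  · rw [ip_pos ((mem_normal_sylow_iff S e).mp he)]
    have h1 : ∀ x : E, extendByZero (S : Subgroup E) (fun _ => (1 : ℂ)) (x⁻¹ * e * x) = 1 := by
      intro x
      have h2 : x⁻¹ * e * x ∈ (S : Subgroup E) := by
        have := hS.conj_mem e he x⁻¹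
        rwa [inv_inv] at this
      rw [extendByZero_of_mem _ _ h2]
    simp only [h1, Finset.sum_const, Finset.card_univ, nsmul_eq_mul, mul_one]
    rw [← Nat.card_eq_fintype_card, ← Subgroup.card_mul_index (S : Subgroup E)]
    push_cast
    field_simp
  · rw [ip_neg (fun h => he ((mem_normal_sylow_iff S e).mpr h))]
    have h1 : ∀ x : E, extendByZero (S : Subgroup E) (fun _ => (1 : ℂ)) (x⁻¹ * e * x) = 0 := by
      intro x
      have h2 : x⁻¹ * e * x ∉ (S : Subgroup E) := by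
        intro h3
        apply he
        have := hS.conj_mem _ h3 x
        simpa [mul_assoc] using this
      rw [extendByZero_of_not_mem _ _ h2]
    simp [h1]

theorem isGen_ip_of_nilpotent {E : Type*} [Group E] [Fintype E] (hE : Group.IsNilpotent E)
    {p : ℕ} [Fact p.Prime] (n : ℕ) (hn : Nat.card E / p ^ (Nat.card E).factorization p ∣ n) :
    IsGeneralizedCharacter E (fun e => (n : ℂ) * ip p e) := by
  obtain ⟨S⟩ : Nonempty (Sylow p E) := inferInstance
  haveI : (S : Subgroup E).Normal := inferInstance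
  have h1 : (S : Subgroup E).index = Nat.card E / p ^ (Nat.card E).factorization p := by
    rw [← Sylow.card_eq_multiplicity S, ← Subgroup.card_mul_index (S : Subgroup E)]
    rw [Nat.mul_div_cancel_left _ Nat.card_pos]
  rw [← h1] at hn
  obtain ⟨m, rfl⟩ := hn
  have h2 := isGen_nsmul m (isGen_of_isCharacter
    (isCharacter_indFun (S : Subgroup E) _ (isCharacter_one (G := (S : Subgroup E)))))
  rw [indFun_one_normal_sylow] at h2
  convert h2 using 1
  funext e
  simp only [Pi.smul_apply]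
  push_cast
  ring

variable {G : Type*} [Group G] [Fintype G]

theorem isGen_ip (p : ℕ) [Fact p.Prime] :
    IsGeneralizedCharacter G
      (fun g => ((Nat.card G / p ^ (Nat.card G).factorization p : ℕ) : ℂ) * ip p g) := by
  classical
  apply brauer_characterization
  · intro g h
    simp only [ip_isClass p g h]
  · intro E q hq hE
    have h1 := isGen_ip_of_nilpotent (isNilpotent_of_isElementary hq hE) (p := p)
      (Nat.card G / p ^ (Nat.card G).factorization p)
      (Nat.ordCompl_dvd_ordCompl_of_dvd (Subgroup.card_subgroup_dvd_card E) p)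
    convert h1 using 1
    funext e
    unfold ip
    rw [Subgroup.orderOf_coe]

theorem exists_ip_coeff {M : Ideal AlgInt} {p : ℕ} [Fact p.Prime] (hM : IsPModular p M)
    [Fintype (IrrCharacter G)] :
    haveI := hM.2.1.isPrime
    ∃ k : IrrCharacter G → ℂ, (∀ χ, k χ ∈ Rloc M) ∧
      ∀ g : G, ip p g = ∑ χ : IrrCharacter G, k χ * (χ : G → ℂ) g := by
  classical
  haveI := hM.2.1.isPrime
  set n := Nat.card G / p ^ (Nat.card G).factorization p with hn
  have hnp : ¬ p ∣ n := Nat.not_dvd_ordCompl hM.1 Nat.card_pos.ne'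
  have hn0 : (n : ℂ) ≠ 0 := by
    apply Nat.cast_ne_zero.mpr
    rintro h
    exact hnp (h ▸ dvd_zero p)
  have hgen := isGen_ip (G := G) p
  choose k hk using fun χ : IrrCharacter G =>
    classInner_gen_int hgen (IsIrrCharacter.isCharacter χ.2)
  refine ⟨fun χ => (n : ℂ)⁻¹ * (k χ : ℂ), ?_, ?_⟩
  · intro χ
    exact Subring.mul_mem _ (natCast_inv_mem_Rloc hM hnp)
      (integral_mem_Rloc (isIntegral_intCast _))
  · intro g
    have h1 := congrFun (classFunction_eq_sum (isGen_isClassFunction hgen)) g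
    simp only [hk, Finset.sum_apply, Pi.smul_apply, smul_eq_mul] at h1
    simp only [mul_assoc]
    rw [← Finset.mul_sum, ← h1, ← hn]
    field_simp

theorem sum_ip_mul_mem_Iloc {M : Ideal AlgInt} {p : ℕ} [Fact p.Prime] (hM : IsPModular p M)
    {a : G → ℂ} (ha : IsClassFunction G a)
    (hW : ∀ χ : IrrCharacter G, MemLocalIdeal M (W (χ : G → ℂ) a)) (g : G) :
    MemLocalIdeal M (∑ x, ip p x * a (x * g)) := by
  classical
  haveI := hM.2.1.isPrime
  haveI := Fintype.ofFinite (IrrCharacter G)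
  obtain ⟨k, hk, hip⟩ := exists_ip_coeff (G := G) hM
  have h1 : ∑ x, ip p x * a (x * g) =
      ∑ χ : IrrCharacter G, k χ * (W (χ : G → ℂ) a * (χ : G → ℂ) g⁻¹) := by
    simp only [hip, Finset.sum_mul]
    rw [Finset.sum_comm]
    apply Finset.sum_congr rfl
    intro χ _
    rw [← sum_mul_char χ.2 ha, Finset.mul_sum]
    apply Fintype.sum_equiv (Equiv.mulRight g)
    intro x
    simp only [Equiv.coe_mulRight, mul_inv_cancel_right]
    ring
  rw [h1]
  change _ ∈ Iloc M
  apply (Iloc M).sum_mem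
  intro χ _
  apply mul_mem_Iloc (hk χ)
  exact mul_mem_Iloc' (hW χ)
    (integral_mem_Rloc (isIntegral_of_isCharacter (IsIrrCharacter.isCharacter χ.2) _))

theorem sum_ip_eI (p : ℕ) (χ : IrrCharacter G) (g : G) :
    ∑ x, ip p x * eI (χ : G → ℂ) (x * g) =
      (Nat.card G : ℂ)⁻¹ * ∑ x, ip p x * (conj ((χ : G → ℂ) x) * conj ((χ : G → ℂ) g)) := by
  have h1 := sum_mul_char (isIrrCharacter_conj χ.2) (ip_isClass (G := G) p) g
  have e2 : (χ : G → ℂ) 1 ≠ 0 := by
    rw [← charDegree_cast (IsIrrCharacter.isCharacter χ.2)]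
    exact Nat.cast_ne_zero.mpr (charDegree_pos χ.2).ne'
  have e3 : conj ((χ : G → ℂ) 1) = (χ : G → ℂ) 1 := by
    rw [← charDegree_cast (IsIrrCharacter.isCharacter χ.2)]
    simp
  unfold eI
  have h2 : ∑ x, ip p x * ((Nat.card G : ℂ)⁻¹ * ((χ : G → ℂ) 1 * conj ((χ : G → ℂ) (x * g)))) =
      (Nat.card G : ℂ)⁻¹ * ((χ : G → ℂ) 1 * ∑ x, ip p x * conj ((χ : G → ℂ) (x * g))) := by
    rw [Finset.mul_sum, Finset.mul_sum]
    apply Finset.sum_congr rfl
    intro x _
    ring
  rw [h2, h1, W, e3]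
  congr 1
  rw [mul_comm ((χ : G → ℂ) 1), mul_assoc, mul_comm _ ((χ : G → ℂ) 1), ← mul_assoc,
    div_mul_cancel₀ _ e2, Finset.sum_mul]
  apply Finset.sum_congr rfl
  intro x _
  ring

theorem sum_ip_blockCoeff {M : Ideal AlgInt} {p : ℕ} [Fact p.Prime] (hM : IsPModular p M)
    {B : Set (IrrCharacter G)} (hB : IsPBlock M B) (g : G) (hg : ¬ p ∣ orderOf g) :
    ∑ x, ip p x * blockCoeff B (x * g) = blockCoeff B g := by
  classical
  haveI := Fintype.ofFinite (IrrCharacter G)
  rw [blockCoeff_eq_sum]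
  have h1 : ∑ x, ip p x * (∑ χ ∈ Finset.univ.filter (fun χ => χ ∈ B), eI (χ : G → ℂ)) (x * g) =
      ∑ χ ∈ Finset.univ.filter (fun χ => χ ∈ B), ∑ x, ip p x * eI (χ : G → ℂ) (x * g) := by
    simp only [Finset.sum_apply, Finset.mul_sum]
    rw [Finset.sum_comm]
  rw [h1]
  simp only [sum_ip_eI]
  have h2 : ∑ χ ∈ Finset.univ.filter (fun χ => χ ∈ B), (Nat.card G : ℂ)⁻¹ *
        ∑ x, ip p x * (conj ((χ : G → ℂ) x) * conj ((χ : G → ℂ) g)) =
      (Nat.card G : ℂ)⁻¹ * ∑ x, ip p x * ∑ χ ∈ Finset.univ.filter (fun χ => χ ∈ B),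
        (conj ((χ : G → ℂ) x) * conj ((χ : G → ℂ) g)) := by
    rw [← Finset.mul_sum, Finset.sum_comm]
    congr 1
    apply Finset.sum_congr rfl
    intro x _
    rw [Finset.mul_sum]
  rw [h2, Finset.sum_apply]
  rw [Finset.sum_eq_single (1 : G)]
  · rw [ip_pos ⟨0, by simp⟩, one_mul, Finset.mul_sum]
    apply Finset.sum_congr rfl
    intro χ _
    unfold eI
    have e3 : conj ((χ : G → ℂ) 1) = (χ : G → ℂ) 1 := by
      rw [← charDegree_cast (IsIrrCharacter.isCharacter χ.2)]
      simp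
    rw [e3]
  · intro x _ hx
    by_cases hxp : ∃ k : ℕ, orderOf x = p ^ k
    · have h1 := block_orth hM x g⁻¹ x 1 ⟨1, mul_one x, Commute.one_right x, hxp, by
          rw [orderOf_one]; exact (Fact.out : p.Prime).one_lt.ne' ∘ Nat.dvd_one.mp⟩
        ⟨g⁻¹, one_mul _, Commute.one_left _, ⟨0, by simp⟩, by rwa [orderOf_inv]⟩
        (fun h => hx (isConj_one_right.mp h.symm)) hB
      rw [inv_inv] at h1
      have h2 := congrArg conj h1
      rw [map_sum, map_zero] at h2
      simp only [map_mul] at h2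
      rw [h2, mul_zero]
    · rw [ip_neg hxp, zero_mul]
  · intro h
    exact absurd (Finset.mem_univ _) h

theorem height_one (p : ℕ) (B : Set (IrrCharacter G)) :
    blockHeight p B (fun _ : G => (1 : ℂ)) = 0 := by
  unfold blockHeight charDegree
  simp

theorem kulshammer {M : Ideal AlgInt} {p : ℕ} [Fact p.Prime] (hM : IsPModular p M) (g : G)
    (hg : ¬ p ∣ orderOf g) :
    MemLocalIdeal M (blockCoeff (principalBlock M G) g -
      (Nat.card {xy : G × G // (∃ k : ℕ, orderOf xy.1 = p ^ k) ∧ ¬ p ∣ orderOf xy.2 ∧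
        xy.1 * xy.2 = g} : ℂ) / (Nat.card {y : G // ¬ p ∣ orderOf y} : ℂ)) := by
  classical
  haveI := hM.2.1.isPrime
  obtain ⟨one, hone⟩ : ∃ one : IrrCharacter G, one = ⟨fun _ => 1, isIrrCharacter_one⟩ := ⟨_, rfl⟩
  have hB : IsPBlock M (principalBlock M G) := ⟨one, by rw [hone]; rfl⟩
  have hBe : principalBlock M G = blockOf M (one : G → ℂ) := by rw [hone]; rfl
  have hh1 : blockHeight p (blockOf M (one : G → ℂ)) (one : G → ℂ) = 0 := by
    rw [hone]; exact height_one p _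
  obtain ⟨z, hz⟩ : ∃ z : G → ℂ, z = creg p (one : G → ℂ) := ⟨_, rfl⟩
  have hzc : IsClassFunction G z := by
    rw [hz]; exact creg_isClass p (IsIrrCharacter.isClassFunction one.2)
  have hzR : ∀ h, z h ∈ Rloc M := by
    rw [hz]; exact creg_mem_Rloc p one.2
  have hzv : ∀ h : G, z h = if p ∣ orderOf h then 0 else 1 := by
    intro h
    rw [hz]
    unfold creg
    simp [hone]
  obtain ⟨c, hc⟩ : ∃ c : ℂ, c = W (one : G → ℂ) z := ⟨_, rfl⟩
  have hcv : c = (Nat.card {y : G // ¬ p ∣ orderOf y} : ℂ) := by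
    rw [hc, W]
    simp only [hone, mul_one, div_one, hzv]
    rw [Nat.card_eq_fintype_card, Fintype.card_subtype, Finset.sum_ite, Finset.sum_const_zero,
      zero_add, Finset.sum_const, nsmul_eq_mul, mul_one]
  have hcN : c ∉ Iloc M := by
    rw [hc, hz]; exact W_creg_notMem_of_height_zero hM one hh1
  have hcR : c ∈ Rloc M := by
    rw [hcv]; exact integral_mem_Rloc (isIntegral_natCast _)
  have hN : ∑ x, ip p x * z (x * g) =
      (Nat.card {xy : G × G // (∃ k : ℕ, orderOf xy.1 = p ^ k) ∧ ¬ p ∣ orderOf xy.2 ∧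
        xy.1 * xy.2 = g} : ℂ) := by
    have h1 : ∀ x : G, ip p x * z (x * g) =
        if (∃ k : ℕ, orderOf x = p ^ k) ∧ ¬ p ∣ orderOf (x * g) then 1 else 0 := by
      intro x
      rw [hzv]
      unfold ip
      split_ifs <;> simp_all
    simp only [h1]
    rw [Finset.sum_ite, Finset.sum_const_zero, add_zero, Finset.sum_const, nsmul_eq_mul, mul_one,
      ← Fintype.card_subtype, ← Nat.card_eq_fintype_card]
    congr 1
    apply Nat.card_congr
    refine ⟨fun x => ⟨(x.1⁻¹, x.1 * g), by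
        refine ⟨?_, x.2.2, by simp⟩
        simpa using x.2.1⟩,
      fun xy => ⟨xy.1.1⁻¹, by
        refine ⟨by simpa using xy.2.1, ?_⟩
        have e : xy.1.1⁻¹ * g = xy.1.2 := inv_mul_eq_iff_eq_mul.mpr xy.2.2.2.symm
        rw [e]
        exact xy.2.2.1⟩, ?_, ?_⟩
    · intro x
      simp
    · rintro ⟨⟨x, y⟩, h1, h2, h3⟩
      simp only [inv_inv, Subtype.mk.injEq, Prod.mk.injEq, true_and]
      rw [← h3, inv_mul_cancel_left]
  obtain ⟨a, ha⟩ : ∃ a : G → ℂ, a = z - c • blockCoeff (principalBlock M G) := ⟨_, rfl⟩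
  have hac : IsClassFunction G a := by
    intro x y
    simp only [ha, Pi.sub_apply, Pi.smul_apply, hzc x y, blockCoeff_isClass _ x y]
  have hW : ∀ χ : IrrCharacter G, MemLocalIdeal M (W (χ : G → ℂ) a) := by
    intro χ
    rw [ha, W_sub, W_smul, W_blockCoeff]
    by_cases hχ : χ ∈ principalBlock M G
    · rw [if_pos hχ, mul_one, hc]
      rw [hBe] at hχ
      exact W_sub_mem_Iloc (sameBlock_symm (M := M) hχ) hzc hzR
    · rw [if_neg hχ, mul_zero, sub_zero, hz, W_creg_eq_zero hM one χ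
        (fun h => hχ (by rw [hBe]; exact sameBlock_symm (M := M) h))]
      exact (Iloc M).zero_mem
  have hT := sum_ip_mul_mem_Iloc hM hac hW g
  have hT2 : ∑ x, ip p x * a (x * g) =
      ∑ x, ip p x * z (x * g) - c * ∑ x, ip p x * blockCoeff (principalBlock M G) (x * g) := by
    rw [Finset.mul_sum, ← Finset.sum_sub_distrib]
    apply Finset.sum_congr rfl
    intro x _
    simp only [ha, Pi.sub_apply, Pi.smul_apply, smul_eq_mul]
    ring
  rw [hT2, hN, sum_ip_blockCoeff hM hB g hg] at hT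
  rw [← hcv]
  have hc0 : c ≠ 0 := ne_zero_of_notMem_Iloc hcN
  have h5 := mul_mem_Iloc (Subring.neg_mem _ (inv_mem_Rloc hcR hcN)) hT
  have h6 : blockCoeff (principalBlock M G) g -
      (Nat.card {xy : G × G // (∃ k : ℕ, orderOf xy.1 = p ^ k) ∧ ¬ p ∣ orderOf xy.2 ∧
        xy.1 * xy.2 = g} : ℂ) / c = -c⁻¹ *
      ((Nat.card {xy : G × G // (∃ k : ℕ, orderOf xy.1 = p ^ k) ∧ ¬ p ∣ orderOf xy.2 ∧
        xy.1 * xy.2 = g} : ℂ) - c * blockCoeff (principalBlock M G) g) := by
    field_simp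
    ring
  rw [h6]
  exact h5

end Cfsg.Agent.Lib.Helper2.BlockKul
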