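import Mathlib
import Cfsg.Prelude.Def_Blocks
import Cfsg.Agent.Lib.Helper2.BlockFong
import Cfsg.Agent.Lib.Helper2.BlockN

set_option autoImplicit false
set_option linter.unusedSectionVars false
set_option linter.unusedVariables false
set_option linter.style.haveILetI false

/-! Miscellaneous consequences of the block library. -/

namespace Cfsg.Agent.Lib.Helper2.BlockMisc

open Cfsg Cfsg.Agent.Lib.Helper7.CharIrr Cfsg.Agent.Lib.Helper7.CharOrth
  Cfsg.Agent.Lib.Helper7.CharIntegral Cfsg.Agent.Lib.Helper7.CharMore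
  Cfsg.Agent.Lib.Helper7.CharClassAlg Cfsg.Agent.Lib.Helper7.CharComplete
  Cfsg.Agent.Lib.Helper7.CharDeg Cfsg.Agent.Lib.Helper7.CharGalois
  Cfsg.Agent.Lib.Helper7.CharClassAlg2 Cfsg.Agent.Lib.Helper7.CharBurnside
  Cfsg.Agent.Lib.Helper7.CharNormal Cfsg.Agent.Lib.Helper7.CharClifford
  Cfsg.Agent.Lib.Helper7.CharInd Cfsg.Agent.Lib.Helper7.CharMisc
  Cfsg.Agent.Lib.Helper2.LocRing
  Cfsg.Agent.Lib.Helper2.BlockZ Cfsg.Agent.Lib.Helper2.BlockDef Cfsg.Agent.Lib.Helper2.BlockOrth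
  Cfsg.Agent.Lib.Helper2.BlockSM4 Cfsg.Agent.Lib.Helper2.BlockSub Cfsg.Agent.Lib.Helper2.BlockBr2
  Cfsg.Agent.Lib.Helper2.BlockCov Cfsg.Agent.Lib.Helper2.BlockKer
  Cfsg.Agent.Lib.Helper2.BlockCov2 Cfsg.Agent.Lib.Helper2.BlockLam
  Cfsg.Agent.Lib.Helper2.BlockFMT Cfsg.Agent.Lib.Helper2.BlockGr3
  Cfsg.Agent.Lib.Helper2.BlockFong Cfsg.Agent.Lib.Helper2.BlockN
open scoped ComplexConjugate

variable {G : Type*} [Group G] [Fintype G]

/-- a criterion for lying in the same block -/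
theorem sameBlock_of_congr {M : Ideal AlgInt} [M.IsPrime] {χ ψ : IrrCharacter G}
    (h : ∀ x : G, blockCoeff (blockOf M (χ : G → ℂ)) x *
      (centralChar (χ : G → ℂ) x - centralChar (ψ : G → ℂ) x) ∈ Iloc M) :
    SameBlock M (χ : G → ℂ) (ψ : G → ℂ) := by
  classical
  haveI := Fintype.ofFinite (ConjClasses G)
  by_contra hc
  have h1 : W (χ : G → ℂ) (blockCoeff (blockOf M (χ : G → ℂ))) = 1 := by
    rw [W_blockCoeff, if_pos (show χ ∈ blockOf M (χ : G → ℂ) from sameBlock_refl (M := M) _)]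
  have h2 : W (ψ : G → ℂ) (blockCoeff (blockOf M (χ : G → ℂ))) = 0 := by
    rw [W_blockCoeff, if_neg (show ψ ∉ blockOf M (χ : G → ℂ) from hc)]
  apply one_notMem_Iloc (M := M)
  have h3 : (1 : ℂ) = W (χ : G → ℂ) (blockCoeff (blockOf M (χ : G → ℂ))) -
      W (ψ : G → ℂ) (blockCoeff (blockOf M (χ : G → ℂ))) := by rw [h1, h2, sub_zero]
  rw [h3, W_eq_sum_classes χ.2 (blockCoeff_isClass _), W_eq_sum_classes ψ.2 (blockCoeff_isClass _),
    ← Finset.sum_sub_distrib]
  apply Submodule.sum_mem (Iloc M)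
  intro K _
  rw [← mul_sub]
  exact h K.out

theorem centralChar_one (χ : IrrCharacter G) : centralChar (χ : G → ℂ) 1 = 1 := by
  have h1 : (Subgroup.centralizer ({(1 : G)} : Set G)) = ⊤ := by
    ext x
    simp [Subgroup.mem_centralizer_singleton_iff]
  rw [centralChar, h1, Subgroup.index_top]
  have := Cfsg.Agent.Lib.Helper2.BlockKer.irr_one_ne_zero χ.2
  field_simp
  simp

theorem single_block {M : Ideal AlgInt} {p : ℕ} [Fact p.Prime] (hM : IsPModular p M)
    (P : Subgroup G) [P.Normal] (hP : IsPGroup p P)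
    (hconstr : Subgroup.centralizer (P : Set G) ≤ P) (χ ψ : IrrCharacter G) :
    SameBlock M (χ : G → ℂ) (ψ : G → ℂ) := by
  haveI := hM.2.1.isPrime
  apply sameBlock_of_congr
  intro x
  by_cases hx : p ∣ orderOf x
  · rw [blockCoeff_eq_zero hM _ (block_closed ⟨χ, rfl⟩) x hx, zero_mul]
    exact Submodule.zero_mem _
  · by_cases hx1 : x = 1
    · rw [hx1, centralChar_one, centralChar_one, sub_self, mul_zero]
      exact Submodule.zero_mem _
    · have hxC : x ∉ Subgroup.centralizer (P : Set G) := by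
        intro hc
        obtain ⟨k, hk⟩ := (IsPGroup.iff_orderOf.mp hP) ⟨x, hconstr hc⟩
        rw [Subgroup.orderOf_mk] at hk
        cases k with
        | zero => exact hx1 (orderOf_eq_one_iff.mp (by simpa using hk))
        | succ k => exact hx (by rw [hk, pow_succ]; exact Dvd.intro_left _ rfl)
      exact mul_mem_Iloc (blockCoeff_mem_Rloc _ (block_closed ⟨χ, rfl⟩) x)
        (Submodule.sub_mem _ (centralChar_mem_Iloc_of_normal' hM P hP x hxC χ)
          (centralChar_mem_Iloc_of_normal' hM P hP x hxC ψ))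

theorem centralChar_mem_of_lt {M : Ideal AlgInt} {p : ℕ} (hM : IsPModular p M)
    (χ : IrrCharacter G) (x : G)
    (h : (Nat.card (Subgroup.centralizer ({x} : Set G))).factorization p <
      blockDefect p (blockOf M (χ : G → ℂ))) :
    MemLocalIdeal M (centralChar (χ : G → ℂ) x) := by
  haveI := hM.2.1.isPrime
  by_contra hc
  have := defect_le_of_centralChar hM (B := blockOf M (χ : G → ℂ)) ⟨χ, rfl⟩ x
    (fun χ' hχ' => notMem_of_sub_mem (M := M) (hχ' x) hc)
  omega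

theorem sameBlock_iff_defect {M : Ideal AlgInt} {p : ℕ} (hM : IsPModular p M) (d : ℕ)
    (χ ψ : IrrCharacter G) (hχ : blockDefect p (blockOf M (χ : G → ℂ)) = d)
    (hψ : blockDefect p (blockOf M (ψ : G → ℂ)) = d) :
    SameBlock M (χ : G → ℂ) (ψ : G → ℂ) ↔ ∀ x : G, ¬ p ∣ orderOf x →
      (Nat.card (Subgroup.centralizer ({x} : Set G))).factorization p = d →
      MemLocalIdeal M (centralChar (χ : G → ℂ) x - centralChar (ψ : G → ℂ) x) := by
  haveI := hM.2.1.isPrime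
  refine ⟨fun h x _ _ => h x, fun h => ?_⟩
  apply sameBlock_of_congr
  intro x
  by_cases hx : p ∣ orderOf x
  · rw [blockCoeff_eq_zero hM _ (block_closed ⟨χ, rfl⟩) x hx, zero_mul]
    exact Submodule.zero_mem _
  · have hR := blockCoeff_mem_Rloc _ (block_closed (M := M) (B := blockOf M (χ : G → ℂ)) ⟨χ, rfl⟩) x
    rcases lt_trichotomy ((Nat.card (Subgroup.centralizer ({x} : Set G))).factorization p) d
      with hlt | heq | hgt
    · exact mul_mem_Iloc hR (Submodule.sub_mem _ (centralChar_mem_of_lt hM χ x (hχ ▸ hlt))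
        (centralChar_mem_of_lt hM ψ x (hψ ▸ hlt)))
    · exact mul_mem_Iloc hR (h x hx heq)
    · apply mul_mem_Iloc' _ (Subring.sub_mem _ (centralChar_mem_Rloc χ x) (centralChar_mem_Rloc ψ x))
      by_contra hc
      have := le_defect_of_blockCoeff hM (B := blockOf M (χ : G → ℂ)) ⟨χ, rfl⟩ x hc
      omega

theorem iCC_cj (N : Subgroup G) [hN : N.Normal] [Fintype N] (θ : IrrCharacter N) (g x : G) :
    inducedCentralChar N (cj N θ g : N → ℂ) x = inducedCentralChar N (θ : N → ℂ) x := by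
  rw [inducedCentralChar_eq_W, inducedCentralChar_eq_W]
  change W (conjFun N (θ : N → ℂ) g) _ = _
  rw [W_conjFun]
  congr 1
  funext n
  rw [conjFun_apply]
  exact cl_isClass x _ _

theorem sameBlock_of_orb {M : Ideal AlgInt} [M.IsPrime] (N : Subgroup G) [hN : N.Normal] [Fintype N]
    (hout : ∀ y, y ∉ N → ∀ χ : IrrCharacter G, centralChar (χ : G → ℂ) y ∈ Iloc M)
    {b : Set (IrrCharacter N)} (hb : IsPBlock M b) {χ χ' : IrrCharacter G} {θ θ' : IrrCharacter N}
    (hθ : θ ∈ b) (hθ' : θ' ∈ orb N b)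
    (hcon : classInner (fun n : N => (χ : G → ℂ) n) (θ : N → ℂ) ≠ 0)
    (hcon' : classInner (fun n : N => (χ' : G → ℂ) n) (θ' : N → ℂ) ≠ 0) :
    SameBlock M (χ : G → ℂ) (χ' : G → ℂ) := by
  intro x
  by_cases hx : x ∈ N
  · obtain ⟨g, θ1, hθ1, rfl⟩ := hθ'
    have e1 := (Cfsg.Agent.S0963.result N χ θ).mp hcon ⟨x, hx⟩
    have e2 := (Cfsg.Agent.S0963.result N χ' _).mp hcon' ⟨x, hx⟩
    simp only at e1 e2
    rw [e1, e2, iCC_cj, inducedCentralChar_eq_W, inducedCentralChar_eq_W]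
    exact W_sub_mem_Iloc (sameBlock_of_mem hb hθ hθ1) (restrict_isClass N (cl_isClass x))
      (fun n => cl_mem_Rloc _ _)
  · exact Submodule.sub_mem (Iloc M) (hout x hx χ) (hout x hx χ')

theorem blockCoeff_eq_fo {M : Ideal AlgInt} [M.IsPrime] (N : Subgroup G) [hN : N.Normal] [Fintype N]
    (hout : ∀ y, y ∉ N → ∀ χ : IrrCharacter G, centralChar (χ : G → ℂ) y ∈ Iloc M)
    {B : Set (IrrCharacter G)} (hB : IsPBlock M B) :
    ∃ b : Set (IrrCharacter N), IsPBlock M b ∧ blockCoeff B = fo N b := by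
  classical
  obtain ⟨χ, hχ⟩ := block_nonempty hB
  obtain ⟨θ, hθ⟩ := exists_constituent_restrict N χ
  have hb : IsPBlock M (blockOf M (θ : N → ℂ)) := ⟨θ, rfl⟩
  have hθb : θ ∈ blockOf M (θ : N → ℂ) := sameBlock_refl (M := M) _
  refine ⟨blockOf M (θ : N → ℂ), hb, ?_⟩
  apply eq_of_W (blockCoeff_isClass _) (fo_isClass N _)
  intro ψ hψ
  obtain ⟨ψ', hψ'⟩ : ∃ ψ' : IrrCharacter G, (ψ' : G → ℂ) = ψ := ⟨⟨ψ, hψ⟩, rfl⟩
  rw [← hψ']
  obtain ⟨θ', hθ'⟩ := exists_constituent_restrict N ψ'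
  rw [W_fo N _ hθ', W_blockCoeff]
  by_cases hm : ψ' ∈ B
  · rw [if_pos hm, if_pos]
    exact mem_orb_of_sameBlock N hb (sameBlock_of_mem hB hχ hm) hθb hθ hθ'
  · rw [if_neg hm, if_neg]
    intro hc
    exact block_closed hB χ hχ ψ' hm (sameBlock_of_orb N hout hb hθb hc hθ hθ')

theorem blockCoeff_eq_zero_of_notMem_centralizer {M : Ideal AlgInt} {p : ℕ} (hM : IsPModular p M)
    (P : Subgroup G) [P.Normal] (hP : IsPGroup p P) {B : Set (IrrCharacter G)} (hB : IsPBlock M B)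
    (g : G) (hg : g ∉ Subgroup.centralizer (P : Set G)) : blockCoeff B g = 0 := by
  classical
  haveI := hM.2.1.isPrime
  obtain ⟨b, -, hb⟩ := blockCoeff_eq_fo (M := M) (Subgroup.centralizer (P : Set G))
    (fun y hy χ => centralChar_mem_Iloc_of_normal' hM P hP y hy χ) hB
  rw [hb, fo, ext0_notMem _ _ hg]

end Cfsg.Agent.Lib.Helper2.BlockMisc
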