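import Mathlib
import Cfsg.Prelude.Def_Blocks
import Cfsg.Prelude.Def_Solvable
import Cfsg.Agent.Lib.Helper2.BlockKer
import Cfsg.Agent.Lib.Helper2.BlockSM7
import Cfsg.Agent.Lib.Helper2.BlockFMT
import Cfsg.Agent.S0936

set_option autoImplicit false
set_option linter.unusedSectionVars false
set_option linter.unusedVariables false
set_option linter.style.haveILetI false

/-! The principal block and centralizers of `p`-elements. -/

namespace Cfsg.Agent.Lib.Helper2.BlockPr

open Cfsg Cfsg.Agent.Lib.Helper7.CharIrr Cfsg.Agent.Lib.Helper7.CharOrth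
  Cfsg.Agent.Lib.Helper7.CharIntegral Cfsg.Agent.Lib.Helper7.CharMore
  Cfsg.Agent.Lib.Helper7.CharClassAlg Cfsg.Agent.Lib.Helper7.CharComplete
  Cfsg.Agent.Lib.Helper7.CharDeg Cfsg.Agent.Lib.Helper7.CharGalois
  Cfsg.Agent.Lib.Helper7.CharClassAlg2 Cfsg.Agent.Lib.Helper7.CharBurnside
  Cfsg.Agent.Lib.Helper7.CharKer
  Cfsg.Agent.Lib.Helper2.LocRing
  Cfsg.Agent.Lib.Helper2.BlockZ Cfsg.Agent.Lib.Helper2.BlockDef Cfsg.Agent.Lib.Helper2.BlockOrth
  Cfsg.Agent.Lib.Helper2.BlockAvg Cfsg.Agent.Lib.Helper2.BlockN Cfsg.Agent.Lib.Helper2.BlockKer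
  Cfsg.Agent.Lib.Helper2.BlockSM4 Cfsg.Agent.Lib.Helper2.BlockSM5 Cfsg.Agent.Lib.Helper2.BlockSM6
  Cfsg.Agent.Lib.Helper2.BlockSM7 Cfsg.Agent.Lib.Helper2.BlockBr2 Cfsg.Agent.Lib.Helper2.BlockSub
  Cfsg.Agent.Lib.Helper2.BlockFMT
open scoped ComplexConjugate

variable {G : Type*} [Group G] [Fintype G]

theorem isPBlock_principal {G : Type*} [Group G] (M : Ideal AlgInt) :
    IsPBlock M (principalBlock M G) :=
  ⟨⟨fun _ => 1, isIrrCharacter_one⟩, rfl⟩

theorem principal_induced {M : Ideal AlgInt} {p : ℕ} [Fact p.Prime] (hM : IsPModular p M)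
    (z : G) (hz : ∃ k : ℕ, orderOf z = p ^ k) :
    IsInducedBlock M (Subgroup.centralizer ({z} : Set G))
      (principalBlock M (Subgroup.centralizer ({z} : Set G))) (principalBlock M G) :=
  (Cfsg.Agent.S0936.result p M hM _ _
    (exists_induced_centralizer hM z hz (isPBlock_principal M))).mpr rfl

theorem principal_part_zero {M : Ideal AlgInt} {p : ℕ} [Fact p.Prime] (hM : IsPModular p M)
    (z : G) [Fintype (Subgroup.centralizer ({z} : Set G))]
    (hz : ∃ k : ℕ, orderOf z = p ^ k) (h : Subgroup.centralizer ({z} : Set G))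
    (hh : IsPPart p (h : G) z) (χ : IrrCharacter G) (hχ : χ ∉ principalBlock M G) :
    ∑ k : Subgroup.centralizer ({z} : Set G),
      blockCoeff (principalBlock M (Subgroup.centralizer ({z} : Set G))) k *
        (χ : G → ℂ) ((k : G) * (h : G)) = 0 :=
  second_main hM _ (principal_induced hM z hz) h
    (fun z' hz' => by rw [isPPart_unique hM.1 hz' hh]) χ hχ

theorem principal_part_eq {M : Ideal AlgInt} {p : ℕ} [Fact p.Prime] (hM : IsPModular p M)
    (z : G) [Fintype (Subgroup.centralizer ({z} : Set G))]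
    (hz : ∃ k : ℕ, orderOf z = p ^ k) (h : Subgroup.centralizer ({z} : Set G))
    (hh : IsPPart p (h : G) z) (χ : IrrCharacter G) (hχ : χ ∈ principalBlock M G) :
    ∑ k : Subgroup.centralizer ({z} : Set G),
      blockCoeff (principalBlock M (Subgroup.centralizer ({z} : Set G))) k *
        (χ : G → ℂ) ((k : G) * (h : G)) = (χ : G → ℂ) h := by
  classical
  haveI := hM.2.1.isPrime
  haveI := Fintype.ofFinite (IrrCharacter (Subgroup.centralizer ({z} : Set G)))
  have h1 := char_eq_sum_blocks (M := M) (Subgroup.centralizer ({z} : Set G)) (χ : G → ℂ) h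
  rw [h1, Finset.sum_eq_single (principalBlock M (Subgroup.centralizer ({z} : Set G)))]
  · intro b hb hne
    obtain ⟨ξ, _, rfl⟩ := Finset.mem_image.mp hb
    have hbb : IsPBlock M (blockOf M (ξ : Subgroup.centralizer ({z} : Set G) → ℂ)) := ⟨ξ, rfl⟩
    obtain ⟨B', hB'⟩ := exists_induced_centralizer hM z hz hbb
    apply second_main hM _ hB' h (fun z' hz' => by rw [isPPart_unique hM.1 hz' hh]) χ
    intro hχ'
    apply hne
    have h2 : B' = principalBlock M G := block_eq_of_mem hB'.2.1 (isPBlock_principal M) hχ' hχ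
    rw [h2] at hB'
    exact (Cfsg.Agent.S0936.result p M hM _ _ ⟨_, hB'⟩).mp hB'
  · intro hn
    exfalso
    apply hn
    exact Finset.mem_image.mpr ⟨⟨fun _ => 1, isIrrCharacter_one⟩, Finset.mem_univ _, rfl⟩

/-- characters of the principal block are constant on cosets of `O_{p'}(C(u))` at `u` -/
theorem principal_const {M : Ideal AlgInt} {p : ℕ} [Fact p.Prime] (hM : IsPModular p M)
    (u : G) (hu : ∃ k : ℕ, orderOf u = p ^ k)
    (v : Subgroup.centralizer ({u} : Set G))
    (hv : v ∈ pPrimeCore p (Subgroup.centralizer ({u} : Set G)))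
    (χ : IrrCharacter G) (hχ : χ ∈ principalBlock M G) :
    (χ : G → ℂ) (u * v) = (χ : G → ℂ) u := by
  classical
  haveI := hM.2.1.isPrime
  haveI := Fintype.ofFinite (IrrCharacter (Subgroup.centralizer ({u} : Set G)))
  have huC : u ∈ Subgroup.centralizer ({u} : Set G) := by
    rw [Subgroup.mem_centralizer_singleton_iff]
  have hvu : (v : G) * u = u * (v : G) := Subgroup.mem_centralizer_singleton_iff.mp v.2
  have hvo : ¬ p ∣ orderOf (v : G) := by
    intro hd
    apply pPrimeCore_not_dvd (G := Subgroup.centralizer ({u} : Set G)) hM.1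
    have h1 : orderOf (⟨v, hv⟩ : pPrimeCore p (Subgroup.centralizer ({u} : Set G))) =
        orderOf (v : G) := by
      rw [← Subgroup.orderOf_coe, ← Subgroup.orderOf_coe]
    exact (h1 ▸ hd).trans (orderOf_dvd_natCard _)
  have hp1 : IsPPart p (((⟨u, huC⟩ : Subgroup.centralizer ({u} : Set G)) * v :
      Subgroup.centralizer ({u} : Set G)) : G) u := ⟨v, rfl, hvu.symm, hu, hvo⟩
  have hp2 : IsPPart p ((⟨u, huC⟩ : Subgroup.centralizer ({u} : Set G)) : G) u :=
    ⟨1, mul_one u, Commute.one_right u, hu, by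
      rw [orderOf_one]; exact hM.1.one_lt.ne' ∘ Nat.dvd_one.mp⟩
  have e1 := principal_part_eq hM u hu _ hp1 χ hχ
  have e2 := principal_part_eq hM u hu _ hp2 χ hχ
  have hc := restrict_isClass (Subgroup.centralizer ({u} : Set G))
    (IsIrrCharacter.isClassFunction χ.2)
  have e3 := sum_blockCoeff_mul (principalBlock M (Subgroup.centralizer ({u} : Set G))) hc
    ((⟨u, huC⟩ : Subgroup.centralizer ({u} : Set G)) * v)
  have e4 := sum_blockCoeff_mul (principalBlock M (Subgroup.centralizer ({u} : Set G))) hc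
    (⟨u, huC⟩ : Subgroup.centralizer ({u} : Set G))
  have e5 : (χ : G → ℂ) (u * v) = ∑ k : Subgroup.centralizer ({u} : Set G),
      blockCoeff (principalBlock M (Subgroup.centralizer ({u} : Set G))) k *
        (χ : G → ℂ) ((k : G) * (((⟨u, huC⟩ : Subgroup.centralizer ({u} : Set G)) * v :
      Subgroup.centralizer ({u} : Set G)) : G)) := e1.symm
  have e6 : (χ : G → ℂ) u = ∑ k : Subgroup.centralizer ({u} : Set G),
      blockCoeff (principalBlock M (Subgroup.centralizer ({u} : Set G))) k *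
        (χ : G → ℂ) ((k : G) * ((⟨u, huC⟩ : Subgroup.centralizer ({u} : Set G)) : G)) := e2.symm
  rw [e5, e6]
  refine Eq.trans e3 (Eq.trans ?_ e4.symm)
  apply Finset.sum_congr rfl
  intro ξ hξ
  have hξ' : ξ ∈ principalBlock M (Subgroup.centralizer ({u} : Set G)) :=
    (Finset.mem_filter.mp hξ).2
  have hcomm : (⟨u, huC⟩ : Subgroup.centralizer ({u} : Set G)) * v = v * ⟨u, huC⟩ :=
    Subtype.ext hvu.symm
  rw [hcomm, principal_mul_pPrimeCore hM hξ' v hv]

end Cfsg.Agent.Lib.Helper2.BlockPr
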