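import Mathlib
import Cfsg.Prelude.Def_Blocks
import Cfsg.Agent.Lib.Helper2.BlockFong
import Cfsg.Agent.Lib.Helper2.BlockN
import Cfsg.Agent.Lib.Helper2.BlockMisc
import Cfsg.Agent.Lib.Helper2.BlockAvg
import Cfsg.Agent.Lib.Helper2.BlockCong
import Cfsg.Agent.Lib.Helper2.BlockSM7
import Cfsg.Agent.Lib.Helper2.BlockSM3
import Cfsg.Agent.Lib.Helper2.BlockPr

set_option autoImplicit false
set_option linter.unusedSectionVars false
set_option linter.unusedVariables false
set_option linter.style.haveILetI false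

/-! Miscellaneous consequences of the block library. -/

namespace Cfsg.Agent.Lib.Helper2.BlockMisc3

open Cfsg Cfsg.Agent.Lib.Helper7.CharIrr Cfsg.Agent.Lib.Helper7.CharOrth
  Cfsg.Agent.Lib.Helper7.CharIntegral Cfsg.Agent.Lib.Helper7.CharMore
  Cfsg.Agent.Lib.Helper7.CharClassAlg Cfsg.Agent.Lib.Helper7.CharComplete
  Cfsg.Agent.Lib.Helper7.CharDeg Cfsg.Agent.Lib.Helper7.CharGalois
  Cfsg.Agent.Lib.Helper7.CharClassAlg2 Cfsg.Agent.Lib.Helper7.CharBurnside
  Cfsg.Agent.Lib.Helper7.CharNormal Cfsg.Agent.Lib.Helper7.CharClifford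
  Cfsg.Agent.Lib.Helper7.CharInd Cfsg.Agent.Lib.Helper7.CharMisc
  Cfsg.Agent.Lib.Helper2.LocRing
  Cfsg.Agent.Lib.Helper2.BlockZ Cfsg.Agent.Lib.Helper2.BlockDef Cfsg.Agent.Lib.Helper2.BlockOrth
  Cfsg.Agent.Lib.Helper2.BlockSM4 Cfsg.Agent.Lib.Helper2.BlockSub Cfsg.Agent.Lib.Helper2.BlockBr2
  Cfsg.Agent.Lib.Helper2.BlockCov Cfsg.Agent.Lib.Helper2.BlockKer
  Cfsg.Agent.Lib.Helper2.BlockCov2 Cfsg.Agent.Lib.Helper2.BlockLam
  Cfsg.Agent.Lib.Helper2.BlockFMT Cfsg.Agent.Lib.Helper2.BlockGr3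
  Cfsg.Agent.Lib.Helper2.BlockFong Cfsg.Agent.Lib.Helper2.BlockN
  Cfsg.Agent.Lib.Helper2.BlockMisc Cfsg.Agent.Lib.Helper2.BlockAvg Cfsg.Agent.Lib.Helper2.BlockCong
  Cfsg.Agent.Lib.Helper2.BlockSM7 Cfsg.Agent.Lib.Helper2.BlockSM3 Cfsg.Agent.Lib.Helper2.BlockPr
open scoped ComplexConjugate

variable {G : Type*} [Group G] [Fintype G]

theorem orderOf_of_isPPart {p : ℕ} (hp : p.Prime) {u z : G} (h : IsPPart p u z) :
    ∃ m : ℕ, ¬ p ∣ m ∧ orderOf u = orderOf z * m := by
  obtain ⟨y, rfl, hc, ⟨k, hk⟩, hy⟩ := h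
  refine ⟨orderOf y, hy, ?_⟩
  apply hc.orderOf_mul_eq_mul_orderOf_of_coprime
  rw [hk]
  exact Nat.Coprime.pow_left k ((Nat.Prime.coprime_iff_not_dvd hp).mpr hy)

theorem dvd_orderOf_iff_of_isPPart {p : ℕ} (hp : p.Prime) {u z : G} (h : IsPPart p u z) :
    p ∣ orderOf u ↔ p ∣ orderOf z := by
  obtain ⟨m, hm, he⟩ := orderOf_of_isPPart hp h
  rw [he]
  constructor
  · intro h1
    exact (hp.dvd_mul.mp h1).resolve_right hm
  · intro h1
    exact Dvd.dvd.mul_right h1 m

theorem orderOf_eq_of_isConj {x y : G} (h : IsConj x y) : orderOf x = orderOf y := by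
  obtain ⟨c, rfl⟩ := isConj_iff.mp h
  have := orderOf_injective (MulAut.conj c).toMonoidHom (MulAut.conj c).injective x
  simpa using this.symm

/-- the trivial character -/
noncomputable def triv (G : Type*) [Group G] : IrrCharacter G := ⟨fun _ => 1, isIrrCharacter_one⟩

theorem principal_p_prime_degree {M : Ideal AlgInt} {p : ℕ} [Fact p.Prime] (hM : IsPModular p M) :
    (∀ χ : IrrCharacter G, χ ∈ principalBlock M G → ¬ p ∣ charDegree (χ : G → ℂ) →
      (χ : G → ℂ) = fun _ => (1 : ℂ)) ↔ ¬ p ∣ Nat.card G := by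
  classical
  haveI := hM.2.1.isPrime
  haveI := Fintype.ofFinite (IrrCharacter G)
  constructor
  · intro h hp
    obtain ⟨x, hx⟩ := exists_prime_orderOf_dvd_card' p hp
    have h1 := weak_orth hM (principalBlock M G) (block_closed (isPBlock_principal M)) 1 x
      (by rw [orderOf_one]; exact hM.1.one_lt.ne' ∘ Nat.dvd_one.mp) (by rw [hx])
    have hmem : triv G ∈ Finset.univ.filter (fun χ : IrrCharacter G => χ ∈ principalBlock M G) :=
      Finset.mem_filter.mpr ⟨Finset.mem_univ _, sameBlock_refl (M := M) _⟩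
    rw [← Finset.add_sum_erase _ _ hmem] at h1
    apply one_notMem_Iloc (M := M)
    have h2 : ((triv G : IrrCharacter G) : G → ℂ) 1 * conj (((triv G : IrrCharacter G) : G → ℂ) x) = 1 := by
      change (1 : ℂ) * conj (1 : ℂ) = 1
      simp
    rw [h2] at h1
    have h3 : (1 : ℂ) = - ∑ χ ∈ (Finset.univ.filter
        (fun χ : IrrCharacter G => χ ∈ principalBlock M G)).erase (triv G),
        (χ : G → ℂ) 1 * conj ((χ : G → ℂ) x) := by
      linear_combination h1
    rw [h3]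
    apply Submodule.neg_mem
    apply Submodule.sum_mem (Iloc M)
    intro χ hχ
    have hne := (Finset.mem_erase.mp hχ).1
    have hB := (Finset.mem_filter.mp (Finset.mem_erase.mp hχ).2).2
    have hd : p ∣ charDegree (χ : G → ℂ) := by
      by_contra hc
      exact hne (Subtype.ext (h χ hB hc))
    apply mul_mem_Iloc'
    · rw [← charDegree_cast (IsIrrCharacter.isCharacter χ.2)]
      exact (natCast_mem_Iloc_iff hM _).mpr hd
    · apply integral_mem_Rloc
      exact isIntegral_of_isCharacter (IsIrrCharacter.isCharacter (isIrrCharacter_conj χ.2)) x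
  · intro hp χ hχ _
    have := eq_of_sameBlock_of_not_dvd hM hp (θ := triv G) (θ' := χ) hχ
    rw [← this]
    rfl

/-- intersections of a `p`-block and a `q`-block when there are no elements of order `pq` -/
theorem inter_vanish {p q : ℕ} [Fact p.Prime] [Fact q.Prime] (hpq : p ≠ q)
    {Mp Mq : Ideal AlgInt} (hMp : IsPModular p Mp) (hMq : IsPModular q Mq)
    (hno : ∀ g : G, orderOf g ≠ p * q) [Fintype (IrrCharacter G)]
    {Bp Bq : Set (IrrCharacter G)} [DecidablePred (· ∈ Bp)] [DecidablePred (· ∈ Bq)]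
    (hBp : IsPBlock Mp Bp) (hBq : IsPBlock Mq Bq)
    (y u : G) (hy : p ∣ orderOf y) (hu : q ∣ orderOf u) :
    ∑ χ ∈ Finset.univ.filter (fun χ => χ ∈ Bq),
      (if χ ∈ Bp then (χ : G → ℂ) y⁻¹ else 0) * (χ : G → ℂ) u = 0 := by
  classical
  obtain ⟨ϑ, hϑ⟩ : ∃ ϑ : G → ℂ, ϑ = ∑ χ ∈ Finset.univ.filter (fun χ : IrrCharacter G => χ ∈ Bp),
      (χ : G → ℂ) y⁻¹ • (χ : G → ℂ) := ⟨_, rfl⟩
  have hcl : IsClassFunction G ϑ := by
    rw [hϑ]
    apply isClassFunction_sum
    intro χ _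
    intro g h
    simp only [Pi.smul_apply, smul_eq_mul]
    rw [IsCharacter.isClassFunction (IsIrrCharacter.isCharacter χ.2) g h]
  obtain ⟨a, ha, -⟩ := exists_ppart_exp G p (Fact.out : p.Prime)
  obtain ⟨a', ha', -⟩ := exists_ppart_exp G q (Fact.out : q.Prime)
  have hvan : ∀ v : G, q ∣ orderOf v → ϑ v = 0 := by
    intro v hv
    have hnc : ¬ IsConj (v ^ a) (y ^ a) := by
      intro hc
      have h1 : p ∣ orderOf v := by
        rw [dvd_orderOf_iff_of_isPPart Fact.out (ha v), orderOf_eq_of_isConj hc,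
          ← dvd_orderOf_iff_of_isPPart Fact.out (ha y)]
        exact hy
      have h2 : p * q ∣ orderOf v :=
        Nat.Coprime.mul_dvd_of_dvd_of_dvd ((Nat.coprime_primes Fact.out Fact.out).mpr hpq) h1 hv
      exact hno _ (orderOf_pow_orderOf_div (orderOf_pos v).ne' h2)
    have := block_orth hMp v y _ _ (ha v) (ha y) hnc hBp
    rw [hϑ, Finset.sum_apply, ← this]
    apply Finset.sum_congr rfl
    intro χ _
    simp only [Pi.smul_apply, smul_eq_mul]
    ring
  have h1 := blockPart_section hMq hcl (u ^ a') (fun v z hv hz => hvan v (by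
    rw [dvd_orderOf_iff_of_isPPart Fact.out hv, ← orderOf_eq_of_isConj hz,
      ← dvd_orderOf_iff_of_isPPart Fact.out (ha' u)]
    exact hu)) hBq u _ (ha' u) (IsConj.refl _)
  rw [sum_blockCoeff_mul Bq hcl] at h1
  refine Eq.trans ?_ h1
  apply Finset.sum_congr rfl
  intro χ _
  congr 1
  rw [hϑ, classInner_sum_left]
  by_cases hχ : χ ∈ Bp
  · rw [if_pos hχ, Finset.sum_eq_single χ]
    · rw [classInner_smul_left, classInner_irr χ.2 χ.2, if_pos rfl, mul_one]
    · intro ψ _ hne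
      rw [classInner_smul_left, classInner_irr ψ.2 χ.2, if_neg (fun h => hne (Subtype.ext h)),
        mul_zero]
    · intro h
      exact absurd (Finset.mem_filter.mpr ⟨Finset.mem_univ _, hχ⟩) h
  · rw [if_neg hχ]
    symm
    apply Finset.sum_eq_zero
    intro ψ hψ
    have hne : ψ ≠ χ := fun h => hχ (h ▸ (Finset.mem_filter.mp hψ).2)
    rw [classInner_smul_left, classInner_irr ψ.2 χ.2, if_neg (fun h => hne (Subtype.ext h)),
      mul_zero]

theorem principal_share {p q : ℕ} [Fact p.Prime] [Fact q.Prime] (hpq : p ≠ q)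
    (hp : p ∣ Nat.card G) (hq : q ∣ Nat.card G)
    {Mp Mq : Ideal AlgInt} (hMp : IsPModular p Mp) (hMq : IsPModular q Mq)
    (hno : ∀ g : G, orderOf g ≠ p * q) :
    ∃ χ : IrrCharacter G, (χ : G → ℂ) ≠ (fun _ => 1) ∧ χ ∈ principalBlock Mp G ∧
      χ ∈ principalBlock Mq G := by
  classical
  haveI := Fintype.ofFinite (IrrCharacter G)
  haveI := hMp.2.1.isPrime
  haveI hq' := hMq.2.1.isPrime
  by_contra hc
  push Not at hc
  obtain ⟨x, hx⟩ := exists_prime_orderOf_dvd_card' p hp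
  obtain ⟨y, hy⟩ := exists_prime_orderOf_dvd_card' q hq
  have h1 := inter_vanish hpq hMp hMq hno (isPBlock_principal Mp) (isPBlock_principal Mq) x y
    (by rw [hx]) (by rw [hy])
  rw [Finset.sum_eq_single (triv G)] at h1
  · rw [if_pos (show triv G ∈ principalBlock Mp G from sameBlock_refl (M := Mp) _)] at h1
    change (1 : ℂ) * 1 = 0 at h1
    simp at h1
  · intro χ hχ hne
    by_cases hχp : χ ∈ principalBlock Mp G
    · exact absurd (Finset.mem_filter.mp hχ).2 (hc χ (fun h => hne (Subtype.ext h)) hχp)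
    · rw [if_neg hχp, zero_mul]
  · intro h
    exact absurd (Finset.mem_filter.mpr ⟨Finset.mem_univ _,
      show triv G ∈ principalBlock Mq G from sameBlock_refl (M := Mq) _⟩) h

theorem inter_sum {p q : ℕ} [Fact p.Prime] [Fact q.Prime] (hpq : p ≠ q)
    {Mp Mq : Ideal AlgInt} (hMp : IsPModular p Mp) (hMq : IsPModular q Mq)
    (hno : ∀ g : G, orderOf g ≠ p * q) (b : ℕ) (hb : (Nat.card G).factorization q = b)
    {Bp Bq : Set (IrrCharacter G)} (hBp : IsPBlock Mp Bp) (hBq : IsPBlock Mq Bq)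
    (y : G) (hy : p ∣ orderOf y) :
    ∃ ω : AlgInt, ∑ᶠ χ ∈ Bp ∩ Bq, (charDegree (χ : G → ℂ) : ℂ) * (χ : G → ℂ) y =
      (q : ℂ) ^ b * (ω : ℂ) := by
  classical
  haveI := Fintype.ofFinite (IrrCharacter G)
  obtain ⟨Q⟩ : Nonempty (Sylow q G) := inferInstance
  have hQ : Nat.card (Q : Subgroup G) = q ^ b := by rw [← hb]; exact Q.card_eq_multiplicity
  obtain ⟨c, hc⟩ : ∃ c : IrrCharacter G → ℂ, c = fun χ => if χ ∈ Bp then (χ : G → ℂ) y else 0 :=
    ⟨_, rfl⟩
  have hcint : ∀ χ, IsIntegral ℤ (c χ) := by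
    intro χ
    rw [hc]
    simp only
    split_ifs
    · exact isIntegral_of_isCharacter (IsIrrCharacter.isCharacter χ.2) y
    · exact isIntegral_zero
  have hvan : ∀ u : G, q ∣ orderOf u →
      ∑ χ ∈ Finset.univ.filter (fun χ : IrrCharacter G => χ ∈ Bq), c χ * (χ : G → ℂ) u = 0 := by
    intro u hu
    have := inter_vanish hpq hMp hMq hno hBp hBq y⁻¹ u (by rw [orderOf_inv]; exact hy) hu
    rw [inv_inv] at this
    rw [hc]
    exact this
  have hint : IsIntegral ℤ (∑ χ ∈ Finset.univ.filter (fun χ : IrrCharacter G => χ ∈ Bq), c χ *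
      ((Nat.card (Q : Subgroup G) : ℂ)⁻¹ *
        ∑ x : G, (if x ∈ (Q : Subgroup G) then (χ : G → ℂ) (x * 1) else 0))) := by
    apply IsIntegral.sum
    intro χ _
    exact (hcint χ).mul
      (isIntegral_avg (IsIrrCharacter.isCharacter χ.2) (Q : Subgroup G) 1 (fun t _ => by simp))
  refine ⟨⟨_, hint⟩, ?_⟩
  have hQ0 : (Nat.card (Q : Subgroup G) : ℂ) ≠ 0 := by
    exact_mod_cast (Nat.card_pos (α := (Q : Subgroup G))).ne'
  have h3 : ∑ χ ∈ Finset.univ.filter (fun χ : IrrCharacter G => χ ∈ Bq), c χ *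
      ((Nat.card (Q : Subgroup G) : ℂ)⁻¹ *
        ∑ x : G, (if x ∈ (Q : Subgroup G) then (χ : G → ℂ) (x * 1) else 0)) =
      (Nat.card (Q : Subgroup G) : ℂ)⁻¹ * ∑ x : G,
        ∑ χ ∈ Finset.univ.filter (fun χ : IrrCharacter G => χ ∈ Bq),
        (if x ∈ (Q : Subgroup G) then c χ * (χ : G → ℂ) x else 0) := by
    rw [Finset.sum_comm, Finset.mul_sum]
    apply Finset.sum_congr rfl
    intro χ _
    rw [mul_left_comm, Finset.mul_sum]
    congr 1
    apply Finset.sum_congr rfl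
    intro x _
    rw [mul_one]
    split_ifs <;> simp
  change _ = (q : ℂ) ^ b * (∑ χ ∈ Finset.univ.filter (fun χ : IrrCharacter G => χ ∈ Bq), c χ *
      ((Nat.card (Q : Subgroup G) : ℂ)⁻¹ *
        ∑ x : G, (if x ∈ (Q : Subgroup G) then (χ : G → ℂ) (x * 1) else 0)))
  rw [h3, Finset.sum_eq_single (1 : G)]
  · have e1 : ((q : ℂ) ^ b) = (Nat.card (Q : Subgroup G) : ℂ) := by rw [hQ]; push_cast; rfl
    rw [e1, ← mul_assoc, mul_inv_cancel₀ hQ0, one_mul,
      finsum_mem_eq_finite_toFinset_sum _ (Set.toFinite (Bp ∩ Bq))]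
    simp only [if_pos (one_mem (Q : Subgroup G))]
    rw [hc]
    simp only [ite_mul, zero_mul]
    rw [← Finset.sum_filter]
    apply Finset.sum_congr
    · ext χ
      simp [and_comm]
    · intro χ _
      rw [charDegree_cast (IsIrrCharacter.isCharacter χ.2)]
      ring
  · intro x _ hx
    by_cases hxQ : x ∈ (Q : Subgroup G)
    · simp only [if_pos hxQ]
      apply hvan
      obtain ⟨k, hk⟩ := (IsPGroup.iff_orderOf.mp Q.2) ⟨x, hxQ⟩
      rw [Subgroup.orderOf_mk] at hk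
      cases k with
      | zero => exact absurd (orderOf_eq_one_iff.mp (by simpa using hk)) hx
      | succ k => rw [hk, pow_succ]; exact Dvd.intro_left _ rfl
    · simp only [if_neg hxQ]
      exact Finset.sum_const_zero
  · intro h; exact absurd (Finset.mem_univ _) h

end Cfsg.Agent.Lib.Helper2.BlockMisc3
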