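import Mathlib
import Cfsg.Agent.Lib.Helper2.CentMax
import Cfsg.Agent.Lib.Helper2.Solvable
import Cfsg.Agent.Lib.Helper1.SZQuot

set_option autoImplicit false

namespace Cfsg.Agent.Lib.Helper2.CentMax

open scoped commutatorElement

variable {G : Type*} [Group G]

section

variable (h : ∀ g : G, g ≠ 1 → IsCoatom (Subgroup.centralizer ({g} : Set G)))
include h

theorem comm_of_prime_order [Finite G] {x : G} {p : ℕ} (hp : p.Prime) (hx : orderOf x = p) :
    ∀ a ∈ Subgroup.centralizer ({x} : Set G), ∀ b ∈ Subgroup.centralizer ({x} : Set G),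
      a * b = b * a := by
  by_contra hna
  have hpF : Fact p.Prime := ⟨hp⟩
  have hx1 : x ≠ 1 := by
    rintro rfl
    rw [orderOf_one] at hx
    exact hp.one_lt.ne hx
  set M := Subgroup.centralizer ({x} : Set G) with hM
  have hMp : IsPGroup p M := (isPGroup_or_comm h hp hx).resolve_right hna
  have hMna : ¬ ∀ a b : M, a * b = b * a := by
    intro hc
    apply hna
    intro a ha b hb
    exact congrArg Subtype.val (hc ⟨a, ha⟩ ⟨b, hb⟩)
  obtain ⟨z', hz1, hz2⟩ := exists_second_center hMp hMna
  set z : G := (z' : G) with hz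
  have hzM : z ∈ M := z'.2
  have hzne : z ≠ 1 := by
    intro h0
    apply hz1
    have : z' = 1 := Subtype.ext h0
    rw [this]
    exact Subgroup.one_mem _
  set M' := Subgroup.centralizer ({z} : Set G) with hM'
  have hM'M : ¬ M' ≤ M := by
    intro hle
    have h1 : M' = M := cent_eq_of_le h hzne hx1 hle
    apply hz1
    rw [Subgroup.mem_center_iff]
    intro g
    have h2 : (g : G) ∈ M' := by rw [h1]; exact g.2
    exact Subtype.ext (Subgroup.mem_centralizer_singleton_iff.mp h2)
  have hxM' : x ∈ M' := Subgroup.mem_centralizer_singleton_iff.mpr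
        (Subgroup.mem_centralizer_singleton_iff.mp hzM).symm
  have hM'p : IsPGroup p M' := by
    obtain ⟨k, hk⟩ := IsPGroup.iff_orderOf.mp hMp z'
    have hk' : orderOf z = p ^ k := by rw [hz, Subgroup.orderOf_coe, hk]
    have hk0 : k ≠ 0 := by
      rintro rfl
      rw [pow_zero, orderOf_eq_one_iff] at hk'
      exact hzne hk'
    have hpz : p ∣ orderOf z := by
      rw [hk']
      exact dvd_pow_self p hk0
    have ho : orderOf (z ^ (orderOf z / p)) = p :=
      orderOf_pow_orderOf_div (orderOf_pos z).ne' hpz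
    have hw1 : z ^ (orderOf z / p) ≠ 1 := by
      intro h0
      rw [h0, orderOf_one] at ho
      exact hp.one_lt.ne ho
    have e := cent_pow_eq h hw1
    rcases isPGroup_or_comm h hp ho with h1 | h1
    · rw [e] at h1
      exact h1
    · exfalso
      rw [e] at h1
      apply hM'M
      intro a ha
      exact Subgroup.mem_centralizer_singleton_iff.mpr (h1 a ha x hxM')
  set D := M ⊓ M' with hD
  have hDM' : D < M' := by
    apply lt_of_le_of_ne inf_le_right
    intro h0
    apply hM'M
    rw [← h0]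
    exact inf_le_left
  have hxD : x ∈ D := by
    refine Subgroup.mem_inf.mpr ⟨?_, hxM'⟩
    exact Subgroup.mem_centralizer_singleton_iff.mpr rfl
  have hMD : M ≤ Subgroup.normalizer (D : Set G) := by
    rw [Subgroup.le_normalizer_iff]
    intro g hg d hd
    obtain ⟨hd1, hd2⟩ := Subgroup.mem_inf.mp hd
    refine Subgroup.mem_inf.mpr ⟨M.mul_mem (M.mul_mem hg hd1) (M.inv_mem hg), ?_⟩
    rw [Subgroup.mem_centralizer_singleton_iff]
    have hc := hz2 (⟨g, hg⟩⁻¹ : M)
    have hc' := Subgroup.mem_center_iff.mp hc ⟨d, hd1⟩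
    have hc'' : d * (g⁻¹ * z * g⁻¹⁻¹ * z⁻¹) = (g⁻¹ * z * g⁻¹⁻¹ * z⁻¹) * d :=
      congrArg Subtype.val hc'
    have hdz : d * z = z * d := Subgroup.mem_centralizer_singleton_iff.mp hd2
    rw [inv_inv] at hc''
    have e1 : d * (g⁻¹ * z * g) = (g⁻¹ * z * g) * d := by
      calc d * (g⁻¹ * z * g) = d * (g⁻¹ * z * g * z⁻¹) * z := by group
        _ = (g⁻¹ * z * g * z⁻¹) * d * z := by rw [hc'']
        _ = (g⁻¹ * z * g * z⁻¹) * (d * z) := by group
        _ = (g⁻¹ * z * g * z⁻¹) * (z * d) := by rw [hdz]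
        _ = (g⁻¹ * z * g) * d := by group
    calc g * d * g⁻¹ * z = g * (d * (g⁻¹ * z * g)) * g⁻¹ := by group
      _ = g * ((g⁻¹ * z * g) * d) * g⁻¹ := by rw [e1]
      _ = z * (g * d * g⁻¹) := by group
  have hDn : D.Normal := by
    rw [← Subgroup.normalizer_eq_top_iff]
    obtain ⟨n, hn1, hn2⟩ := SetLike.exists_of_lt
      (Cfsg.Agent.Lib.Helper1.lt_inf_normalizer_of_lt hM'p hDM')
    obtain ⟨hn3, hn4⟩ := Subgroup.mem_inf.mp hn1
    apply (h x hx1).2
    apply lt_of_le_of_ne hMD
    intro h0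
    apply hn2
    refine Subgroup.mem_inf.mpr ⟨?_, hn3⟩
    rw [h0]
    exact hn4
  have hq : ¬ ∀ q : ℕ, q.Prime → q ∣ Nat.card G → q = p := by
    intro hq
    have hGp : IsPGroup p G := IsPGroup.of_card (Nat.eq_prime_pow_of_unique_prime_dvd
      Nat.card_pos.ne' (fun {d} hd hdvd => hq d hd hdvd))
    have hnt : Nontrivial G := ⟨⟨x, 1, hx1⟩⟩
    have := hGp.center_nontrivial
    obtain ⟨⟨c, hc⟩, hc1⟩ := exists_ne (1 : Subgroup.center G)
    have hc2 : c ≠ 1 := fun h0 => hc1 (Subtype.ext h0)
    apply (h c hc2).1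
    rw [eq_top_iff]
    intro g _
    exact Subgroup.mem_centralizer_singleton_iff.mpr (Subgroup.mem_center_iff.mp hc g)
  push Not at hq
  obtain ⟨q, hqp, hqd, hqne⟩ := hq
  have hqF : Fact q.Prime := ⟨hqp⟩
  obtain ⟨y, hy⟩ := exists_prime_orderOf_dvd_card' q hqd
  have hy1 : y ≠ 1 := by
    rintro rfl
    rw [orderOf_one] at hy
    exact hqp.one_lt.ne hy
  set L := Subgroup.centralizer ({y} : Set G) with hL
  have hyM : y ∉ M := by
    intro hyM
    obtain ⟨k, hk⟩ := IsPGroup.iff_orderOf.mp hMp ⟨y, hyM⟩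
    rw [← Subgroup.orderOf_coe] at hk
    change orderOf y = p ^ k at hk
    rw [hy] at hk
    have h1 : p ∣ q := by
      rw [hk]
      apply dvd_pow_self
      rintro rfl
      rw [pow_zero] at hk
      exact hqp.one_lt.ne' hk
    exact hqne ((Nat.prime_dvd_prime_iff_eq hp hqp).mp h1).symm
  have hxL : x ∉ L := by
    intro hxL
    apply hyM
    exact Subgroup.mem_centralizer_singleton_iff.mpr
      (Subgroup.mem_centralizer_singleton_iff.mp hxL).symm
  have hML : M ⊓ L = ⊥ := by
    rw [eq_bot_iff]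
    intro m hm
    obtain ⟨hm1, hm2⟩ := Subgroup.mem_inf.mp hm
    rw [Subgroup.mem_bot]
    by_contra hm0
    obtain ⟨k, hk⟩ := IsPGroup.iff_orderOf.mp hMp ⟨m, hm1⟩
    rw [← Subgroup.orderOf_coe] at hk
    change orderOf m = p ^ k at hk
    have hcop : (orderOf m).Coprime (orderOf y) := by
      rw [hk, hy]
      exact Nat.Coprime.pow_left k ((Nat.coprime_primes hp hqp).mpr (Ne.symm hqne))
    have e := cent_eq_of_coprime h hm0 hy1 (Subgroup.mem_centralizer_singleton_iff.mp hm2) hcop
    apply hxL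
    rw [hL, ← e]
    exact Subgroup.mem_centralizer_singleton_iff.mpr
      (Subgroup.mem_centralizer_singleton_iff.mp hm1).symm
  have hDL : L ⊔ D = ⊤ := by
    apply (h y hy1).2
    apply lt_of_le_of_ne le_sup_left
    intro h0
    apply hxL
    have h1 : x ∈ L ⊔ D := Subgroup.mem_sup_right hxD
    rwa [← h0] at h1
  have hLD : L ⊓ D = ⊥ := by
    rw [eq_bot_iff, ← hML, inf_comm]
    exact inf_le_inf_right L inf_le_left
  have c1 := Cfsg.Agent.Lib.Helper1.card_sup_of_disjoint L D hLD
  rw [hDL, Subgroup.card_top] at c1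
  have c2 : Nat.card (M × L) ≤ Nat.card G :=
    Nat.card_le_card_of_injective _ (Subgroup.mul_injective_of_disjoint (disjoint_iff.mpr hML))
  rw [Nat.card_prod, c1, mul_comm] at c2
  have c3 : Nat.card M ≤ Nat.card D := Nat.le_of_mul_le_mul_left c2 Nat.card_pos
  have hDM : D = M := Subgroup.eq_of_le_of_card_ge inf_le_left c3
  have hMM' : M ≤ M' := by
    rw [← hDM]; exact inf_le_right
  exact hM'M (cent_eq_of_le h hx1 hzne hMM').ge

theorem comm_of_centerless [Finite G] {x : G} (hx1 : x ≠ 1) :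
    ∀ a ∈ Subgroup.centralizer ({x} : Set G), ∀ b ∈ Subgroup.centralizer ({x} : Set G),
      a * b = b * a := by
  have ho1 : orderOf x ≠ 1 := fun h0 => hx1 (orderOf_eq_one_iff.mp h0)
  have hp : (orderOf x).minFac.Prime := Nat.minFac_prime ho1
  have ho : orderOf (x ^ (orderOf x / (orderOf x).minFac)) = (orderOf x).minFac :=
    orderOf_pow_orderOf_div (orderOf_pos x).ne' (Nat.minFac_dvd _)
  have hw1 : x ^ (orderOf x / (orderOf x).minFac) ≠ 1 := by
    intro h0
    rw [h0, orderOf_one] at ho
    exact hp.one_lt.ne ho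
  have := comm_of_prime_order h hp ho
  rwa [cent_pow_eq h hw1] at this

omit h in
theorem commutator_le_of_normal_coatom {N : Subgroup G} [N.Normal] (hN : IsCoatom N) :
    commutator G ≤ N := by
  obtain ⟨t, -, ht⟩ := SetLike.exists_of_lt (lt_top_iff_ne_top.mpr hN.1)
  apply Subgroup.Normal.commutator_le_of_self_sup_commutative_eq_top (H := Subgroup.zpowers t) _
    inferInstance
  apply hN.2
  apply lt_of_le_of_ne le_sup_left
  intro h0
  apply ht
  have h1 : t ∈ N ⊔ Subgroup.zpowers t := Subgroup.mem_sup_right (Subgroup.mem_zpowers t)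
  rwa [← h0] at h1

theorem structure_of_centerless [Finite G] [Nontrivial G] :
    (¬ IsMulCommutative G) ∧ (∀ K : Subgroup G, K ≠ ⊤ → IsMulCommutative K) ∧
      ∃ p q a : ℕ, p.Prime ∧ q.Prime ∧ p ≠ q ∧ Nat.card G = p ^ a * q ∧
        ∀ P : Subgroup G, Nat.card P = p ^ a → P.Normal := by
  have hsol : Group.IsSolvable G := isSolvable_of_centerless h
  obtain ⟨V, hVc, hV1, hVab⟩ := Solvable.exists_abelian_characteristic (G := G)
  have hVn : V.Normal := Subgroup.normal_of_characteristic V
  obtain ⟨v, hvV, hv1⟩ : ∃ v : G, v ∈ V ∧ v ≠ 1 := by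
    obtain ⟨v, hv⟩ := Subgroup.ne_bot_iff_exists_ne_one.mp hV1
    exact ⟨(v : G), v.2, fun h0 => hv (Subtype.ext h0)⟩
  set A := Subgroup.centralizer ({v} : Set G) with hA
  have hAab := comm_of_centerless h hv1
  have hAco : IsCoatom A := h v hv1
  have hVA : V ≤ A := fun u hu => Subgroup.mem_centralizer_singleton_iff.mpr (hVab u hu v hvV)
  have hAn : A.Normal := by
    constructor
    intro a ha g
    rw [Subgroup.mem_centralizer_singleton_iff]
    have h1 : g⁻¹ * v * g ∈ A := by
      apply hVA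
      have := hVn.conj_mem v hvV g⁻¹
      rwa [inv_inv] at this
    have h2 := hAab a ha _ h1
    calc g * a * g⁻¹ * v = g * (a * (g⁻¹ * v * g)) * g⁻¹ := by group
      _ = g * ((g⁻¹ * v * g) * a) * g⁻¹ := by rw [h2]
      _ = v * (g * a * g⁻¹) := by group
  have hCa : ∀ a ∈ A, a ≠ 1 → Subgroup.centralizer ({a} : Set G) = A := by
    intro a ha ha1
    refine (cent_eq_of_le h hv1 ha1 ?_).symm
    intro b hb
    exact Subgroup.mem_centralizer_singleton_iff.mpr (hAab b hb a ha)
  have hqp : A.index.Prime := Cfsg.Agent.Lib.Helper1.prime_index_of_normal_coatom hAco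
  obtain ⟨y, -, hyA⟩ := SetLike.exists_of_lt (lt_top_iff_ne_top.mpr hAco.1)
  have hy1 : y ≠ 1 := by
    rintro rfl
    exact hyA A.one_mem
  set L := Subgroup.centralizer ({y} : Set G) with hL
  have hLco : IsCoatom L := h y hy1
  have hLab := comm_of_centerless h hy1
  have hLA : L ⊓ A = ⊥ := by
    rw [eq_bot_iff]
    intro a ha
    obtain ⟨ha1, ha2⟩ := Subgroup.mem_inf.mp ha
    rw [Subgroup.mem_bot]
    by_contra ha0
    apply hyA
    rw [← hCa a ha2 ha0]
    exact Subgroup.mem_centralizer_singleton_iff.mpr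
      (Subgroup.mem_centralizer_singleton_iff.mp ha1).symm
  have hGA := Subgroup.card_mul_index A
  -- normal subgroups inside `A`
  have key : ∀ B : Subgroup G, B.Normal → B ≤ A → B ≠ ⊥ → B = A := by
    intro B hBn hBA hB
    have h1 : L ⊓ B = ⊥ := by
      rw [eq_bot_iff, ← hLA]
      exact inf_le_inf_left L hBA
    have h2 : L ⊔ B = ⊤ := by
      apply hLco.2
      apply lt_of_le_of_ne le_sup_left
      intro h0
      apply hB
      rw [eq_bot_iff, ← h1]
      refine le_inf ?_ le_rfl
      have h3 : B ≤ L ⊔ B := le_sup_right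
      rwa [← h0] at h3
    have c1 := Cfsg.Agent.Lib.Helper1.card_sup_of_disjoint L B h1
    rw [h2, Subgroup.card_top] at c1
    have c2 : Nat.card (L × A) ≤ Nat.card G :=
      Nat.card_le_card_of_injective _ (Subgroup.mul_injective_of_disjoint (disjoint_iff.mpr hLA))
    rw [Nat.card_prod, c1] at c2
    exact Subgroup.eq_of_le_of_card_ge hBA (Nat.le_of_mul_le_mul_left c2 Nat.card_pos)
  have hA1 : Nat.card A ≠ 1 := by
    intro h0
    rw [Subgroup.card_eq_one] at h0
    apply hv1
    have : v ∈ A := hVA hvV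
    rwa [h0, Subgroup.mem_bot] at this
  set p := (Nat.card A).minFac with hpdef
  have hp : p.Prime := Nat.minFac_prime hA1
  have hpF : Fact p.Prime := ⟨hp⟩
  have hOm : Solvable.omegaAb A hAab p = A := by
    apply key
    · constructor
      intro a ha g
      obtain ⟨ha1, ha2⟩ := Solvable.mem_omegaAb.mp ha
      refine Solvable.mem_omegaAb.mpr ⟨hAn.conj_mem a ha1 g, ?_⟩
      rw [conj_pow, ha2]
      group
    · intro a ha
      exact (Solvable.mem_omegaAb.mp ha).1
    · obtain ⟨a, ha⟩ := exists_prime_orderOf_dvd_card' p (Nat.minFac_dvd (Nat.card A))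
      intro h0
      have h1 : (a : G) ∈ Solvable.omegaAb A hAab p := by
        refine Solvable.mem_omegaAb.mpr ⟨a.2, ?_⟩
        rw [← ha, ← Subgroup.orderOf_coe, pow_orderOf_eq_one]
      rw [h0, Subgroup.mem_bot] at h1
      have h2 : a = 1 := Subtype.ext h1
      rw [h2, orderOf_one] at ha
      exact hp.one_lt.ne ha
  have hAp : IsPGroup p A := by
    apply Solvable.isPGroup_of_pow_eq_one
    intro a ha
    rw [← hOm] at ha
    exact (Solvable.mem_omegaAb.mp ha).2
  obtain ⟨a, ha⟩ := IsPGroup.iff_card.mp hAp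
  have hcenter : ∀ c : G, c ∈ Subgroup.center G → c = 1 := by
    intro c hc
    by_contra hc2
    apply (h c hc2).1
    rw [eq_top_iff]
    intro g _
    exact Subgroup.mem_centralizer_singleton_iff.mpr (Subgroup.mem_center_iff.mp hc g)
  have hpq : p ≠ A.index := by
    intro h0
    have hGp : IsPGroup p G := by
      apply IsPGroup.of_card (n := a + 1)
      rw [← hGA, ha, ← h0, pow_succ]
    have := hGp.center_nontrivial
    obtain ⟨⟨c, hc⟩, hc1⟩ := exists_ne (1 : Subgroup.center G)
    exact hc1 (Subtype.ext (hcenter c hc))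
  have hcomm : commutator G ≤ A := commutator_le_of_normal_coatom hAco
  refine ⟨?_, ?_, p, A.index, a, hp, hqp, hpq, by rw [← hGA, ha], ?_⟩
  · intro hc
    apply hAco.1
    rw [eq_top_iff]
    intro g _
    exact Subgroup.mem_centralizer_singleton_iff.mpr (mul_comm' g v)
  · intro K hK
    by_cases hKA : K ≤ A
    · exact ⟨⟨fun k l => Subtype.ext (hAab k (hKA k.2) l (hKA l.2))⟩⟩
    · have hKAtop : A ⊔ K = ⊤ := by
        apply hAco.2
        apply lt_of_le_of_ne le_sup_left
        intro h0
        apply hKA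
        have h3 : K ≤ A ⊔ K := le_sup_right
        rwa [← h0] at h3
      have hBn : (K ⊓ A).Normal := by
        rw [← Subgroup.normalizer_eq_top_iff, eq_top_iff, ← hKAtop]
        apply sup_le
        · rw [Subgroup.le_normalizer_iff]
          intro g hg b hb
          obtain ⟨hb1, hb2⟩ := Subgroup.mem_inf.mp hb
          rw [hAab g hg b hb2, mul_inv_cancel_right]
          exact hb
        · rw [Subgroup.le_normalizer_iff]
          intro g hg b hb
          obtain ⟨hb1, hb2⟩ := Subgroup.mem_inf.mp hb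
          exact Subgroup.mem_inf.mpr ⟨K.mul_mem (K.mul_mem hg hb1) (K.inv_mem hg),
            hAn.conj_mem b hb2 g⟩
      have hB : K ⊓ A = ⊥ := by
        by_contra hB
        have h1 := key _ hBn inf_le_right hB
        have h2 : A ≤ K := by
          rw [← h1]; exact inf_le_left
        apply hK
        apply hAco.2
        exact lt_of_le_of_ne h2 (fun h0 => hKA h0.ge)
      refine ⟨⟨fun k l => Subtype.ext ?_⟩⟩
      have h1 : ⁅(k : G), (l : G)⁆ ∈ K ⊓ A := by
        refine Subgroup.mem_inf.mpr ⟨?_, ?_⟩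
        · rw [commutatorElement_def]
          exact K.mul_mem (K.mul_mem (K.mul_mem k.2 l.2) (K.inv_mem k.2)) (K.inv_mem l.2)
        · apply hcomm
          exact Subgroup.commutator_mem_commutator (Subgroup.mem_top _) (Subgroup.mem_top _)
      rw [hB, Subgroup.mem_bot, commutatorElement_eq_one_iff_mul_comm] at h1
      exact h1
  · intro P hP
    have hPA : P ≤ A := by
      intro g hg
      rw [← QuotientGroup.eq_one_iff]
      have h1 : ((g : G ⧸ A)) ^ (p ^ a) = 1 := by
        rw [← QuotientGroup.mk_pow]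
        have h2 : (⟨g, hg⟩ : P) ^ (Nat.card P) = 1 := pow_card_eq_one'
        have h3 : g ^ (Nat.card P) = 1 := congrArg Subtype.val h2
        rw [← hP, h3]
        rfl
      have h2 : ((g : G ⧸ A)) ^ A.index = 1 := by
        rw [Subgroup.index_eq_card]
        exact pow_card_eq_one'
      have h3 := orderOf_dvd_of_pow_eq_one h1
      have h4 := orderOf_dvd_of_pow_eq_one h2
      have h5 : (p ^ a).Coprime A.index :=
        Nat.Coprime.pow_left a ((Nat.coprime_primes hp hqp).mpr hpq)
      exact orderOf_eq_one_iff.mp (Nat.eq_one_of_dvd_coprimes h5 h3 h4)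
    have : P = A := Subgroup.eq_of_le_of_card_ge hPA (by rw [hP, ha])
    rw [this]
    exact hAn

end

end Cfsg.Agent.Lib.Helper2.CentMax
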