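import Mathlib
import Cfsg.Agent.Lib.Helper2.CentMax2
import Cfsg.Agent.Lib.Helper1.Coprime

set_option autoImplicit false

namespace Cfsg.Agent.Lib.Helper2.CentMax

variable {G : Type*} [Group G]

/-- The second-center trick: if `M` is a maximal subgroup, `z ∈ M` is central in `M` modulo the
center of `M`, and `C(z)` is a `p`-group not contained in `M`, then `M ⊓ C(z)` is normal. -/
theorem normal_inf_centralizer [Finite G] {p : ℕ} [Fact p.Prime] (M : Subgroup G)
    (hM : IsCoatom M) (z : G)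
    (hz2 : ∀ g ∈ M, ∀ d ∈ M, d * (g * z * g⁻¹ * z⁻¹) = (g * z * g⁻¹ * z⁻¹) * d)
    (hM'p : IsPGroup p (Subgroup.centralizer ({z} : Set G)))
    (hM'M : ¬ Subgroup.centralizer ({z} : Set G) ≤ M) :
    (M ⊓ Subgroup.centralizer ({z} : Set G)).Normal := by
  set M' := Subgroup.centralizer ({z} : Set G) with hM'
  set D := M ⊓ M' with hD
  have hDM' : D < M' := by
    apply lt_of_le_of_ne inf_le_right
    intro h0
    apply hM'M
    rw [← h0]
    exact inf_le_left
  have hMD : M ≤ Subgroup.normalizer (D : Set G) := by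
    rw [Subgroup.le_normalizer_iff]
    intro g hg d hd
    obtain ⟨hd1, hd2⟩ := Subgroup.mem_inf.mp hd
    refine Subgroup.mem_inf.mpr ⟨M.mul_mem (M.mul_mem hg hd1) (M.inv_mem hg), ?_⟩
    rw [Subgroup.mem_centralizer_singleton_iff]
    have hc'' := hz2 g⁻¹ (M.inv_mem hg) d hd1
    have hdz : d * z = z * d := Subgroup.mem_centralizer_singleton_iff.mp hd2
    rw [inv_inv] at hc''
    have e1 : d * (g⁻¹ * z * g) = (g⁻¹ * z * g) * d := by
      calc d * (g⁻¹ * z * g) = d * (g⁻¹ * z * g * z⁻¹) * z := by group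
        _ = (g⁻¹ * z * g * z⁻¹) * d * z := by rw [hc'']
        _ = (g⁻¹ * z * g * z⁻¹) * (d * z) := by group
        _ = (g⁻¹ * z * g * z⁻¹) * (z * d) := by rw [hdz]
        _ = (g⁻¹ * z * g) * d := by group
    calc g * d * g⁻¹ * z = g * (d * (g⁻¹ * z * g)) * g⁻¹ := by group
      _ = g * ((g⁻¹ * z * g) * d) * g⁻¹ := by rw [e1]
      _ = z * (g * d * g⁻¹) := by group
  rw [← Subgroup.normalizer_eq_top_iff]
  obtain ⟨n, hn1, hn2⟩ := SetLike.exists_of_lt
    (Cfsg.Agent.Lib.Helper1.lt_inf_normalizer_of_lt hM'p hDM')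
  obtain ⟨hn3, hn4⟩ := Subgroup.mem_inf.mp hn1
  apply hM.2
  apply lt_of_le_of_ne hMD
  intro h0
  apply hn2
  refine Subgroup.mem_inf.mpr ⟨?_, hn3⟩
  rw [h0]
  exact hn4

end Cfsg.Agent.Lib.Helper2.CentMax
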