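import Mathlib
import Cfsg.Agent.Lib.Helper2.Index
import Cfsg.Agent.Lib.Helper2.Conj
import Cfsg.Agent.Lib.Helper3.Invol3
import Cfsg.Agent.Lib.Helper7.CharBurnside
import Cfsg.Agent.Lib.Helper1.Hall
import Cfsg.Agent.Lib.Helper1.FittingSolv

set_option autoImplicit false

namespace Cfsg.Agent.Lib.Helper2.ClassPow

open scoped Pointwise
open Cfsg.Agent.Lib.Helper2.Conj

universe u

theorem ncard_carrier_eq_index {G : Type*} [Group G] [Finite G] (x : G) :
    (ConjClasses.mk x).carrier.ncard = (Subgroup.centralizer ({x} : Set G)).index := by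
  have h1 := Cfsg.Agent.Lib.Helper3.Invol.card_class_mul x
  have h2 : (ConjClasses.mk x).carrier.ncard = Nat.card {y : G // IsConj x y} := by
    rw [← Nat.card_coe_set_eq]
    refine Nat.card_congr (Equiv.subtypeEquivRight fun y => ?_)
    rw [ConjClasses.mem_carrier_iff_mk_eq, ConjClasses.mk_eq_mk_iff_isConj]
    exact ⟨IsConj.symm, IsConj.symm⟩
  rw [h2]
  have h3 := Subgroup.index_mul_card (Subgroup.centralizer ({x} : Set G))
  rw [← h1] at h3
  exact (Nat.eq_of_mul_eq_mul_right Nat.card_pos h3).symm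

/-- every `p'`-element has a centralizer of `p`-power index -/
def Hyp (p : ℕ) (G : Type*) [Group G] : Prop :=
  ∀ x : G, (orderOf x).Coprime p → ∃ k : ℕ, (Subgroup.centralizer ({x} : Set G)).index = p ^ k

theorem exists_pprime_lift {G H : Type*} [Group G] [Group H] [Finite G] (f : G →* H)
    (hf : Function.Surjective f) {p : ℕ} (hp : p.Prime) (c : H) (hc : (orderOf c).Coprime p) :
    ∃ x : G, f x = c ∧ (orderOf x).Coprime p := by
  obtain ⟨y, rfl⟩ := hf c
  obtain ⟨k, m, hm, hkm⟩ := Nat.exists_eq_pow_mul_and_not_dvd (orderOf_pos y).ne' p hp.ne_one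
  have hcop : IsCoprime ((p ^ k : ℕ) : ℤ) ((orderOf (f y) : ℕ) : ℤ) := by
    rw [Nat.isCoprime_iff_coprime]
    exact Nat.Coprime.pow_left k hc.symm
  obtain ⟨a, b, hab⟩ := hcop
  refine ⟨y ^ (a * ((p ^ k : ℕ) : ℤ)), ?_, ?_⟩
  · rw [map_zpow]
    have h1 : (f y) ^ (b * ((orderOf (f y) : ℕ) : ℤ)) = 1 := by
      rw [mul_comm, zpow_mul, zpow_natCast, pow_orderOf_eq_one, one_zpow]
    calc (f y) ^ (a * ((p ^ k : ℕ) : ℤ))
        = (f y) ^ (a * ((p ^ k : ℕ) : ℤ)) * (f y) ^ (b * ((orderOf (f y) : ℕ) : ℤ)) := by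
          rw [h1, mul_one]
      _ = f y := by rw [← zpow_add, hab, zpow_one]
  · have h1 : (y ^ (a * ((p ^ k : ℕ) : ℤ))) ^ m = 1 := by
      rw [← zpow_natCast, ← zpow_mul, mul_assoc, ← Nat.cast_mul, ← hkm, mul_comm, zpow_mul,
        zpow_natCast, pow_orderOf_eq_one, one_zpow]
    have h2 : orderOf (y ^ (a * ((p ^ k : ℕ) : ℤ))) ∣ m := orderOf_dvd_of_pow_eq_one h1
    exact Nat.Coprime.coprime_dvd_left h2 ((Nat.Prime.coprime_iff_not_dvd hp).2 hm).symm

theorem Hyp.normal {G : Type*} [Group G] [Finite G] {p : ℕ} (hp : p.Prime) (h : Hyp p G)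
    (N : Subgroup G) [N.Normal] : Hyp p N := by
  intro x hx
  rw [← Subgroup.orderOf_coe] at hx
  obtain ⟨k, hk⟩ := h (x : G) hx
  have e : Subgroup.centralizer ({x} : Set N) =
      (Subgroup.centralizer ({(x : G)} : Set G)).subgroupOf N := by
    ext y
    rw [Subgroup.mem_subgroupOf, Subgroup.mem_centralizer_singleton_iff,
      Subgroup.mem_centralizer_singleton_iff, Subtype.ext_iff]
    rfl
  have hd : (Subgroup.centralizer ({(x : G)} : Set G)).relIndex N ∣ p ^ k :=
    hk ▸ Cfsg.Agent.Lib.Helper2.Index.relIndex_normal_dvd_index N _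
  obtain ⟨j, _, hj⟩ := (Nat.dvd_prime_pow hp).mp hd
  exact ⟨j, by rw [e]; exact hj⟩

theorem Hyp.quotient {G : Type*} [Group G] [Finite G] {p : ℕ} (hp : p.Prime) (h : Hyp p G)
    (N : Subgroup G) [N.Normal] : Hyp p (G ⧸ N) := by
  intro c hc
  obtain ⟨x, rfl, hx⟩ := exists_pprime_lift (QuotientGroup.mk' N) (QuotientGroup.mk'_surjective N)
    hp c hc
  obtain ⟨k, hk⟩ := h x hx
  have h2 : (Subgroup.centralizer ({x} : Set G)).map (QuotientGroup.mk' N) ≤
      Subgroup.centralizer ({QuotientGroup.mk' N x} : Set _) := by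
    rintro _ ⟨a, ha, rfl⟩
    rw [Subgroup.mem_centralizer_singleton_iff, ← map_mul, ← map_mul,
      Subgroup.mem_centralizer_singleton_iff.mp ha]
  have hd : (Subgroup.centralizer ({QuotientGroup.mk' N x} : Set _)).index ∣ p ^ k :=
    hk ▸ (Subgroup.index_dvd_of_le h2).trans
      (Subgroup.index_map_dvd _ (QuotientGroup.mk'_surjective N))
  obtain ⟨j, _, hj⟩ := (Nat.dvd_prime_pow hp).mp hd
  exact ⟨j, hj⟩

theorem isSolvable_of_simple_of_class {G : Type*} [Group G] [Finite G] [IsSimpleGroup G]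
    {p : ℕ} (hp : p.Prime) (a : G) (ha1 : a ≠ 1) (j : ℕ)
    (hj : (Subgroup.centralizer ({a} : Set G)).index = p ^ j) : Group.IsSolvable G := by
  have hprime := Cfsg.Agent.Lib.Helper7.CharBurnside.prime_card_of_simple_of_prime_power_class
    p j hp a ha1 hj
  have : Fact (Nat.card G).Prime := ⟨hprime⟩
  have := isCyclic_of_prime_card (α := G) rfl
  exact Group.isSolvable_of_comm (fun a b => IsCyclic.commGroup.mul_comm a b)

theorem Hyp.isSolvable_aux {p : ℕ} (hp : p.Prime) :
    ∀ (n : ℕ) (G : Type u) [Group G] [Finite G], Nat.card G = n → Hyp p G →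
      Group.IsSolvable G := by
  intro n
  induction n using Nat.strong_induction_on with
  | _ n ih =>
  intro G _ _ hn h
  by_cases hex : ∃ N : Subgroup G, N.Normal ∧ N ≠ ⊥ ∧ N ≠ ⊤
  · obtain ⟨N, hNn, hNb, hNt⟩ := hex
    have h1 : 1 < Nat.card N := by
      rw [Finite.one_lt_card_iff_nontrivial]
      exact (Subgroup.nontrivial_iff_ne_bot N).mpr hNb
    have h2 : 0 < N.index := Nat.pos_of_ne_zero (Subgroup.index_ne_zero_of_finite)
    have h3 : 1 < N.index := by
      rcases Nat.lt_or_ge 1 N.index with h | h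
      · exact h
      · exact absurd (Subgroup.index_eq_one.mp (by omega)) hNt
    have hlt : Nat.card (G ⧸ N) < n := by
      rw [← hn, ← Subgroup.index_eq_card, ← Subgroup.index_mul_card N]
      nlinarith
    have hlt' : Nat.card N < n := by
      rw [← hn, ← Subgroup.index_mul_card N]
      nlinarith
    have hNsol : Group.IsSolvable N := ih _ hlt' N rfl (h.normal hp N)
    have hQ : Group.IsSolvable (G ⧸ N) := ih _ hlt (G ⧸ N) rfl (h.quotient hp N)
    exact (Group.isSolvable_iff_subgroup_quotient N).mpr ⟨hNsol, hQ⟩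
  · push Not at hex
    rcases subsingleton_or_nontrivial G with hs | hnt
    · infer_instance
    · have : IsSimpleGroup G := ⟨fun N hN => by
        by_cases hb : N = ⊥
        · exact Or.inl hb
        · exact Or.inr (hex N hN hb)⟩
      have hpF : Fact p.Prime := ⟨hp⟩
      by_cases hq : ∀ q : ℕ, q.Prime → q ∣ Nat.card G → q = p
      · have hGp : IsPGroup p G := IsPGroup.of_card (Nat.eq_prime_pow_of_unique_prime_dvd
          Nat.card_pos.ne' (fun {d} hd hdvd => hq d hd hdvd))
        have : Group.IsNilpotent G := hGp.isNilpotent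
        infer_instance
      · push Not at hq
        obtain ⟨q, hqp, hqd, hqne⟩ := hq
        have hqF : Fact q.Prime := ⟨hqp⟩
        obtain ⟨y, hy⟩ := exists_prime_orderOf_dvd_card' q hqd
        have hy1 : y ≠ 1 := by
          rintro rfl
          rw [orderOf_one] at hy
          exact hqp.one_lt.ne hy
        obtain ⟨j, hj⟩ := h y (by rw [hy]; exact (Nat.coprime_primes hqp hp).mpr hqne)
        exact isSolvable_of_simple_of_class hp y hy1 j hj

theorem isSolvable_of_abelian_aux {p : ℕ} (hp : p.Prime) :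
    ∀ (n : ℕ) (G : Type u) [Group G] [Finite G], Nat.card G = n →
    ∀ (A : Subgroup G), IsMulCommutative A → (∃ k : ℕ, A.index = p ^ k) →
      Group.IsSolvable G := by
  intro n
  induction n using Nat.strong_induction_on with
  | _ n ih =>
  intro G _ _ hn A hA hidx
  obtain ⟨k, hk⟩ := hidx
  by_cases hex : ∃ N : Subgroup G, N.Normal ∧ N ≠ ⊥ ∧ N ≠ ⊤
  · obtain ⟨N, hNn, hNb, hNt⟩ := hex
    have h1 : 1 < Nat.card N := by
      rw [Finite.one_lt_card_iff_nontrivial]
      exact (Subgroup.nontrivial_iff_ne_bot N).mpr hNb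
    have h2 : 0 < N.index := Nat.pos_of_ne_zero (Subgroup.index_ne_zero_of_finite)
    have h3 : 1 < N.index := by
      rcases Nat.lt_or_ge 1 N.index with h | h
      · exact h
      · exact absurd (Subgroup.index_eq_one.mp (by omega)) hNt
    have hlt : Nat.card (G ⧸ N) < n := by
      rw [← hn, ← Subgroup.index_eq_card, ← Subgroup.index_mul_card N]
      nlinarith
    have hlt' : Nat.card N < n := by
      rw [← hn, ← Subgroup.index_mul_card N]
      nlinarith
    have hNsol : Group.IsSolvable N := by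
      apply ih _ hlt' N rfl (A.subgroupOf N)
      · exact ⟨⟨fun a b => by
          have := mul_comm' (⟨a.1.1, a.2⟩ : A) ⟨b.1.1, b.2⟩
          have h' : a.1.1 * b.1.1 = b.1.1 * a.1.1 := congrArg Subtype.val this
          apply Subtype.ext
          apply Subtype.ext
          exact h'⟩⟩
      · have hd : A.relIndex N ∣ p ^ k :=
          hk ▸ Cfsg.Agent.Lib.Helper2.Index.relIndex_normal_dvd_index N A
        obtain ⟨j, _, hj⟩ := (Nat.dvd_prime_pow hp).mp hd
        exact ⟨j, hj⟩
    have hQ : Group.IsSolvable (G ⧸ N) := by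
      apply ih _ hlt (G ⧸ N) rfl (A.map (QuotientGroup.mk' N))
      · exact ⟨⟨fun a b => by
          obtain ⟨a, x, hx, rfl⟩ := a
          obtain ⟨b, y, hy, rfl⟩ := b
          apply Subtype.ext
          have := mul_comm' (⟨x, hx⟩ : A) ⟨y, hy⟩
          have h' : x * y = y * x := congrArg Subtype.val this
          change (QuotientGroup.mk' N) x * (QuotientGroup.mk' N) y
            = (QuotientGroup.mk' N) y * (QuotientGroup.mk' N) x
          rw [← map_mul, ← map_mul, h']⟩⟩
      · have hd : (A.map (QuotientGroup.mk' N)).index ∣ p ^ k :=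
          hk ▸ Subgroup.index_map_dvd A (QuotientGroup.mk'_surjective N)
        obtain ⟨j, _, hj⟩ := (Nat.dvd_prime_pow hp).mp hd
        exact ⟨j, hj⟩
    exact (Group.isSolvable_iff_subgroup_quotient N).mpr ⟨hNsol, hQ⟩
  · push Not at hex
    rcases subsingleton_or_nontrivial G with hs | hnt
    · infer_instance
    · have : IsSimpleGroup G := ⟨fun N hN => by
        by_cases hb : N = ⊥
        · exact Or.inl hb
        · exact Or.inr (hex N hN hb)⟩
      by_cases hAb : A = ⊥
      · have hc : Nat.card G = p ^ k := by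
          rw [← hk, hAb, Subgroup.index_bot]
        have : Fact p.Prime := ⟨hp⟩
        have hp : IsPGroup p G := IsPGroup.of_card hc
        have := hp.isNilpotent
        infer_instance
      · obtain ⟨a, haA, ha1⟩ : ∃ a ∈ A, a ≠ 1 := by
          by_contra hcon
          push Not at hcon
          exact hAb ((Subgroup.eq_bot_iff_forall A).mpr hcon)
        have hle : A ≤ Subgroup.centralizer ({a} : Set G) := by
          intro x hx
          rw [Subgroup.mem_centralizer_singleton_iff]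
          have := mul_comm' (⟨x, hx⟩ : A) ⟨a, haA⟩
          exact congrArg Subtype.val this
        have hd : (Subgroup.centralizer ({a} : Set G)).index ∣ p ^ k :=
          hk ▸ Subgroup.index_dvd_of_le hle
        obtain ⟨j, _, hj⟩ := (Nat.dvd_prime_pow hp).mp hd
        exact isSolvable_of_simple_of_class hp a ha1 j hj

open Cfsg.Agent.Lib.Helper1 in
theorem pCore_quotient_eq_bot {G : Type*} [Group G] [Finite G] (p : ℕ) [Fact p.Prime]
    (R : Subgroup G) [R.Normal] (hR : R = Cfsg.pCore p G) : Cfsg.pCore p (G ⧸ R) = ⊥ := by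
  have hn : (Cfsg.pCore p (G ⧸ R)).Normal := pCore_normal p
  have hpq : IsPGroup p (Cfsg.pCore p (G ⧸ R)) := pCore_isPGroup p
  have hRp : IsPGroup p R := hR ▸ pCore_isPGroup p
  have hT : IsPGroup p ((Cfsg.pCore p (G ⧸ R)).comap (QuotientGroup.mk' R)) := by
    rintro ⟨y, hy⟩
    obtain ⟨k, hk⟩ := hpq ⟨_, hy⟩
    have hk' : (QuotientGroup.mk' R y) ^ (p ^ k) = 1 := congrArg Subtype.val hk
    rw [← map_pow] at hk'
    have hk2 : y ^ p ^ k ∈ R := (QuotientGroup.eq_one_iff _).mp hk'
    obtain ⟨j, hj⟩ := hRp ⟨_, hk2⟩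
    have hj' : (y ^ p ^ k) ^ p ^ j = 1 := congrArg Subtype.val hj
    refine ⟨k + j, Subtype.ext ?_⟩
    change y ^ p ^ (k + j) = 1
    rw [pow_add, pow_mul, hj']
  have hle : (Cfsg.pCore p (G ⧸ R)).comap (QuotientGroup.mk' R) ≤ R := by
    exact (le_pCore (hn.comap _) hT).trans hR.ge
  rw [eq_bot_iff]
  intro c hc
  obtain ⟨x, rfl⟩ := QuotientGroup.mk'_surjective R c
  rw [Subgroup.mem_bot]
  exact (QuotientGroup.eq_one_iff _).mpr (hle hc)

open Cfsg.Agent.Lib.Helper1 in
theorem Hyp.exists_abelian_complement {G : Type u} [Group G] [Finite G] {p : ℕ} (hp : p.Prime)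
    (h : Hyp p G) :
    ∃ H : Subgroup G, IsMulCommutative H ∧ ¬ p ∣ Nat.card H ∧ ∃ k : ℕ, H.index = p ^ k := by
  have hpF : Fact p.Prime := ⟨hp⟩
  have hsol : Group.IsSolvable G := Hyp.isSolvable_aux hp _ G rfl h
  obtain ⟨R, hR⟩ : ∃ R : Subgroup G, R = Cfsg.pCore p G := ⟨_, rfl⟩
  have hRn : R.Normal := hR ▸ pCore_normal p
  have hRp : IsPGroup p R := hR ▸ pCore_isPGroup p
  have hQ : Hyp p (G ⧸ R) := h.quotient hp R
  have hQsol : Group.IsSolvable (G ⧸ R) := inferInstance
  have hcore := pCore_quotient_eq_bot p R hR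
  set W := Cfsg.pPrimeCore p (G ⧸ R) with hW
  have hWn : W.Normal := pPrimeCore_normal p
  have hWc : (Nat.card W).Coprime p := pPrimeCore_coprime p
  have hFW : Cfsg.fittingSubgroup (G ⧸ R) ≤ W := by
    rw [fitting_eq_iSup_pCore]
    apply iSup_le
    intro q
    by_cases hq : (q : ℕ) = p
    · rw [hq, hcore]; exact bot_le
    · exact pCore_le_pPrimeCore hp q.2 hq
  have hWcent : ∀ c : G ⧸ R, (orderOf c).Coprime p → W ≤ Subgroup.centralizer ({c} : Set _) := by
    intro c hc
    obtain ⟨k, hk⟩ := hQ c hc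
    have d1 : (Subgroup.centralizer ({c} : Set (G ⧸ R))).relIndex W ∣ p ^ k :=
      hk ▸ Cfsg.Agent.Lib.Helper2.Index.relIndex_normal_dvd_index W _
    have d2 : (Subgroup.centralizer ({c} : Set (G ⧸ R))).relIndex W ∣ Nat.card W :=
      Subgroup.relIndex_dvd_card _ _
    have d3 : (Subgroup.centralizer ({c} : Set (G ⧸ R))).relIndex W = 1 :=
      Nat.eq_one_of_dvd_coprimes (Nat.Coprime.pow_right k hWc) d2 d1
    exact Subgroup.relIndex_eq_one.mp d3
  have hmemW : ∀ c : G ⧸ R, (orderOf c).Coprime p → c ∈ W := by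
    intro c hc
    apply hFW
    apply centralizer_fitting_le
    rw [Subgroup.mem_centralizer_iff]
    intro f hf
    exact Subgroup.mem_centralizer_singleton_iff.mp (hWcent c hc (hFW hf))
  obtain ⟨a, m, hm, hGm⟩ := Nat.exists_eq_pow_mul_and_not_dvd (Nat.card_pos (α := G)).ne' p
    hp.ne_one
  have hmp : m.Coprime p := ((Nat.Prime.coprime_iff_not_dvd hp).mpr hm).symm
  obtain ⟨K, hK⟩ := hall_exists m (p ^ a) (by rw [hGm, mul_comm]) (Nat.Coprime.pow_right a hmp)
  have hKR : K ⊓ R = ⊥ := by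
    apply disjoint_iff.mp
    apply Subgroup.disjoint_of_coprime_natCard
    obtain ⟨j, hj⟩ := IsPGroup.iff_card.mp hRp
    rw [hK, hj]
    exact Nat.Coprime.pow_right j hmp
  have hKo : ∀ k : K, (orderOf (QuotientGroup.mk' R (k : G))).Coprime p := by
    intro k
    have h1 : orderOf (QuotientGroup.mk' R (k : G)) ∣ orderOf (k : G) := orderOf_map_dvd _ _
    have h2 : orderOf (k : G) ∣ m := by
      rw [Subgroup.orderOf_coe, ← hK]
      exact orderOf_dvd_natCard k
    exact Nat.Coprime.coprime_dvd_left (h1.trans h2) hmp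
  refine ⟨K, ⟨⟨fun k l => Subtype.ext ?_⟩⟩, by rw [hK]; exact hm, a, ?_⟩
  · have h1 : QuotientGroup.mk' R (k : G) * QuotientGroup.mk' R (l : G) =
        QuotientGroup.mk' R (l : G) * QuotientGroup.mk' R (k : G) :=
      Subgroup.mem_centralizer_singleton_iff.mp (hWcent _ (hKo l) (hmemW _ (hKo k)))
    have h2 : (k : G) * l * (k : G)⁻¹ * (l : G)⁻¹ ∈ K ⊓ R := by
      refine Subgroup.mem_inf.mpr ⟨?_, ?_⟩
      · exact K.mul_mem (K.mul_mem (K.mul_mem k.2 l.2) (K.inv_mem k.2)) (K.inv_mem l.2)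
      · rw [← QuotientGroup.eq_one_iff]
        change QuotientGroup.mk' R _ = 1
        rw [map_mul, map_mul, map_mul, h1, map_inv, map_inv]
        group
    rw [hKR, Subgroup.mem_bot] at h2
    change (k : G) * l = l * k
    calc (k : G) * l = ((k : G) * l * (k : G)⁻¹ * (l : G)⁻¹) * (l * k) := by group
      _ = l * k := by rw [h2, one_mul]
  · have h1 := Subgroup.card_mul_index K
    rw [hK, hGm, mul_comm] at h1
    have hm0 : 0 < m := Nat.pos_of_ne_zero (by rintro rfl; exact hm (dvd_zero p))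
    exact Nat.eq_of_mul_eq_mul_right hm0 h1

open Cfsg.Agent.Lib.Helper1 in
theorem hyp_of_abelian_complement {G : Type u} [Group G] [Finite G] {p : ℕ} (hp : p.Prime)
    (H : Subgroup G) (hH : IsMulCommutative H) (hpH : ¬ p ∣ Nat.card H) (k : ℕ)
    (hk : H.index = p ^ k) : Hyp p G := by
  have hsol : Group.IsSolvable G := isSolvable_of_abelian_aux hp _ G rfl H hH ⟨k, hk⟩
  intro x hx
  have hmp : (Nat.card H).Coprime p := ((Nat.Prime.coprime_iff_not_dvd hp).mpr hpH).symm
  obtain ⟨g, hg⟩ := hall_dominance (Nat.card H) (p ^ k) (by rw [← hk, Subgroup.card_mul_index])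
    (Nat.Coprime.pow_right k hmp) H (Subgroup.zpowers x) rfl
    (by rw [Nat.card_zpowers]; exact Nat.Coprime.pow_right k hx)
  have hxg : g⁻¹ * x * g ∈ H := Conj.mem_conj_smul.mp (hg (Subgroup.mem_zpowers x))
  have hle : MulAut.conj g • H ≤ Subgroup.centralizer ({x} : Set G) := by
    intro y hy
    rw [Conj.mem_conj_smul] at hy
    rw [Subgroup.mem_centralizer_singleton_iff]
    have h3 : (g⁻¹ * y * g) * (g⁻¹ * x * g) = (g⁻¹ * x * g) * (g⁻¹ * y * g) :=
      congrArg Subtype.val (mul_comm' (⟨_, hy⟩ : H) ⟨_, hxg⟩)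
    have h4 : g⁻¹ * (y * x) * g = g⁻¹ * (x * y) * g := by
      calc g⁻¹ * (y * x) * g = (g⁻¹ * y * g) * (g⁻¹ * x * g) := by group
        _ = (g⁻¹ * x * g) * (g⁻¹ * y * g) := h3
        _ = g⁻¹ * (x * y) * g := by group
    exact mul_left_cancel (mul_right_cancel h4)
  have hidx : (MulAut.conj g • H).index = p ^ k := by
    have h1 := Subgroup.card_mul_index (MulAut.conj g • H)
    rw [Cfsg.Agent.Lib.Helper2.Conj.card_conj_smul, ← Subgroup.card_mul_index H, hk] at h1
    exact Nat.eq_of_mul_eq_mul_left Nat.card_pos h1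
  have hd : (Subgroup.centralizer ({x} : Set G)).index ∣ p ^ k :=
    hidx ▸ Subgroup.index_dvd_of_le hle
  obtain ⟨j, _, hj⟩ := (Nat.dvd_prime_pow hp).mp hd
  exact ⟨j, hj⟩

end Cfsg.Agent.Lib.Helper2.ClassPow
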