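import Mathlib
import Cfsg.Agent.Lib.Helper2.Index
import Cfsg.Agent.Lib.Helper2.Conj
import Cfsg.Agent.Lib.Helper2.SylowUtil

set_option autoImplicit false

namespace Cfsg.Agent.Lib.Helper2.PCentral

open scoped Pointwise
open Cfsg.Agent.Lib.Helper2.Conj

/-- every `p`-element has a centralizer of index prime to `p` -/
def Star (p : ℕ) (G : Type*) [Group G] : Prop :=
  ∀ x : G, (∃ k : ℕ, orderOf x = p ^ k) → ¬ p ∣ (Subgroup.centralizer ({x} : Set G)).index

theorem exists_p_lift {G H : Type*} [Group G] [Group H] [Finite G] (f : G →* H)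
    (hf : Function.Surjective f) {p : ℕ} (hp : p.Prime) (c : H) (k : ℕ) (hc : orderOf c = p ^ k) :
    ∃ x : G, f x = c ∧ ∃ j : ℕ, orderOf x = p ^ j := by
  obtain ⟨y, rfl⟩ := hf c
  obtain ⟨a, m, hm, ham⟩ := Nat.exists_eq_pow_mul_and_not_dvd (orderOf_pos y).ne' p hp.ne_one
  have hcop : IsCoprime ((m : ℕ) : ℤ) ((orderOf (f y) : ℕ) : ℤ) := by
    rw [Nat.isCoprime_iff_coprime, hc]
    exact Nat.Coprime.pow_right k ((Nat.Prime.coprime_iff_not_dvd hp).2 hm).symm
  obtain ⟨u, v, huv⟩ := hcop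
  refine ⟨y ^ (u * ((m : ℕ) : ℤ)), ?_, ?_⟩
  · rw [map_zpow]
    have h1 : (f y) ^ (v * ((orderOf (f y) : ℕ) : ℤ)) = 1 := by
      rw [mul_comm, zpow_mul, zpow_natCast, pow_orderOf_eq_one, one_zpow]
    calc (f y) ^ (u * ((m : ℕ) : ℤ))
        = (f y) ^ (u * ((m : ℕ) : ℤ)) * (f y) ^ (v * ((orderOf (f y) : ℕ) : ℤ)) := by
          rw [h1, mul_one]
      _ = f y := by rw [← zpow_add, huv, zpow_one]
  · have h1 : (y ^ (u * ((m : ℕ) : ℤ))) ^ (p ^ a) = 1 := by
      rw [← zpow_natCast, ← zpow_mul, mul_assoc, ← Nat.cast_mul, mul_comm m, ← ham, mul_comm,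
        zpow_mul, zpow_natCast, pow_orderOf_eq_one, one_zpow]
    obtain ⟨j, -, hj⟩ := (Nat.dvd_prime_pow hp).mp (orderOf_dvd_of_pow_eq_one h1)
    exact ⟨j, hj⟩

theorem Star.normal {G : Type*} [Group G] [Finite G] {p : ℕ} (h : Star p G)
    (N : Subgroup G) [N.Normal] : Star p N := by
  intro x hx
  rw [← Subgroup.orderOf_coe] at hx
  have h1 := h (x : G) hx
  have e : Subgroup.centralizer ({x} : Set N) =
      (Subgroup.centralizer ({(x : G)} : Set G)).subgroupOf N := by
    ext y
    rw [Subgroup.mem_subgroupOf, Subgroup.mem_centralizer_singleton_iff,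
      Subgroup.mem_centralizer_singleton_iff, Subtype.ext_iff]
    rfl
  intro h2
  apply h1
  rw [e] at h2
  exact h2.trans (Cfsg.Agent.Lib.Helper2.Index.relIndex_normal_dvd_index N _)

theorem Star.quotient {G : Type*} [Group G] [Finite G] {p : ℕ} (hp : p.Prime) (h : Star p G)
    (N : Subgroup G) [N.Normal] : Star p (G ⧸ N) := by
  rintro c ⟨k, hc⟩
  obtain ⟨x, rfl, hx⟩ := exists_p_lift (QuotientGroup.mk' N) (QuotientGroup.mk'_surjective N)
    hp c k hc
  have h1 := h x hx
  have h2 : (Subgroup.centralizer ({x} : Set G)).map (QuotientGroup.mk' N) ≤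
      Subgroup.centralizer ({QuotientGroup.mk' N x} : Set _) := by
    rintro _ ⟨a, ha, rfl⟩
    rw [Subgroup.mem_centralizer_singleton_iff, ← map_mul, ← map_mul,
      Subgroup.mem_centralizer_singleton_iff.mp ha]
  intro h3
  apply h1
  exact h3.trans ((Subgroup.index_dvd_of_le h2).trans
      (Subgroup.index_map_dvd _ (QuotientGroup.mk'_surjective N)))

theorem exists_sylow_le_of_not_dvd_index {G : Type*} [Group G] [Finite G] {p : ℕ}
    [hpF : Fact p.Prime] (H : Subgroup G) (h : ¬ p ∣ H.index) :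
    ∃ P : Sylow p G, (P : Subgroup G) ≤ H := by
  obtain ⟨S⟩ : Nonempty (Sylow p H) := inferInstance
  have h1 : IsPGroup p ((S : Subgroup H).map H.subtype) := S.isPGroup'.map _
  have h2 : ¬ p ∣ ((S : Subgroup H).map H.subtype).index := by
    rw [Subgroup.index_map_subtype]
    intro h0
    rcases (Nat.Prime.dvd_mul hpF.out).mp h0 with h3 | h3
    · exact S.not_dvd_index h3
    · exact h h3
  exact ⟨h1.toSylow h2, Subgroup.map_subtype_le _⟩

theorem mem_sylow_of_centralizes {G : Type*} [Group G] {p : ℕ} (P : Sylow p G) (x : G) (k : ℕ)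
    (hx : orderOf x = p ^ k) (hc : x ∈ Subgroup.centralizer ((P : Subgroup G) : Set G)) :
    x ∈ (P : Subgroup G) := by
  have hZ : IsPGroup p (Subgroup.zpowers x) := by
    apply IsPGroup.of_card (n := k)
    rw [Nat.card_zpowers, hx]
  have hle : Subgroup.zpowers x ≤ Subgroup.normalizer ((P : Subgroup G) : Set G) := by
    rw [Subgroup.zpowers_le]
    exact Subgroup.centralizer_le_normalizer _ hc
  have h1 := IsPGroup.to_sup_of_normal_right' hZ P.isPGroup' hle
  have h2 := P.is_maximal' h1 le_sup_right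
  rw [← h2]
  exact Subgroup.mem_sup_left (Subgroup.mem_zpowers x)

/-- The reduction lemma: abelian Sylow subgroups in `N` and `G ⧸ N` give abelian Sylow
subgroups in `G`, provided every `p`-element centralizes a Sylow `p`-subgroup. -/
theorem comm_sylow {G : Type*} [Group G] [Finite G] {p : ℕ} [hpF : Fact p.Prime] (h : Star p G)
    (N : Subgroup G) [N.Normal] (hN : ∀ Q : Sylow p N, IsMulCommutative (Q : Subgroup N))
    (hQ : ∀ Q : Sylow p (G ⧸ N), IsMulCommutative (Q : Subgroup (G ⧸ N))) (P : Sylow p G) :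
    IsMulCommutative (P : Subgroup G) := by
  have aN : ∀ R : Subgroup G, IsPGroup p R → R ≤ N → ∀ a ∈ R, ∀ b ∈ R, a * b = b * a := by
    intro R hR hRN a ha b hb
    have hR' : IsPGroup p (R.subgroupOf N) := hR.comap_of_injective N.subtype N.subtype_injective
    obtain ⟨S, hS⟩ := hR'.exists_le_sylow
    have := hN S
    have h1 : (⟨a, hRN ha⟩ : N) ∈ (S : Subgroup N) := hS (Subgroup.mem_subgroupOf.mpr ha)
    have h2 : (⟨b, hRN hb⟩ : N) ∈ (S : Subgroup N) := hS (Subgroup.mem_subgroupOf.mpr hb)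
    have h3 := mul_comm' (⟨_, h1⟩ : (S : Subgroup N)) ⟨_, h2⟩
    exact congrArg (fun z : (S : Subgroup N) => ((z : N) : G)) h3
  have aQ : ∀ R : Subgroup G, IsPGroup p R → ∀ a ∈ R, ∀ b ∈ R,
      QuotientGroup.mk' N a * QuotientGroup.mk' N b =
        QuotientGroup.mk' N b * QuotientGroup.mk' N a := by
    intro R hR a ha b hb
    have hR' : IsPGroup p (R.map (QuotientGroup.mk' N)) := hR.map _
    obtain ⟨S, hS⟩ := hR'.exists_le_sylow
    have := hQ S
    have h1 : QuotientGroup.mk' N a ∈ (S : Subgroup (G ⧸ N)) := hS (Subgroup.mem_map_of_mem _ ha)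
    have h2 : QuotientGroup.mk' N b ∈ (S : Subgroup (G ⧸ N)) := hS (Subgroup.mem_map_of_mem _ hb)
    have h3 := mul_comm' (⟨_, h1⟩ : (S : Subgroup (G ⧸ N))) ⟨_, h2⟩
    exact congrArg Subtype.val h3
  -- step 1
  have s1 : ∀ t ∈ (P : Subgroup G), ∃ q ∈ (P : Subgroup G) ⊓ N,
      ∀ s ∈ (P : Subgroup G), s * (t * q) = (t * q) * s := by
    intro t ht
    obtain ⟨k, hk⟩ := IsPGroup.iff_orderOf.mp P.isPGroup' ⟨t, ht⟩
    rw [← Subgroup.orderOf_coe] at hk
    change orderOf t = p ^ k at hk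
    obtain ⟨P1, hP1⟩ := exists_sylow_le_of_not_dvd_index _ (h t ⟨k, hk⟩)
    set L : Subgroup G := (Subgroup.centralizer ({QuotientGroup.mk' N t} : Set (G ⧸ N))).comap
      (QuotientGroup.mk' N) with hL
    have hPL : (P : Subgroup G) ≤ L := by
      intro s hs
      rw [hL, Subgroup.mem_comap, Subgroup.mem_centralizer_singleton_iff]
      exact aQ P P.isPGroup' s hs t ht
    have hP1L : (P1 : Subgroup G) ≤ L := by
      intro s hs
      rw [hL, Subgroup.mem_comap, Subgroup.mem_centralizer_singleton_iff, ← map_mul, ← map_mul,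
        Subgroup.mem_centralizer_singleton_iff.mp (hP1 hs)]
    obtain ⟨l, hl, hle⟩ := Cfsg.Agent.Lib.Helper2.SylowUtil.exists_conj_le_in L P hPL P1
      P1.isPGroup' hP1L
    have heq : MulAut.conj l • (P1 : Subgroup G) = (P : Subgroup G) := by
      apply Subgroup.eq_of_le_of_card_ge hle
      rw [card_conj_smul, P.card_eq_multiplicity, P1.card_eq_multiplicity]
    have hcent : ∀ s ∈ (P : Subgroup G), s * (l * t * l⁻¹) = (l * t * l⁻¹) * s := by
      intro s hs
      rw [← heq, mem_conj_smul] at hs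
      have h1 := Subgroup.mem_centralizer_singleton_iff.mp (hP1 hs)
      calc s * (l * t * l⁻¹) = l * ((l⁻¹ * s * l) * t) * l⁻¹ := by group
        _ = l * (t * (l⁻¹ * s * l)) * l⁻¹ := by rw [h1]
        _ = (l * t * l⁻¹) * s := by group
    have hmem : l * t * l⁻¹ ∈ (P : Subgroup G) := by
      apply mem_sylow_of_centralizes P _ k
      · rw [← hk]
        exact orderOf_injective (MulAut.conj l).toMonoidHom (MulAut.conj l).injective t
      · rw [Subgroup.mem_centralizer_iff]
        exact hcent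
    refine ⟨t⁻¹ * (l * t * l⁻¹), Subgroup.mem_inf.mpr ⟨?_, ?_⟩, ?_⟩
    · exact (P : Subgroup G).mul_mem ((P : Subgroup G).inv_mem ht) hmem
    · rw [hL, Subgroup.mem_comap, Subgroup.mem_centralizer_singleton_iff] at hl
      rw [← QuotientGroup.eq_one_iff]
      change QuotientGroup.mk' N _ = 1
      rw [map_mul, map_mul, map_mul, hl, map_inv, map_inv]
      group
    · intro s hs
      rw [mul_inv_cancel_left]
      exact hcent s hs
  have hQp : IsPGroup p ((P : Subgroup G) ⊓ N : Subgroup G) := P.isPGroup'.to_le inf_le_left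
  -- step 2
  have s2 : ∀ t ∈ (P : Subgroup G), ∀ u ∈ (P : Subgroup G) ⊓ N, u * t = t * u := by
    intro t ht u hu
    obtain ⟨q, hq, hc⟩ := s1 t ht
    have h1 := hc u (Subgroup.mem_inf.mp hu).1
    have h2 := aN _ hQp inf_le_right u hu q hq
    have h3 : u * t * q = t * u * q := by
      calc u * t * q = u * (t * q) := by group
        _ = t * q * u := h1
        _ = t * (q * u) := by group
        _ = t * (u * q) := by rw [h2]
        _ = t * u * q := by group
    exact mul_right_cancel h3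
  refine ⟨⟨fun s t => Subtype.ext ?_⟩⟩
  change (s : G) * t = t * s
  obtain ⟨q, hq, hc⟩ := s1 t t.2
  have h1 := hc s s.2
  have h2 := s2 s s.2 q hq
  have h3 : (s : G) * t * q = t * s * q := by
    calc (s : G) * t * q = s * (t * q) := by group
      _ = t * q * s := h1
      _ = t * (q * s) := by group
      _ = t * (s * q) := by rw [h2]
      _ = t * s * q := by group
  exact mul_right_cancel h3

end Cfsg.Agent.Lib.Helper2.PCentral
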