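import Mathlib
import Cfsg.Agent.Lib.Helper7.CharBurnside

set_option autoImplicit false

namespace Cfsg.Agent.Lib.Helper2.PermSolv

open Cfsg.Agent.Lib.Helper7.CharBurnside

theorem perm_isSolvable_of_card_le_four {α : Type*} [Finite α] (h : Nat.card α ≤ 4) :
    Group.IsSolvable (Equiv.Perm α) := by
  classical
  have := Fintype.ofFinite α
  have hc : Nat.card (Equiv.Perm α) = (Nat.card α).factorial := by
    rw [Nat.card_eq_fintype_card, Fintype.card_perm, Nat.card_eq_fintype_card]
  have : ∃ a b : ℕ, Nat.card (Equiv.Perm α) = 2 ^ a * 3 ^ b := by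
    rw [hc]
    generalize Nat.card α = k at h
    interval_cases k
    · exact ⟨0, 0, rfl⟩
    · exact ⟨0, 0, rfl⟩
    · exact ⟨1, 0, rfl⟩
    · exact ⟨1, 1, rfl⟩
    · exact ⟨3, 1, rfl⟩
  obtain ⟨a, b, hab⟩ := this
  exact burnside_paqb 2 3 a b Nat.prime_two Nat.prime_three hab

theorem isSolvable_of_le {G : Type*} [Group G] {H K : Subgroup G} (h : H ≤ K)
    (hK : Group.IsSolvable K) : Group.IsSolvable H :=
  Group.isSolvable_of_isSolvable_injective (Subgroup.inclusion_injective h)

theorem closure_isSolvable_of_support_subset {α : Type*} [Fintype α] [DecidableEq α]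
    (T : Finset α) (hT : T.card ≤ 4) (S : Set (Equiv.Perm α)) (hS : ∀ σ ∈ S, σ.support ⊆ T) :
    Group.IsSolvable (Subgroup.closure S) := by
  have h1 : Group.IsSolvable (Equiv.Perm {x // x ∈ T}) := by
    apply perm_isSolvable_of_card_le_four
    simpa using hT
  have h2 : Group.IsSolvable
      (Equiv.Perm.ofSubtype : Equiv.Perm {x // x ∈ T} →* Equiv.Perm α).range :=
    Group.isSolvable_of_surjective (MonoidHom.rangeRestrict_surjective _)
  refine isSolvable_of_le ?_ h2
  rw [Subgroup.closure_le]
  intro σ hσ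
  rw [SetLike.mem_coe, Equiv.Perm.mem_range_ofSubtype_iff]
  intro x hx
  exact hS σ hσ hx

/-- A subgroup generated by a solvable subgroup and an element centralizing it is solvable. -/
theorem closure_insert_isSolvable {G : Type*} [Group G] (S : Set G) (z : G)
    (hz : ∀ s ∈ S, s * z = z * s) (hS : Group.IsSolvable (Subgroup.closure S)) :
    Group.IsSolvable (Subgroup.closure (insert z S)) := by
  have hK : Subgroup.closure S ≤ Subgroup.centralizer {z} := by
    rw [Subgroup.closure_le]
    intro s hs
    rw [SetLike.mem_coe, Subgroup.mem_centralizer_iff]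
    intro y hy
    rw [Set.mem_singleton_iff] at hy
    rw [hy]; exact (hz s hs).symm
  have hcomm : ∀ (k : Subgroup.closure S) (w : Subgroup.zpowers z),
      Commute ((Subgroup.closure S).subtype k) ((Subgroup.zpowers z).subtype w) := by
    intro k w
    obtain ⟨w, i, rfl⟩ := w
    have : Commute (k : G) z := (Subgroup.mem_centralizer_iff.mp (hK k.2) z rfl).symm
    exact this.zpow_right i
  let f := MonoidHom.noncommCoprod _ _ hcomm
  have hZ : Group.IsSolvable (Subgroup.zpowers z) :=
    Group.isSolvable_of_comm (fun a b => mul_comm' a b)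
  have h2 : Group.IsSolvable f.range :=
    Group.isSolvable_of_surjective (MonoidHom.rangeRestrict_surjective _)
  refine isSolvable_of_le ?_ h2
  rw [Subgroup.closure_le]
  rintro x (rfl | hx)
  · exact ⟨(1, ⟨x, Subgroup.mem_zpowers x⟩), by simp [f]⟩
  · exact ⟨(⟨x, Subgroup.subset_closure hx⟩, 1), by simp [f]⟩

end Cfsg.Agent.Lib.Helper2.PermSolv
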